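import Mathlib

/-!
# Partial homomorphisms and the double coset criterion
-/

set_option autoImplicit false

namespace Cfsg.Agent.Lib.SpAm.PHom

variable {G H : Type*} [Group G] [Group H]

/-- A function multiplicative on a subgroup. -/
def PH (Y : Subgroup G) (s : G → H) : Prop := ∀ x ∈ Y, ∀ y ∈ Y, s (x * y) = s x * s y

namespace PH

variable {Y Y' : Subgroup G} {s : G → H}

lemma one (h : PH Y s) : s 1 = 1 := by
  have := h 1 Y.one_mem 1 Y.one_mem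
  rw [mul_one] at this
  exact (mul_eq_left.1 this.symm)

lemma inv (h : PH Y s) {x : G} (hx : x ∈ Y) : s x⁻¹ = (s x)⁻¹ := by
  have := h x⁻¹ (Y.inv_mem hx) x hx
  rw [inv_mul_cancel, h.one] at this
  exact eq_inv_of_mul_eq_one_left this.symm

lemma conj (h : PH Y s) {g x : G} (hg : g ∈ Y) (hx : x ∈ Y) : s (g * x * g⁻¹) = s g * s x * (s g)⁻¹ := by
  rw [h _ (Y.mul_mem hg hx) _ (Y.inv_mem hg), h _ hg _ hx, h.inv hg]

lemma conj_inv (h : PH Y s) {g x : G} (hg : g ∈ Y) (hx : x ∈ Y) : s (g⁻¹ * x * g) = (s g)⁻¹ * s x * s g := by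
  rw [h _ (Y.mul_mem (Y.inv_mem hg) hx) _ hg, h _ (Y.inv_mem hg) _ hx, h.inv hg]

lemma mono (h : PH Y s) (hle : Y' ≤ Y) : PH Y' s := fun x hx y hy => h x (hle hx) y (hle hy)

lemma comm (h : PH Y s) {x y : G} (hx : x ∈ Y) (hy : y ∈ Y) (e : x * y = y * x) : Commute (s x) (s y) := by
  change _ = _
  rw [← h _ hx _ hy, ← h _ hy _ hx, e]

lemma mul3 (h : PH Y s) {x y z : G} (hx : x ∈ Y) (hy : y ∈ Y) (hz : z ∈ Y) :
    s (x * y * z) = s x * s y * s z := by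
  rw [h _ (Y.mul_mem hx hy) _ hz, h _ hx _ hy]

/-- Two multiplicative functions agreeing on generators agree. -/
lemma eq_on {t : G → H} (hs : PH Y s) (ht : PH Y t) {X : Set G} (hXY : X ⊆ Y)
    (hle : Y ≤ Subgroup.closure X) (he : ∀ x ∈ X, s x = t x) {g : G} (hg : g ∈ Y) : s g = t g := by
  have key : ∀ g (hg : g ∈ Subgroup.closure X), g ∈ Y ∧ s g = t g := by
    intro g hg
    induction hg using Subgroup.closure_induction with
    | mem x hx => exact ⟨hXY hx, he x hx⟩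
    | one => exact ⟨Y.one_mem, by rw [hs.one, ht.one]⟩
    | mul x y _ _ hx hy => exact ⟨Y.mul_mem hx.1 hy.1, by rw [hs _ hx.1 _ hy.1, ht _ hx.1 _ hy.1, hx.2, hy.2]⟩
    | inv x _ hx => exact ⟨Y.inv_mem hx.1, by rw [hs.inv hx.1, ht.inv hx.1, hx.2]⟩
  exact (key g (hle hg)).2

/-- Commutation with a fixed element propagates from generators. -/
lemma comm_on (hs : PH Y s) {X : Set G} (hXY : X ⊆ Y) (hle : Y ≤ Subgroup.closure X) {h₀ : H}
    (he : ∀ x ∈ X, Commute (s x) h₀) {g : G} (hg : g ∈ Y) : Commute (s g) h₀ := by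
  have key : ∀ g (hg : g ∈ Subgroup.closure X), g ∈ Y ∧ Commute (s g) h₀ := by
    intro g hg
    induction hg using Subgroup.closure_induction with
    | mem x hx => exact ⟨hXY hx, he x hx⟩
    | one => exact ⟨Y.one_mem, by rw [hs.one]; exact Commute.one_left _⟩
    | mul x y _ _ hx hy => exact ⟨Y.mul_mem hx.1 hy.1, by rw [hs _ hx.1 _ hy.1]; exact hx.2.mul_left hy.2⟩
    | inv x _ hx => exact ⟨Y.inv_mem hx.1, by rw [hs.inv hx.1]; exact hx.2.inv_left⟩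
  exact (key g (hle hg)).2

end PH

/-- The double coset criterion. -/
theorem dc (π : H →* G) (R : Subgroup G) (ψ : G → H) (hψ : PH R ψ) (hπ : ∀ x ∈ R, π (ψ x) = x)
    (n : G) (n' : H) (hn : π n' = n) (hn4 : n' ^ 4 = 1) (Λ : Set H) (h1 : (1 : H) ∈ Λ)
    (hΛ : ∀ y ∈ Λ, π y ∈ R → y = ψ (π y))
    (hcl : ∀ r ∈ R, ∀ x ∈ Λ, ∃ r₁ ∈ R, ∃ r₂ ∈ R, ∃ y ∈ Λ, n' * ψ r * x = ψ r₁ * y * ψ r₂) :
    ∃ Φ : G → H, PH (Subgroup.closure ((R : Set G) ∪ {n})) Φ ∧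
      (∀ x ∈ Subgroup.closure ((R : Set G) ∪ {n}), π (Φ x) = x) ∧ (∀ x ∈ R, Φ x = ψ x) ∧ Φ n = n' := by
  classical
  set D : Set H := {z | ∃ r₁ ∈ R, ∃ r₂ ∈ R, ∃ y ∈ Λ, z = ψ r₁ * y * ψ r₂} with hD
  have h1D : (1 : H) ∈ D := ⟨1, R.one_mem, 1, R.one_mem, 1, h1, by simp [hψ.one]⟩
  have hLψ : ∀ r ∈ R, ∀ z ∈ D, ψ r * z ∈ D := by
    rintro r hr z ⟨r₁, hr₁, r₂, hr₂, y, hy, rfl⟩
    refine ⟨r * r₁, R.mul_mem hr hr₁, r₂, hr₂, y, hy, ?_⟩
    rw [hψ _ hr _ hr₁]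
    group
  have hLn : ∀ z ∈ D, n' * z ∈ D := by
    rintro z ⟨r₁, hr₁, r₂, hr₂, y, hy, rfl⟩
    obtain ⟨s₁, hs₁, s₂, hs₂, y', hy', e⟩ := hcl r₁ hr₁ y hy
    refine ⟨s₁, hs₁, s₂ * r₂, R.mul_mem hs₂ hr₂, y', hy', ?_⟩
    rw [hψ _ hs₂ _ hr₂, ← mul_assoc, ← mul_assoc, e]
    group
  have hninv : n'⁻¹ = n' * n' * n' := by
    rw [inv_eq_iff_mul_eq_one]
    rw [← hn4]
    simp only [pow_succ, pow_zero, one_mul, mul_assoc]
  set Γ : Subgroup H := Subgroup.closure (ψ '' (R : Set G) ∪ {n'}) with hΓ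
  have hΓD : ∀ x ∈ Γ, x ∈ D := by
    intro x hx
    induction hx using Subgroup.closure_induction_left with
    | one => exact h1D
    | mul_left a ha y _ hy =>
      rcases ha with ⟨r, hr, rfl⟩ | rfl
      · exact hLψ r hr y hy
      · exact hLn y hy
    | inv_mul_cancel a ha y _ hy =>
      rcases ha with ⟨r, hr, rfl⟩ | rfl
      · rw [← hψ.inv hr]
        exact hLψ _ (R.inv_mem hr) y hy
      · rw [hninv]
        have := hLn _ (hLn _ (hLn y hy))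
        simpa [mul_assoc] using this
  have hfib : ∀ x ∈ Γ, π x = 1 → x = 1 := by
    intro x hx hx1
    obtain ⟨r₁, hr₁, r₂, hr₂, y, hy, rfl⟩ := hΓD x hx
    rw [map_mul, map_mul, hπ _ hr₁, hπ _ hr₂] at hx1
    have e : π y = r₁⁻¹ * r₂⁻¹ := by
      calc π y = r₁⁻¹ * (r₁ * π y * r₂) * r₂⁻¹ := by group
        _ = _ := by rw [hx1]; group
    have hyR : π y ∈ R := by
      rw [e]
      exact R.mul_mem (R.inv_mem hr₁) (R.inv_mem hr₂)
    rw [hΛ y hy hyR, e, hψ _ (R.inv_mem hr₁) _ (R.inv_mem hr₂), hψ.inv hr₁, hψ.inv hr₂]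
    group
  have honto : ∀ g ∈ Subgroup.closure ((R : Set G) ∪ {n}), ∃ x ∈ Γ, π x = g := by
    intro g hg
    induction hg using Subgroup.closure_induction with
    | mem x hx =>
      rcases hx with hx | rfl
      · exact ⟨ψ x, Subgroup.subset_closure (Or.inl ⟨x, hx, rfl⟩), hπ x hx⟩
      · exact ⟨n', Subgroup.subset_closure (Or.inr rfl), hn⟩
    | one => exact ⟨1, Γ.one_mem, map_one _⟩
    | mul a b _ _ ha hb =>
      obtain ⟨x, hx, rfl⟩ := ha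
      obtain ⟨y, hy, rfl⟩ := hb
      exact ⟨x * y, Γ.mul_mem hx hy, map_mul _ _ _⟩
    | inv a _ ha =>
      obtain ⟨x, hx, rfl⟩ := ha
      exact ⟨x⁻¹, Γ.inv_mem hx, map_inv _ _⟩
  have huniq : ∀ x ∈ Γ, ∀ y ∈ Γ, π x = π y → x = y := by
    intro x hx y hy e
    have := hfib (x * y⁻¹) (Γ.mul_mem hx (Γ.inv_mem hy)) (by rw [map_mul, map_inv, e]; group)
    exact mul_inv_eq_one.1 this
  set C := Subgroup.closure ((R : Set G) ∪ {n}) with hC
  let Φ : G → H := fun g => if h : g ∈ C then Classical.choose (honto g h) else 1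
  have hΦ : ∀ g (h : g ∈ C), Φ g ∈ Γ ∧ π (Φ g) = g := by
    intro g h
    have := Classical.choose_spec (honto g h)
    simp only [Φ, dif_pos h]
    exact this
  have hΦe : ∀ g ∈ C, ∀ x ∈ Γ, π x = g → Φ g = x := by
    intro g hg x hx e
    exact huniq _ (hΦ g hg).1 _ hx (by rw [(hΦ g hg).2, e])
  refine ⟨Φ, ?_, fun x hx => (hΦ x hx).2, ?_, ?_⟩
  · intro x hx y hy
    apply hΦe _ (C.mul_mem hx hy) _ (Γ.mul_mem (hΦ x hx).1 (hΦ y hy).1)
    rw [map_mul, (hΦ x hx).2, (hΦ y hy).2]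
  · intro x hx
    have hxC : x ∈ C := Subgroup.subset_closure (Or.inl hx)
    exact hΦe _ hxC _ (Subgroup.subset_closure (Or.inl ⟨x, hx, rfl⟩)) (hπ x hx)
  · have hnC : n ∈ C := Subgroup.subset_closure (Or.inr rfl)
    exact hΦe _ hnC _ (Subgroup.subset_closure (Or.inr rfl)) hn

end Cfsg.Agent.Lib.SpAm.PHom
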