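import Cfsg.Agent.Lib.SpAm.Rank2G
import Cfsg.Agent.Lib.SpAm.PHom

/-!
# Rank 3: the commutator relation
-/

set_option autoImplicit false

namespace Cfsg.Agent.Lib.SpAm.Rank3

open Cfsg.Agent.Lib.SpAm.Model Cfsg.Agent.Lib.SpAm.Rank2G Cfsg.Agent.Lib.SpAm.PHom

variable {m : ℕ} {F : Type*} [Field F] {H : Type*} [Group H]

section abstract

/-- The commutator. -/
def cm (x y : H) : H := x * y * x⁻¹ * y⁻¹

lemma cm_conj (g x y : H) : g * cm x y * g⁻¹ = cm (g * x * g⁻¹) (g * y * g⁻¹) := by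
  unfold cm
  group

lemma comm_conj {a b : H} (g : H) (h : Commute a b) : Commute (g * a * g⁻¹) (g * b * g⁻¹) := by
  change _ = _
  calc g * a * g⁻¹ * (g * b * g⁻¹) = g * (a * b) * g⁻¹ := by group
    _ = g * (b * a) * g⁻¹ := by rw [h.eq]
    _ = _ := by group

lemma comm_of_conj_eq {g c : H} (h : g * c * g⁻¹ = c) : Commute g c := by
  change _ = _
  calc g * c = (g * c * g⁻¹) * g := by group
    _ = _ := by rw [h]

lemma comm_cm3 {g x y t k : H} (hgy : Commute g y) (hgx : g * x * g⁻¹ = t * x * k) (htx : Commute t x)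
    (hty : Commute t y) (hky : Commute k y) : Commute g (cm x y) := by
  apply comm_of_conj_eq
  have hgy' : g * y * g⁻¹ = y := by
    rw [hgy.eq]
    group
  rw [cm_conj, hgx, hgy']
  have h1 : Commute t (x * y * x⁻¹) := (htx.mul_right hty).mul_right htx.inv_right
  unfold cm
  calc t * x * k * y * (t * x * k)⁻¹ * y⁻¹ = t * x * (k * y) * k⁻¹ * x⁻¹ * t⁻¹ * y⁻¹ := by group
    _ = t * x * y * k * k⁻¹ * x⁻¹ * t⁻¹ * y⁻¹ := by
        rw [hky.eq]
        group
    _ = (t * (x * y * x⁻¹)) * t⁻¹ * y⁻¹ := by group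
    _ = ((x * y * x⁻¹) * t) * t⁻¹ * y⁻¹ := by rw [h1.eq]
    _ = _ := by group

lemma comm_cm2 {g x y k : H} (hgx : Commute g x) (hgy : g * y * g⁻¹ = y * k) (hk : Commute k x) :
    Commute g (cm x y) := by
  apply comm_of_conj_eq
  have hgx' : g * x * g⁻¹ = x := by
    rw [hgx.eq]
    group
  rw [cm_conj, hgx', hgy]
  unfold cm
  calc x * (y * k) * x⁻¹ * (y * k)⁻¹ = x * y * (k * x⁻¹) * k⁻¹ * y⁻¹ := by group
    _ = x * y * (x⁻¹ * k) * k⁻¹ * y⁻¹ := by rw [hk.inv_right.eq]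
    _ = _ := by group

lemma cm_mul_right (x y y' : H) : cm x (y * y') = cm x y * (y * cm x y' * y⁻¹) := by
  unfold cm
  group

lemma cm_mul_left (x x' y : H) : cm (x * x') y = x * cm x' y * x⁻¹ * cm x y := by
  unfold cm
  group

lemma cm_triple {x A B E v : H} (hE : Commute x E) (hB : B * x * B⁻¹ = v * x) :
    cm x (A * B * E) = cm x A * (v⁻¹ * cm v A) := by
  have h1 : E * x⁻¹ * E⁻¹ = x⁻¹ := by
    rw [hE.inv_left.symm.eq]
    group
  have h2 : B * x⁻¹ * B⁻¹ = x⁻¹ * v⁻¹ := by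
    have : B * x⁻¹ * B⁻¹ = (B * x * B⁻¹)⁻¹ := by group
    rw [this, hB, mul_inv_rev]
  unfold cm
  calc x * (A * B * E) * x⁻¹ * (A * B * E)⁻¹ = x * A * B * (E * x⁻¹ * E⁻¹) * B⁻¹ * A⁻¹ := by group
    _ = x * A * (B * x⁻¹ * B⁻¹) * A⁻¹ := by rw [h1]; group
    _ = _ := by rw [h2]; group

end abstract

section groupLevel

variable {p q r : Fin m}

lemma g1 (hpq : p ≠ q) (c d : F) :
    xp p q d * yy p q c * (xp p q d)⁻¹ = tS (ee p) (-(2 * c * d)) * yy p q c := by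
  rw [yy, xS_conj, xp_ee_a hpq, xp_ee_b hpq]
  have h0 : fm (ee p : VV m F) (ee q - d • ee p) = 0 := by
    rw [fm_sub_right, fm_smul_right, fm_ee_ee, fm_ee_ee]
    simp
  apply sp_ext
  intro x
  simp only [act_mul, xS_act h0, xS_act (fm_ee_ee p q), tS_act, fm_add_left, fm_smul_left, fm_sub_right,
    fm_smul_right, fm_self, fm_ee_ee]
  simp only [mul_zero, zero_add, add_zero, sub_zero, zero_mul]
  module

lemma g2 (hpq : p ≠ q) (c d : F) :
    yy p q d * xp p q c * (yy p q d)⁻¹ = tS (ee p) (2 * d * c) * xp p q c := by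
  rw [xp, xS_conj]
  have e1 : yy p q d ⋆ ee p = (ee p : VV m F) := by
    rw [yy, xS_act (fm_ee_ee p q), fm_self, fm_ee_ee]
    simp
  rw [e1, yy_ff_b hpq]
  have h0 : fm (ee p : VV m F) (ff q + d • ee p) = 0 := by
    rw [fm_add_right, fm_smul_right, fm_self, orth_p hpq]
    simp
  have hp := orth_p (F := F) hpq
  have hp' := orth_p' (F := F) hpq
  apply sp_ext
  intro x
  simp only [act_mul, xS_act h0, xS_act hp, tS_act, fm_add_left, fm_smul_left, fm_add_right,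
    fm_smul_right, fm_self, hp, hp']
  simp only [mul_zero, zero_add, add_zero, sub_zero, zero_mul]
  module

lemma g3 (hqr : q ≠ r) (d s : F) :
    tS (ee q) d * xm q r s * (tS (ee q) d)⁻¹ = xm q r s * (yy q r (d * s) * tS (ee r) (d * s ^ 2)) := by
  rw [xm, xS_conj, tS_ee_ff]
  have he : tS (ee q) d ⋆ ee r = (ee r : VV m F) := by
    rw [tS_act, fm_ee_ee]
    simp
  rw [he]
  have hm := orth_m (F := F) hqr
  have hm' := orth_m' (F := F) hqr
  have h0 : fm (ff q + d • ee q : VV m F) (ee r) = 0 := by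
    rw [fm_add_left, fm_smul_left, hm, fm_ee_ee]
    simp
  apply sp_ext
  intro x
  simp only [yy, act_mul, xS_act h0, xS_act hm, xS_act (fm_ee_ee q r), tS_act, fm_add_left, fm_smul_left,
    fm_self, fm_ee_ee, hm, hm', fm_ee_ff_self, fm_add_right, fm_smul_right]
  simp only [mul_zero, zero_add, add_zero, zero_mul]
  module

lemma g4 (hqr : q ≠ r) (d s : F) : tS (ff q) d * xm q r s = xm q r s * tS (ff q) d := by
  have hm := orth_m (F := F) hqr
  have hm' := orth_m' (F := F) hqr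
  apply sp_ext
  intro x
  simp only [act_mul, xm, xS_act hm, tS_act, fm_add_left, fm_smul_left, fm_self, hm, hm', fm_ff_ff]
  simp only [mul_zero, zero_add, add_zero]
  module

lemma g5 (hpq : p ≠ q) (c d : F) :
    tS (ff q) d * yy p q c * (tS (ff q) d)⁻¹ = tS (ee p) (c ^ 2 * d) * yy p q c * xp p q (-(c * d)) := by
  rw [yy, xS_conj, tS_ff_ee]
  have he : tS (ff q) d ⋆ ee p = (ee p : VV m F) := by
    rw [tS_act, orth_p hpq]
    simp
  rw [he]
  have hp := orth_p (F := F) hpq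
  have hp' := orth_p' (F := F) hpq
  have h0 : fm (ee p : VV m F) (ee q - d • ff q) = 0 := by
    rw [fm_sub_right, fm_smul_right, fm_ee_ee, hp]
    simp
  apply sp_ext
  intro x
  simp only [xp, act_mul, xS_act h0, xS_act hp, xS_act (fm_ee_ee p q), tS_act, fm_add_left, fm_smul_left,
    fm_self, fm_ee_ee, hp, hp', fm_ff_ee_self, fm_sub_right, fm_smul_right]
  simp only [mul_zero, zero_add, add_zero, zero_mul, sub_zero]
  module

lemma g7 (hqr : q ≠ r) (s : F) : nn q * xm q r s * (nn q)⁻¹ = yy q r s := by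
  rw [xm, xS_conj, nn_ff, nn_ee_ne hqr.symm, yy]

lemma g10 (hqr : q ≠ r) (s s' : F) : xm q r s * xm q r s' = xm q r s' * xm q r s := by
  rw [← xm_add hqr, ← xm_add hqr, add_comm]

lemma g11 (hqr : q ≠ r) (s s' : F) :
    xm q r s' * yy q r s * (xm q r s')⁻¹ = yy q r s * tS (ee r) (-(2 * s * s')) := by
  rw [yy, xS_conj, xm_ee_b hqr, xm_ee_a hqr]
  have h0 : fm (ee q - s' • ee r : VV m F) (ee r) = 0 := by
    rw [fm_sub_left, fm_smul_left, fm_ee_ee, fm_ee_ee]
    simp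
  apply sp_ext
  intro x
  simp only [act_mul, xS_act h0, xS_act (fm_ee_ee q r), tS_act, fm_add_left, fm_smul_left, fm_sub_right,
    fm_smul_right, fm_self, fm_ee_ee]
  simp only [mul_zero, zero_add, add_zero, sub_zero, zero_mul]
  module

lemma g12 (hpq : p ≠ q) {κ : F} (hκ : κ ≠ 0) (c : F) :
    hh q κ * yy p q c * (hh q κ)⁻¹ = yy p q (κ * c) := by
  rw [yy, xS_conj, hh_ee q hκ, hh_ee_ne hpq, xS_smul_right (fm_ee_ee p q), yy]

lemma g14_aux (hqr : q ≠ r) {d s u : F} (h : (1 + d * s) * u = 1) :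
    xp q r d * xm q r s = xm q r (s * u) * (hh q (1 + d * s) * hh r u) * xp q r (d * u) := by
  have h0 : 1 + d * s ≠ 0 := left_ne_zero_of_mul_eq_one h
  have hu : u ≠ 0 := right_ne_zero_of_mul_eq_one h
  have e1 : (1 + d * s)⁻¹ = u := inv_eq_of_mul_eq_one_right h
  have e2 : u⁻¹ = 1 + d * s := by rw [← e1, inv_inv]
  have hq : q ∈ ({q, r} : Set (Fin m)) := mem_pair_left q r
  have hr : r ∈ ({q, r} : Set (Fin m)) := mem_pair_right q r
  have hm1 : xp q r d * xm q r s ∈ (Fx ({q, r} : Set (Fin m)) : Subgroup (Spg m F)) :=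
    (Fx _).mul_mem (xp_mem q r d) (xm_mem q r s)
  have hm2 : xm q r (s * u) * (hh q (1 + d * s) * hh r u) * xp q r (d * u) ∈ (Fx ({q, r} : Set (Fin m)) : Subgroup (Spg m F)) :=
    (Fx _).mul_mem ((Fx _).mul_mem (xm_mem q r _) ((Fx _).mul_mem (hh_mem hq _) (hh_mem hr _))) (xp_mem q r _)
  have hqr' := hqr.symm
  apply L_ext hm1 hm2
  · simp only [act_mul, act_add, act_sub, act_smul, xm_ee_a hqr, xm_ee_b hqr, xp_ee_a hqr, xp_ee_b hqr,
      hh_ee q h0, hh_ee r hu, hh_ee_ne hqr, hh_ee_ne hqr']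
    match_scalars <;> first | ring1 | linear_combination s * h | linear_combination (-s) * h | linear_combination d * h | linear_combination (-d) * h | linear_combination (-(1 + u * d * s)) * h
  · simp only [act_mul, act_add, act_sub, act_smul, xm_ee_a hqr, xm_ee_b hqr, xp_ee_a hqr, xp_ee_b hqr,
      hh_ee q h0, hh_ee r hu, hh_ee_ne hqr, hh_ee_ne hqr']
    match_scalars <;> first | ring1 | linear_combination s * h | linear_combination (-s) * h | linear_combination d * h | linear_combination (-d) * h | linear_combination (-(1 + u * d * s)) * h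
  · simp only [act_mul, act_add, act_sub, act_smul, xm_ff_a hqr, xm_ff_b hqr, xp_ff_a hqr, xp_ff_b hqr,
      hh_ff q h0, hh_ff r hu, hh_ff_ne hqr, hh_ff_ne hqr', e1, e2]
    match_scalars <;> first | ring1 | linear_combination s * h | linear_combination (-s) * h | linear_combination d * h | linear_combination (-d) * h | linear_combination (-(1 + u * d * s)) * h
  · simp only [act_mul, act_add, act_sub, act_smul, xm_ff_a hqr, xm_ff_b hqr, xp_ff_a hqr, xp_ff_b hqr,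
      hh_ff q h0, hh_ff r hu, hh_ff_ne hqr, hh_ff_ne hqr', e1, e2]
    match_scalars <;> first | ring1 | linear_combination s * h | linear_combination (-s) * h | linear_combination d * h | linear_combination (-d) * h | linear_combination (-(1 + u * d * s)) * h

lemma g14 (hqr : q ≠ r) {κ d s : F} (hκ : κ = 1 + d * s) (h0 : κ ≠ 0) :
    xp q r d * xm q r s = xm q r (s / κ) * (hh q κ * hh r κ⁻¹) * xp q r (d / κ) := by
  subst hκ
  rw [div_eq_mul_inv, div_eq_mul_inv]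
  exact g14_aux hqr (mul_inv_cancel₀ h0)

lemma ww_swap (hab : p ≠ q) : ww q p = (ww p q : Spg m F)⁻¹ := by
  have e1 : ∀ c : F, xp p q c = xm q p c := fun c => xS_symm (orth_p hab) c
  have e2 : ∀ c : F, xm p q c = xp q p c := fun c => xS_symm (orth_m hab) c
  have e3 : (ww p q : Spg m F)⁻¹ = xp p q (-1) * xm p q (- -1) * xp p q (-1) := by
    rw [ww, xp_neg hab, xm_neg hab, neg_neg]
    simp [xm_neg hab, xp_neg hab, mul_assoc]
  rw [e3, neg_neg, e1, e2, ww_alt hab.symm]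

end groupLevel

/-- The input data of the rank 3 argument. -/
structure In3 (p q r : Fin m) (la ro : Spg m F → H) : Prop where
  pq : p ≠ q
  qr : q ≠ r
  pr : p ≠ r
  pl : PH (Fx ({p, q} : Set (Fin m))) la
  pro : PH (Fx ({q, r} : Set (Fin m))) ro
  ag : ∀ x ∈ (Fx ({q} : Set (Fin m)) : Subgroup (Spg m F)), la x = ro x
  cmM : ∀ x ∈ (Mg p q : Subgroup (Spg m F)), ∀ y ∈ (Mg q r : Subgroup (Spg m F)), Commute (la x) (ro y)
  cm1 : ∀ x ∈ (Fx ({p} : Set (Fin m)) : Subgroup (Spg m F)), ∀ y ∈ (Fx ({q, r} : Set (Fin m)) : Subgroup (Spg m F)),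
    Commute (la x) (ro y)
  cm3 : ∀ x ∈ (Fx ({p, q} : Set (Fin m)) : Subgroup (Spg m F)), ∀ y ∈ (Fx ({r} : Set (Fin m)) : Subgroup (Spg m F)),
    Commute (la x) (ro y)
  hF : ∃ a : F, a ≠ 0 ∧ a ≠ 1

namespace In3

variable {p q r : Fin m} {la ro : Spg m F → H} (D : In3 p q r la ro)
include D

lemma swap : In3 r q p ro la where
  pq := D.qr.symm
  qr := D.pq.symm
  pr := D.pr.symm
  pl := by
    have := D.pro
    rwa [Set.pair_comm q r] at this
  pro := by
    have := D.pl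
    rwa [Set.pair_comm p q] at this
  ag := fun x hx => (D.ag x hx).symm
  cmM := by
    intro x hx y hy
    rw [Mg_symm] at hx hy
    exact (D.cmM y hy x hx).symm
  cm1 := by
    intro x hx y hy
    rw [Set.pair_comm q p] at hy
    exact (D.cm3 y hy x hx).symm
  cm3 := by
    intro x hx y hy
    rw [Set.pair_comm r q] at hx
    exact (D.cm1 y hy x hx).symm
  hF := D.hF

lemma mp_yy (c : F) : yy p q c ∈ (Fx ({p, q} : Set (Fin m)) : Subgroup (Spg m F)) := yy_mem p q c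

lemma mp_xp (c : F) : xp p q c ∈ (Fx ({p, q} : Set (Fin m)) : Subgroup (Spg m F)) := xp_mem p q c

lemma mp_s {g : Spg m F} (hg : g ∈ (Fx ({q} : Set (Fin m)) : Subgroup (Spg m F))) : g ∈ (Fx ({p, q} : Set (Fin m)) : Subgroup (Spg m F)) :=
  Fx_single_le_pair_right p q hg

lemma mr_s {g : Spg m F} (hg : g ∈ (Fx ({q} : Set (Fin m)) : Subgroup (Spg m F))) : g ∈ (Fx ({q, r} : Set (Fin m)) : Subgroup (Spg m F)) :=
  Fx_single_le_pair_left q r hg

lemma mp_t (c : F) : tS (ee p) c ∈ (Fx ({p, q} : Set (Fin m)) : Subgroup (Spg m F)) :=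
  tS_mem (Sup_ee (mem_pair_left p q)) c

lemma s_p_t (c : F) : tS (ee p) c ∈ (Fx ({p} : Set (Fin m)) : Subgroup (Spg m F)) :=
  tS_mem (Sup_ee (Set.mem_singleton p)) c

lemma s_r_t (c : F) : tS (ee r) c ∈ (Fx ({r} : Set (Fin m)) : Subgroup (Spg m F)) :=
  tS_mem (Sup_ee (Set.mem_singleton r)) c

lemma mr_t (c : F) : tS (ee r) c ∈ (Fx ({q, r} : Set (Fin m)) : Subgroup (Spg m F)) :=
  tS_mem (Sup_ee (mem_pair_right q r)) c

lemma s_q_te (c : F) : tS (ee q) c ∈ (Fx ({q} : Set (Fin m)) : Subgroup (Spg m F)) :=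
  tS_mem (Sup_ee (Set.mem_singleton q)) c

lemma s_q_tf (c : F) : tS (ff q) c ∈ (Fx ({q} : Set (Fin m)) : Subgroup (Spg m F)) :=
  tS_mem (Sup_ff (Set.mem_singleton q)) c

lemma s_q_n : (nn q : Spg m F) ∈ (Fx ({q} : Set (Fin m)) : Subgroup (Spg m F)) := nn_mem (Set.mem_singleton q)

lemma Y_comm_Z (c s : F) : Commute (la (yy p q c)) (ro (yy q r s)) :=
  D.cmM _ (yy_mem_Mg p q c) _ (yy_mem_Mg q r s)

lemma Y_comm_Xd (c d : F) : Commute (la (yy p q c)) (ro (xp q r d)) := by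
  have h : (ro (xp q r d)) = ro (nn r) * ro (yy q r (-d)) * (ro (nn r))⁻¹ := by
    rw [← D.pro.conj (nn_mem (mem_pair_right q r)) (yy_mem q r _), nn_b_yy D.qr, neg_neg]
  have h1 : Commute (la (yy p q c)) (ro (nn r)) := D.cm3 _ (D.mp_yy c) _ (nn_mem (Set.mem_singleton r))
  rw [h]
  exact (h1.mul_right (D.Y_comm_Z c _)).mul_right h1.inv_right

lemma Y'_comm_Xi (d s : F) : Commute (la (xp p q d)) (ro (xm q r s)) := by
  have h1 : la (xp p q d) = la (nn q) * la (yy p q (-d)) * (la (nn q))⁻¹ := by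
    rw [← D.pl.conj (D.mp_s D.s_q_n) (D.mp_yy _), nn_b_yy D.pq, neg_neg]
  have h2 : ro (xm q r s) = la (nn q) * ro (yy q r (-s)) * (la (nn q))⁻¹ := by
    rw [D.ag _ D.s_q_n, ← D.pro.conj (D.mr_s D.s_q_n) (yy_mem q r _), nn_a_yy D.qr, neg_neg]
  rw [h1, h2]
  exact comm_conj _ (D.Y_comm_Z _ _)

lemma t1_comm_Xi (c s : F) : Commute (la (tS (ee p) c)) (ro (xm q r s)) :=
  D.cm1 _ (D.s_p_t c) _ (xm_mem q r s)

lemma t1_comm_Z (c s : F) : Commute (la (tS (ee p) c)) (ro (yy q r s)) :=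
  D.cm1 _ (D.s_p_t c) _ (yy_mem q r s)

lemma t1_comm_Y (c d : F) : Commute (la (tS (ee p) c)) (la (yy p q d)) :=
  D.pl.comm (D.mp_t c) (D.mp_yy d) (Mg_comm (tS_ee_mem_Mg_left p q c) (yy_mem_Mg p q d))

lemma t1_comm_Y' (c d : F) : Commute (la (tS (ee p) c)) (la (xp p q d)) :=
  D.pl.comm (D.mp_t c) (D.mp_xp d) (xp_comm_tS D.pq d c).symm

/-- The commutator `C(c,s)`. -/
def CC (la ro : Spg m F → H) (p q r : Fin m) (c s : F) : H := cm (la (yy p q c)) (ro (xm q r s))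

lemma CC_comm_Y' (c s d : F) : Commute (la (xp p q d)) (CC la ro p q r c s) := by
  refine comm_cm3 (t := la (tS (ee p) (-(2 * c * d)))) (k := 1) (D.Y'_comm_Xi d s) ?_ (D.t1_comm_Y _ _) (D.t1_comm_Xi _ _)
    (Commute.one_left _)
  rw [← D.pl.conj (D.mp_xp d) (D.mp_yy c), g1 D.pq, D.pl _ (D.mp_t _) _ (D.mp_yy _), mul_one]

lemma CC_comm_te (c s d : F) : Commute (la (tS (ee q) d)) (CC la ro p q r c s) := by
  have hm := tS_ee_mem_Mg_right (F := F) p q d
  refine comm_cm2 (k := ro (yy q r (d * s) * tS (ee r) (d * s ^ 2))) ?_ ?_ ?_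
  · exact D.pl.comm (D.mp_s (D.s_q_te d)) (D.mp_yy c) (Mg_comm hm (yy_mem_Mg p q c))
  · rw [D.ag _ (D.s_q_te d), ← D.pro.conj (D.mr_s (D.s_q_te d)) (xm_mem q r s), g3 D.qr,
      D.pro _ (xm_mem q r s) _ (Subgroup.mul_mem _ (yy_mem q r _) (D.mr_t _))]
  · rw [D.pro _ (yy_mem q r _) _ (D.mr_t _)]
    exact ((D.Y_comm_Z c _).mul_right (D.cm3 _ (D.mp_yy c) _ (D.s_r_t _))).symm

lemma CC_comm_tf (c s d : F) : Commute (la (tS (ff q) d)) (CC la ro p q r c s) := by
  refine comm_cm3 (t := la (tS (ee p) (c ^ 2 * d))) (k := la (xp p q (-(c * d)))) ?_ ?_ (D.t1_comm_Y _ _) (D.t1_comm_Xi _ _)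
    (D.Y'_comm_Xi _ _)
  · rw [D.ag _ (D.s_q_tf d)]
    exact D.pro.comm (D.mr_s (D.s_q_tf d)) (xm_mem q r s) (g4 D.qr d s)
  · rw [← D.pl.conj (D.mp_s (D.s_q_tf d)) (D.mp_yy c), g5 D.pq, D.pl.mul3 (D.mp_t _) (D.mp_yy _) (D.mp_xp _)]

lemma CC_comm_S {g : Spg m F} (hg : g ∈ (Fx ({q} : Set (Fin m)) : Subgroup (Spg m F))) (c s : F) :
    Commute (la g) (CC la ro p q r c s) := by
  have hPH : PH (Fx ({q} : Set (Fin m)) : Subgroup (Spg m F)) la := D.pl.mono (Fx_single_le_pair_right p q)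
  refine PH.comm_on hPH (X := Set.range (tS (ee q)) ∪ Set.range (tS (ff q))) ?_ (Fx_single_le_Sgen q) ?_ hg
  · rintro _ (⟨d, rfl⟩ | ⟨d, rfl⟩)
    · exact D.s_q_te d
    · exact D.s_q_tf d
  · rintro _ (⟨d, rfl⟩ | ⟨d, rfl⟩)
    · exact D.CC_comm_te c s d
    · exact D.CC_comm_tf c s d

/-- The second form of the commutator. -/
lemma CC_form2 (c s : F) : CC la ro p q r c s = cm (la (xp p q (-c))) (ro (yy q r s)) := by
  have h := (D.CC_comm_S D.s_q_n c s)
  have e : la (nn q) * CC la ro p q r c s * (la (nn q))⁻¹ = CC la ro p q r c s := by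
    rw [h.eq]
    group
  rw [← e, CC, cm_conj, ← D.pl.conj (D.mp_s D.s_q_n) (D.mp_yy c), nn_b_yy D.pq, D.ag _ D.s_q_n,
    ← D.pro.conj (D.mr_s D.s_q_n) (xm_mem q r s), g7 D.qr]

lemma CC_comm_Y (c s d : F) : Commute (la (yy p q d)) (CC la ro p q r c s) := by
  rw [D.CC_form2]
  refine comm_cm3 (t := la (tS (ee p) (2 * d * (-c)))) (k := 1) (D.Y_comm_Z d s) ?_ (D.t1_comm_Y' _ _) (D.t1_comm_Z _ _)
    (Commute.one_left _)
  rw [← D.pl.conj (D.mp_yy d) (D.mp_xp _), g2 D.pq, D.pl _ (D.mp_t _) _ (D.mp_xp _), mul_one]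

lemma CC_comm_Xi (c s s' : F) : Commute (ro (xm q r s')) (CC la ro p q r c s) := by
  rw [D.CC_form2]
  refine comm_cm2 (k := ro (tS (ee r) (-(2 * s * s')))) (D.Y'_comm_Xi _ _).symm ?_ ?_
  · rw [← D.pro.conj (xm_mem q r s') (yy_mem q r s), g11 D.qr, D.pro _ (yy_mem q r s) _ (D.mr_t _)]
  · exact (D.cm3 _ (D.mp_xp _) _ (D.s_r_t _)).symm

lemma CC_add_right (c s s' : F) : CC la ro p q r c (s + s') = CC la ro p q r c s * CC la ro p q r c s' := by
  rw [CC, xm_add D.qr, D.pro _ (xm_mem q r s) _ (xm_mem q r s'), cm_mul_right, ← CC, ← CC]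
  have h := D.CC_comm_Xi c s' s
  rw [h.eq]
  group

lemma CC_add_left (c c' s : F) : CC la ro p q r (c + c') s = CC la ro p q r c' s * CC la ro p q r c s := by
  rw [CC, yy_add, D.pl _ (D.mp_yy c) _ (D.mp_yy c'), cm_mul_left, ← CC, ← CC]
  have h := D.CC_comm_Y c' s c
  rw [h.eq]
  group

lemma CC_zero_right (c : F) : CC la ro p q r c 0 = 1 := by
  have h := D.CC_add_right c 0 0
  rw [add_zero] at h
  exact mul_eq_left.1 h.symm

lemma CC_zero_left (s : F) : CC la ro p q r 0 s = 1 := by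
  have h := D.CC_add_left 0 0 s
  rw [add_zero] at h
  exact mul_eq_left.1 h.symm

lemma CC_scale {κ : F} (hκ : κ ≠ 0) (c s : F) : CC la ro p q r (κ * c) (κ⁻¹ * s) = CC la ro p q r c s := by
  have hh' : hh q κ ∈ (Fx ({q} : Set (Fin m)) : Subgroup (Spg m F)) := hh_mem (Set.mem_singleton q) κ
  have h := D.CC_comm_S hh' c s
  have e : la (hh q κ) * CC la ro p q r c s * (la (hh q κ))⁻¹ = CC la ro p q r c s := by
    rw [h.eq]
    group
  have e' : la (hh q κ) * CC la ro p q r c s * (la (hh q κ))⁻¹ = CC la ro p q r (κ * c) (κ⁻¹ * s) := by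
    unfold CC
    rw [cm_conj, ← D.pl.conj (D.mp_s hh') (D.mp_yy c), g12 D.pq hκ, D.ag _ hh',
      ← D.pro.conj (D.mr_s hh') (xm_mem q r s), hh_xm D.qr hκ]
  rw [← e', e]

lemma CC_eq (c s : F) : CC la ro p q r c s = CC la ro p q r (c * s) 1 := by
  by_cases hs : s = 0
  · subst hs
    rw [D.CC_zero_right, mul_zero, D.CC_zero_left]
  · have := D.CC_scale hs c s
    rw [inv_mul_cancel₀ hs] at this
    rw [← this, mul_comm]

lemma X_add (a b : F) : CC la ro p q r (a + b) 1 = CC la ro p q r b 1 * CC la ro p q r a 1 := D.CC_add_left a b 1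

lemma X_neg (a : F) : CC la ro p q r (-a) 1 = (CC la ro p q r a 1)⁻¹ := by
  have := D.CC_add_left a (-a) 1
  rw [add_neg_cancel, D.CC_zero_left] at this
  exact eq_inv_of_mul_eq_one_left this.symm

lemma hXi_Y (c s : F) : ro (xm q r s) * la (yy p q c) * (ro (xm q r s))⁻¹ =
    (CC la ro p q r c s)⁻¹ * la (yy p q c) := by
  rw [CC, cm]
  group

lemma Y_add (c d : F) : la (yy p q (c + d)) = la (yy p q c) * la (yy p q d) := by
  rw [yy_add, D.pl _ (D.mp_yy c) _ (D.mp_yy d)]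

/-- The relation (★). -/
lemma star (a d : F) : ro (xp q r d) * CC la ro p q r a 1 * (ro (xp q r d))⁻¹ =
    CC la ro p q r a 1 * la (yy p q (-(a * d))) := by
  by_cases hd : d = 0
  · subst hd
    have e : ro (xp q r (0 : F)) = 1 := by rw [xp_zero D.qr, D.pro.one]
    have e2 : la (yy p q (-(a * 0))) = 1 := by
      rw [mul_zero, neg_zero, yy_zero, D.pl.one]
    rw [e, e2]
    group
  -- choosing `s`
  obtain ⟨s, hs0, hκ⟩ : ∃ s : F, s ≠ 0 ∧ 1 + d * s ≠ 0 := by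
    obtain ⟨x, hx0, hx1⟩ := D.hF
    by_cases h : 1 + d * 1 = 0
    · refine ⟨x, hx0, ?_⟩
      intro h2
      have e1 : d = -1 := by linear_combination h
      rw [e1] at h2
      apply hx1
      linear_combination -h2
    · exact ⟨1, one_ne_zero, h⟩
  set κ : F := 1 + d * s with hκd
  set c : F := a / s with hc
  have hcs : c * s = a := by
    rw [hc]
    field_simp
  have hC : CC la ro p q r a 1 = CC la ro p q r c s := by
    rw [D.CC_eq c s, hcs]
  set s₁ : F := s / κ with hs₁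
  set d₁ : F := d / κ with hd₁
  have hΔ : (hh q κ * hh r κ⁻¹ : Spg m F) ∈ (Fx ({q, r} : Set (Fin m)) : Subgroup (Spg m F)) :=
    (Fx _).mul_mem (hh_mem (mem_pair_left q r) _) (hh_mem (mem_pair_right q r) _)
  -- the SL₂ relation
  have e1 : ro (xp q r d) * ro (xm q r s) * (ro (xp q r d))⁻¹ =
      ro (xm q r s₁) * ro (hh q κ * hh r κ⁻¹) * (ro (xp q r d₁) * (ro (xp q r d))⁻¹) := by
    have hg : xp q r d * xm q r s = xm q r s₁ * (hh q κ * hh r κ⁻¹) * xp q r d₁ := g14 D.qr hκd hκ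
    rw [← D.pro _ (xp_mem q r d) _ (xm_mem q r s), hg, D.pro.mul3 (xm_mem q r _) hΔ (xp_mem q r _)]
    simp only [mul_assoc]
  -- conjugating `Y`
  have hhq : hh q κ ∈ (Fx ({q} : Set (Fin m)) : Subgroup (Spg m F)) := hh_mem (Set.mem_singleton q) κ
  have hhr : hh r κ⁻¹ ∈ (Fx ({r} : Set (Fin m)) : Subgroup (Spg m F)) := hh_mem (Set.mem_singleton r) _
  have e2 : ro (hh q κ * hh r κ⁻¹) * la (yy p q c) * (ro (hh q κ * hh r κ⁻¹))⁻¹ = la (yy p q (κ * c)) := by
    rw [D.pro _ (D.mr_s hhq) _ (Fx_single_le_pair_right q r hhr), ← D.ag _ hhq]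
    have h1 : Commute (la (yy p q c)) (ro (hh r κ⁻¹)) := D.cm3 _ (D.mp_yy c) _ hhr
    calc la (hh q κ) * ro (hh r κ⁻¹) * la (yy p q c) * (la (hh q κ) * ro (hh r κ⁻¹))⁻¹
        = la (hh q κ) * (ro (hh r κ⁻¹) * la (yy p q c)) * (ro (hh r κ⁻¹))⁻¹ * (la (hh q κ))⁻¹ := by group
      _ = la (hh q κ) * la (yy p q c) * (la (hh q κ))⁻¹ := by
          rw [← h1.eq]
          group
      _ = _ := by
          rw [← D.pl.conj (D.mp_s hhq) (D.mp_yy c), g12 D.pq hκ]
  have hsc : s₁ = κ⁻¹ * s := by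
    rw [hs₁]
    field_simp
  -- `κ c = c + c d s`
  set u : F := c * d * s with hu
  have hκc : κ * c = u + c := by
    rw [hκd, hu]
    ring
  have hY : la (yy p q (κ * c)) = la (yy p q u) * la (yy p q c) := by
    rw [hκc, D.Y_add]
  have hC1 : CC la ro p q r c s₁ * CC la ro p q r u s₁ = CC la ro p q r (κ * c) s₁ := by
    rw [hκc, D.CC_add_left]
  have hC2 : CC la ro p q r (κ * c) s₁ = CC la ro p q r c s := by
    rw [hsc, D.CC_scale hκ]
  -- the main computation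
  have hYd : Commute (ro (xp q r d)) (la (yy p q c)) := (D.Y_comm_Xd c d).symm
  have hE : Commute (la (yy p q c)) (ro (xp q r d₁) * (ro (xp q r d))⁻¹) :=
    (D.Y_comm_Xd c d₁).mul_right (D.Y_comm_Xd c d).inv_right
  have hG : ro (xp q r d) * la (yy p q c) * (ro (xp q r d))⁻¹ = la (yy p q c) := by
    rw [hYd.eq]
    group
  have hB : ro (hh q κ * hh r κ⁻¹) * la (yy p q c) * (ro (hh q κ * hh r κ⁻¹))⁻¹ = la (yy p q u) * la (yy p q c) := by
    rw [e2, hY]
  have hmain : ro (xp q r d) * CC la ro p q r c s * (ro (xp q r d))⁻¹ =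
      CC la ro p q r c s₁ * ((la (yy p q u))⁻¹ * CC la ro p q r u s₁) := by
    unfold CC
    rw [cm_conj, hG, e1, cm_triple hE hB]
  have hcomU : Commute (la (yy p q u)) (CC la ro p q r u s₁) := D.CC_comm_Y _ _ _
  have hfin : (la (yy p q u))⁻¹ = la (yy p q (-(a * d))) := by
    have : -(a * d) = -u := by
      rw [hu, ← hcs]
      ring
    rw [this, yy_neg, D.pl.inv (D.mp_yy _)]
  rw [hC, hmain, hcomU.inv_left.eq, ← mul_assoc, hC1, hC2, hfin]

lemma XiY (c : F) : ro (xm q r (-1)) * la (yy p q c) * (ro (xm q r (-1)))⁻¹ =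
    CC la ro p q r c 1 * la (yy p q c) := by
  rw [D.hXi_Y, D.CC_eq c (-1), mul_neg_one, D.X_neg, inv_inv]

lemma XiX (c s s' : F) : ro (xm q r s') * CC la ro p q r c s * (ro (xm q r s'))⁻¹ = CC la ro p q r c s := by
  rw [(D.CC_comm_Xi c s s').eq]
  group

lemma w_conj (c : F) : ro (ww q r) * la (yy p q c) * (ro (ww q r))⁻¹ = CC la ro p q r c 1 := by
  have hw : ro (ww q r) = ro (xm q r (-1)) * ro (xp q r 1) * ro (xm q r (-1)) := by
    rw [← ww_alt D.qr, D.pro.mul3 (xm_mem q r _) (xp_mem q r _) (xm_mem q r _)]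
  have e1 : ro (xp q r 1) * la (yy p q c) * (ro (xp q r 1))⁻¹ = la (yy p q c) := by
    rw [(D.Y_comm_Xd c 1).symm.eq]
    group
  have e2 : ro (xp q r 1) * (CC la ro p q r c 1 * la (yy p q c)) * (ro (xp q r 1))⁻¹ = CC la ro p q r c 1 := by
    have h3 := D.star c 1
    rw [mul_one] at h3
    calc ro (xp q r 1) * (CC la ro p q r c 1 * la (yy p q c)) * (ro (xp q r 1))⁻¹
        = (ro (xp q r 1) * CC la ro p q r c 1 * (ro (xp q r 1))⁻¹) * (ro (xp q r 1) * la (yy p q c) * (ro (xp q r 1))⁻¹) := by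
          group
      _ = CC la ro p q r c 1 * (la (yy p q (-c)) * la (yy p q c)) := by
          rw [h3, e1]
          group
      _ = _ := by
          rw [← D.Y_add, neg_add_cancel, yy_zero, D.pl.one, mul_one]
  rw [hw]
  calc ro (xm q r (-1)) * ro (xp q r 1) * ro (xm q r (-1)) * la (yy p q c) * (ro (xm q r (-1)) * ro (xp q r 1) * ro (xm q r (-1)))⁻¹
      = ro (xm q r (-1)) * (ro (xp q r 1) * (ro (xm q r (-1)) * la (yy p q c) * (ro (xm q r (-1)))⁻¹) * (ro (xp q r 1))⁻¹) * (ro (xm q r (-1)))⁻¹ := by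
        group
    _ = _ := by
        rw [D.XiY, e2, D.XiX]

end In3

/-- The outcome of the rank 3 argument. -/
theorem rank3 {p q r : Fin m} {la ro : Spg m F → H} (D : In3 p q r la ro) :
    ∃ X : H, ro (ww q r) * la (yy p q 1) * (ro (ww q r))⁻¹ = X ∧
      ro (xm q r (-1)) * la (yy p q 1) * (ro (xm q r (-1)))⁻¹ = la (yy p q 1) * X ∧
      la (ww p q) * X * (la (ww p q))⁻¹ = ro (yy q r 1) := by
  refine ⟨In3.CC la ro p q r 1 1, D.w_conj 1, ?_, ?_⟩
  · rw [D.XiY, (D.CC_comm_Y 1 1 1).eq]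
  · have h := D.swap.w_conj 1
    have hinv : la (ww q p) = (la (ww p q))⁻¹ := by
      rw [ww_swap D.pq, D.pl.inv (ww_mem p q)]
    rw [hinv, inv_inv] at h
    have e1 : ro (yy r q (1 : F)) = ro (yy q r 1) := by
      rw [yy, xS_symm (fm_ee_ee r q), yy]
    have e2 : In3.CC ro la r q p (1 : F) 1 = In3.CC la ro p q r 1 1 := by
      have h1 := D.CC_form2 (-1) 1
      rw [neg_neg, D.CC_eq, mul_one, D.X_neg] at h1
      have h2 : la (xm q p (1 : F)) = la (xp p q 1) := by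
        rw [xm, xS_symm (orth_p' D.pq), xp]
      unfold In3.CC at h1 ⊢
      rw [e1, h2]
      have h3 : cm (ro (yy q r (1 : F))) (la (xp p q 1)) = (cm (la (xp p q 1)) (ro (yy q r 1)))⁻¹ := by
        unfold cm
        group
      rw [h3, ← h1, inv_inv]
    rw [e1, e2] at h
    rw [← h]
    group

end Cfsg.Agent.Lib.SpAm.Rank3
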