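import Cfsg.Agent.Lib.SpAm.Level
import Cfsg.Agent.Lib.SpAm.Rank3

/-!
# The induction over the levels
-/

set_option autoImplicit false

namespace Cfsg.Agent.Lib.SpAm.Core

open Cfsg.Agent.Lib.SpAm.Model Cfsg.Agent.Lib.SpAm.Rank2G Cfsg.Agent.Lib.SpAm.PHom Cfsg.Agent.Lib.SpAm.LevelG
open Cfsg.Agent.Lib.SpAm.Level Cfsg.Agent.Lib.SpAm.Rank3

variable {n : ℕ} {F : Type*} [Field F]

/-- The indices from `t` on. -/
def Tt (n t : ℕ) : Set (Fin n) := {k | t ≤ k.val}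

/-- The radical at position `i`. -/
abbrev Mi (F : Type*) [Field F] {n : ℕ} (i : Fin n) (h : i.val + 1 < n) : Subgroup (Spg n F) := Mg i ⟨i.val + 1, h⟩

/-- The generators from level `t` on. -/
def Gens (F : Type*) [Field F] (n t : ℕ) : Set (Spg n F) :=
  {x | (∃ k : Fin n, t ≤ k.val ∧ x ∈ (Fx ({k} : Set (Fin n)) : Subgroup (Spg n F))) ∨
    (∃ (i : Fin n) (h : i.val + 1 < n), t ≤ i.val ∧ x ∈ Mi F i h)}

/-- The subgroup generated from level `t` on. -/
def Clo (F : Type*) [Field F] (n t : ℕ) : Subgroup (Spg n F) := Subgroup.closure (Gens F n t)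

lemma Clo_mono {s t : ℕ} (h : s ≤ t) : Clo F n t ≤ Clo F n s := by
  refine Subgroup.closure_mono ?_
  rintro x (⟨k, hk, hx⟩ | ⟨i, hi, hk, hx⟩)
  · exact Or.inl ⟨k, h.trans hk, hx⟩
  · exact Or.inr ⟨i, hi, h.trans hk, hx⟩

lemma Fx_single_le_Clo {t : ℕ} {k : Fin n} (hk : t ≤ k.val) : (Fx ({k} : Set (Fin n)) : Subgroup (Spg n F)) ≤ Clo F n t :=
  fun _ hx => Subgroup.subset_closure (Or.inl ⟨k, hk, hx⟩)

lemma Mi_le_Clo {t : ℕ} {i : Fin n} (h : i.val + 1 < n) (hk : t ≤ i.val) : Mi F i h ≤ Clo F n t :=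
  fun _ hx => Subgroup.subset_closure (Or.inr ⟨i, h, hk, hx⟩)

lemma Clo_le_Fx (t : ℕ) : Clo F n t ≤ Fx (Tt n t) := by
  rw [Clo, Subgroup.closure_le]
  rintro x (⟨k, hk, hx⟩ | ⟨i, hi, hk, hx⟩)
  · refine Fx_mono ?_ hx
    rintro y hy
    rw [Set.mem_singleton_iff] at hy
    subst hy
    exact hk
  · refine Fx_mono ?_ (Mg_le_L _ _ hx)
    rintro y hy
    rcases hy with rfl | hy
    · exact hk
    · rw [Set.mem_singleton_iff] at hy
      subst hy
      change t ≤ i.val + 1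
      omega

lemma Tt_succ_insert {t : ℕ} (ht : t < n) : Tt n t = insert (⟨t, ht⟩ : Fin n) (Tt n (t + 1)) := by
  ext k
  simp only [Tt, Set.mem_ofPred_eq, Set.mem_insert_iff, Fin.ext_iff]
  omega

lemma Tt_last {t : ℕ} (ht : t + 1 = n) : Tt n t = {(⟨t, by omega⟩ : Fin n)} := by
  ext k
  have := k.2
  simp only [Tt, Set.mem_ofPred_eq, Set.mem_singleton_iff, Fin.ext_iff]
  omega

lemma not_mem_Tt {t : ℕ} (ht : t < n) : (⟨t, ht⟩ : Fin n) ∉ Tt n (t + 1) := by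
  simp [Tt]

/-- Transitivity and generation. -/
lemma gen_main (d : ℕ) : ∀ t : ℕ, ∀ (ht : t + d + 1 = n),
    (∀ v : VV n F, Sup (Tt n t) v → v ≠ 0 → ∃ g ∈ Clo F n t, g ⋆ ee (⟨t, by omega⟩ : Fin n) = v) ∧
      (Fx (Tt n t) : Subgroup (Spg n F)) ≤ Clo F n t := by
  induction d with
  | zero =>
    intro t ht
    have htn : t + 1 = n := by omega
    have hT := Tt_last htn
    rw [hT]
    have hk : t ≤ (⟨t, by omega⟩ : Fin n).val := le_refl _
    refine ⟨?_, Fx_single_le_Clo hk⟩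
    intro v hv hv0
    obtain ⟨g, hg, e⟩ := plane_trans (⟨t, by omega⟩ : Fin n) hv hv0
    exact ⟨g, Fx_single_le_Clo hk (Sgen_le_Fx _ hg), e⟩
  | succ d ih =>
    intro t ht
    have htn : t < n := by omega
    have ht1 : t + 1 < n := by omega
    obtain ⟨ih1, ih2⟩ := ih (t + 1) (by omega)
    set a : Fin n := ⟨t, htn⟩ with ha
    set b : Fin n := ⟨t + 1, ht1⟩ with hb
    have hab : a ≠ b := by
      intro e
      have := congrArg Fin.val e
      simp [ha, hb] at this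
    have hT := Tt_succ_insert htn
    have ha' : a ∉ Tt n (t + 1) := not_mem_Tt htn
    have hkb : (t : ℕ) ≤ b.val := by
      change t ≤ t + 1
      omega
    have hka : (t : ℕ) ≤ a.val := le_refl _
    have hSa := Fx_single_le_Clo (F := F) hka
    have hSb := Fx_single_le_Clo (F := F) hkb
    have hmono := Clo_mono (F := F) (n := n) (Nat.le_succ t)
    have hy : ∀ c : F, yy a b c ∈ Clo F n t := fun c =>
      Mi_le_Clo (F := F) (i := a) ht1 hka (yy_mem_Mg a b c)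
    have hna : (nn a : Spg n F) ∈ Clo F n t := hSa (nn_mem (Set.mem_singleton a))
    have hnb : (nn b : Spg n F) ∈ Clo F n t := hSb (nn_mem (Set.mem_singleton b))
    have htr : ∀ v : VV n F, Sup (Tt n t) v → v ≠ 0 → ∃ g ∈ Clo F n t, g ⋆ ee a = v := by
      intro v hv hv0
      rw [hT] at hv
      refine trans_step (T' := Tt n (t + 1)) hab ha' hSa ?_ ?_ ?_ hv hv0
      · have e : xm a b (-1 : F) = nn a * yy a b 1 * (nn a)⁻¹ := by rw [nn_a_yy hab]
        rw [e]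
        exact Subgroup.mul_mem _ (Subgroup.mul_mem _ hna (hy 1)) (Subgroup.inv_mem _ hna)
      · have e : xp a b (1 : F) = nn b * yy a b (-1) * (nn b)⁻¹ := by rw [nn_b_yy hab, neg_neg]
        rw [e]
        exact Subgroup.mul_mem _ (Subgroup.mul_mem _ hnb (hy _)) (Subgroup.inv_mem _ hnb)
      · intro u hu hu0
        obtain ⟨g, hg, e⟩ := ih1 u hu hu0
        exact ⟨g, hmono hg, Clo_le_Fx _ hg, e⟩
    refine ⟨htr, ?_⟩
    refine gen_of_trans (a := a) (by rw [hT]; exact Set.mem_insert _ _) (Clo_le_Fx t) ?_ htr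
    intro r hr he
    rw [hT] at hr
    obtain ⟨u, c, g, hu, hg, rfl⟩ := decomp ha' hr he
    refine Subgroup.mul_mem _ (Subgroup.mul_mem _ ?_ (hSa (tS_mem (Sup_ee (Set.mem_singleton a)) c))) (hmono (ih2 hg))
    by_cases hu0 : u = 0
    · subst hu0
      rw [xS_zero_right]
      exact Subgroup.one_mem _
    · obtain ⟨g_u, hg_u, e⟩ := ih1 u hu hu0
      have e2 : xS (ee a) u 1 = g_u * yy a b 1 * g_u⁻¹ := by
        rw [yy, xS_conj, e, Fx.ee (Clo_le_Fx _ hg_u) ha']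
      rw [e2]
      exact Subgroup.mul_mem _ (Subgroup.mul_mem _ (hmono hg_u) (hy 1)) (Subgroup.inv_mem _ (hmono hg_u))

lemma Fx_empty_le (t : ℕ) (ht : n ≤ t) : (Fx (Tt n t) : Subgroup (Spg n F)) ≤ Clo F n t := by
  intro g hg
  have h1 : ∀ k : Fin n, k ∉ Tt n t := fun k => by
    have := k.2
    simp only [Tt, Set.mem_ofPred_eq, not_le]
    omega
  have : g = 1 := by
    apply sp_ext_basis
    · intro k
      rw [Fx.ee hg (h1 k), act_one]
    · intro k
      rw [Fx.ff hg (h1 k), act_one]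
  rw [this]
  exact Subgroup.one_mem _

lemma Fx_le_Clo (t : ℕ) : (Fx (Tt n t) : Subgroup (Spg n F)) ≤ Clo F n t := by
  by_cases ht : t < n
  · exact (gen_main (n - 1 - t) t (by omega)).2
  · exact Fx_empty_le t (by omega)

/-- The input of the induction. -/
structure Input (F : Type*) [Field F] (n : ℕ) {H : Type*} [Group H] (π : H →* Spg n F) (sig mu : Fin n → Spg n F → H)
    (ms : Fin n → Fin n → Spg n F → H) : Prop where
  hF : ∃ a : F, a ≠ 0 ∧ a ≠ 1
  psig : ∀ j, PH (Fx ({j} : Set (Fin n))) (sig j)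
  pisig : ∀ j, ∀ x ∈ (Fx ({j} : Set (Fin n)) : Subgroup (Spg n F)), π (sig j x) = x
  pms : ∀ (i j : Fin n) (h : i.val + 1 < n), PH (Mi F i h ⊔ Fx ({j} : Set (Fin n))) (ms i j)
  pims : ∀ (i j : Fin n) (h : i.val + 1 < n), ∀ x ∈ (Mi F i h ⊔ Fx ({j} : Set (Fin n)) : Subgroup (Spg n F)), π (ms i j x) = x
  ms1 : ∀ (i j : Fin n) (h : i.val + 1 < n), ∀ x ∈ Mi F i h, ms i j x = mu i x
  ms2 : ∀ (i j : Fin n) (_ : i.val + 1 < n), ∀ x ∈ (Fx ({j} : Set (Fin n)) : Subgroup (Spg n F)), ms i j x = sig j x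
  hss : ∀ j l : Fin n, j ≠ l → ∀ x ∈ (Fx ({j} : Set (Fin n)) : Subgroup (Spg n F)),
    ∀ y ∈ (Fx ({l} : Set (Fin n)) : Subgroup (Spg n F)), Commute (sig j x) (sig l y)
  hmm : ∀ (i i' : Fin n), i ≠ i' → ∀ (h : i.val + 1 < n) (h' : i'.val + 1 < n), ∀ x ∈ Mi F i h, ∀ y ∈ Mi F i' h',
    Commute (mu i x) (mu i' y)

namespace Input

variable {H : Type*} [Group H] {π : H →* Spg n F} {sig mu : Fin n → Spg n F → H} {ms : Fin n → Fin n → Spg n F → H}
  (D : Input F n π sig mu ms)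
include D

/-- Radical and plane commute if the indices differ. -/
lemma mu_comm_sig {i j : Fin n} (h : i.val + 1 < n) (hj : j ≠ i) (hj' : j.val ≠ i.val + 1) {x y : Spg n F}
    (hx : x ∈ Mi F i h) (hy : y ∈ (Fx ({j} : Set (Fin n)) : Subgroup (Spg n F))) : Commute (mu i x) (sig j y) := by
  have hd : Disjoint ({i, (⟨i.val + 1, h⟩ : Fin n)} : Set (Fin n)) {j} := by
    rw [Set.disjoint_right]
    intro z hz
    rw [Set.mem_singleton_iff] at hz
    subst hz
    rintro (h1 | h1)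
    · exact hj h1
    · rw [Set.mem_singleton_iff] at h1
      exact hj' (congrArg Fin.val h1)
  have hcomm : x * y = y * x := Fx_comm hd (Mg_le_L _ _ hx) hy
  rw [← D.ms1 i j h x hx, ← D.ms2 i j h y hy]
  exact (D.pms i j h).comm (Subgroup.mem_sup_left hx) (Subgroup.mem_sup_right hy) hcomm

/-- The statement at level `t`. -/
def Stage (π : H →* Spg n F) (sig mu : Fin n → Spg n F → H) (t : ℕ) (ψ : Spg n F → H) : Prop :=
  PH (Fx (Tt n t)) ψ ∧ (∀ x ∈ (Fx (Tt n t) : Subgroup (Spg n F)), π (ψ x) = x) ∧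
    (∀ k : Fin n, t ≤ k.val → ∀ x ∈ (Fx ({k} : Set (Fin n)) : Subgroup (Spg n F)), ψ x = sig k x) ∧
    (∀ (i : Fin n) (h : i.val + 1 < n), t ≤ i.val → ∀ x ∈ Mi F i h, ψ x = mu i x)

end Input

end Cfsg.Agent.Lib.SpAm.Core
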