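import Cfsg.Agent.Lib.SpAm.Main

/-!
# The universal completion statement
-/

set_option autoImplicit false

namespace Cfsg.Agent.Lib.SpAm.Final

open Cfsg.Agent.Lib.SpAm.Model Cfsg.Agent.Lib.SpAm.PHom Cfsg.Agent.Lib.SpAm.Core Cfsg.Agent.Lib.SpAm.Main

section ext

variable {G H : Type*} [Group G] [Group H]

/-- A homomorphism on a subgroup as a function into the product. -/
noncomputable def ext (Y : Subgroup G) (f : Y →* H) : G → G × H := by
  classical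
  exact fun g => if h : g ∈ Y then (g, f ⟨g, h⟩) else 1

lemma ext_of_mem (Y : Subgroup G) (f : Y →* H) {g : G} (h : g ∈ Y) : ext Y f g = (g, f ⟨g, h⟩) := by
  classical
  simp [ext, h]

lemma ext_ph (Y : Subgroup G) (f : Y →* H) : PH Y (ext Y f) := by
  intro x hx y hy
  rw [ext_of_mem Y f hx, ext_of_mem Y f hy, ext_of_mem Y f (Y.mul_mem hx hy)]
  refine Prod.ext rfl ?_
  change f ⟨x * y, _⟩ = f ⟨x, hx⟩ * f ⟨y, hy⟩
  rw [← map_mul]
  rfl

lemma ext_fst (Y : Subgroup G) (f : Y →* H) {x : G} (hx : x ∈ Y) : (ext Y f x).1 = x := by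
  rw [ext_of_mem Y f hx]

end ext

variable {n : ℕ} {F : Type*} [Field F]

lemma S_eq (S : Subgroup (Spg n F)) (j : Fin n)
    (hS : S = Subgroup.closure {A : ↥(Matrix.symplecticGroup (Fin n) F) | ∀ k : Fin n, k ≠ j →
      ((A : ↥(Matrix.symplecticGroup (Fin n) F)) : Matrix (Fin n ⊕ Fin n) (Fin n ⊕ Fin n) F).mulVec (Pi.single (Sum.inl k) (1 : F)) = (Pi.single (Sum.inl k) (1 : F)) ∧ ((A : ↥(Matrix.symplecticGroup (Fin n) F)) : Matrix (Fin n ⊕ Fin n) (Fin n ⊕ Fin n) F).mulVec (Pi.single (Sum.inr k) (1 : F)) = (Pi.single (Sum.inr k) (1 : F))}) :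
    S = Fx ({j} : Set (Fin n)) := by
  have e : {A : ↥(Matrix.symplecticGroup (Fin n) F) | ∀ k : Fin n, k ≠ j →
      ((A : ↥(Matrix.symplecticGroup (Fin n) F)) : Matrix (Fin n ⊕ Fin n) (Fin n ⊕ Fin n) F).mulVec (Pi.single (Sum.inl k) (1 : F)) = (Pi.single (Sum.inl k) (1 : F)) ∧ ((A : ↥(Matrix.symplecticGroup (Fin n) F)) : Matrix (Fin n ⊕ Fin n) (Fin n ⊕ Fin n) F).mulVec (Pi.single (Sum.inr k) (1 : F)) = (Pi.single (Sum.inr k) (1 : F))} =
      ((Fx ({j} : Set (Fin n)) : Subgroup (Spg n F)) : Set (Spg n F)) := by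
    ext A
    constructor
    · intro h k hk
      exact h k (fun e => hk (by rw [e]; exact Set.mem_singleton j))
    · intro h k hk
      exact h k (fun e => hk (Set.mem_singleton_iff.1 e))
  rw [hS, e, Subgroup.closure_eq]

lemma M_eq (M : Subgroup (Spg n F)) (i : Fin n) (hi : i.val + 1 < n)
    (hM : M = Subgroup.closure {A : ↥(Matrix.symplecticGroup (Fin n) F) |
      (∀ k : Fin n, ((A : ↥(Matrix.symplecticGroup (Fin n) F)) : Matrix (Fin n ⊕ Fin n) (Fin n ⊕ Fin n) F).mulVec (Pi.single (Sum.inl k) (1 : F)) = (Pi.single (Sum.inl k) (1 : F))) ∧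
        ∀ k : Fin n, (k : ℕ) ≠ i → (k : ℕ) ≠ (i : ℕ) + 1 → ((A : ↥(Matrix.symplecticGroup (Fin n) F)) : Matrix (Fin n ⊕ Fin n) (Fin n ⊕ Fin n) F).mulVec (Pi.single (Sum.inr k) (1 : F)) = (Pi.single (Sum.inr k) (1 : F))}) :
    M = Mi F i hi := by
  have e : {A : ↥(Matrix.symplecticGroup (Fin n) F) |
      (∀ k : Fin n, ((A : ↥(Matrix.symplecticGroup (Fin n) F)) : Matrix (Fin n ⊕ Fin n) (Fin n ⊕ Fin n) F).mulVec (Pi.single (Sum.inl k) (1 : F)) = (Pi.single (Sum.inl k) (1 : F))) ∧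
        ∀ k : Fin n, (k : ℕ) ≠ i → (k : ℕ) ≠ (i : ℕ) + 1 → ((A : ↥(Matrix.symplecticGroup (Fin n) F)) : Matrix (Fin n ⊕ Fin n) (Fin n ⊕ Fin n) F).mulVec (Pi.single (Sum.inr k) (1 : F)) = (Pi.single (Sum.inr k) (1 : F))} =
      ((Mi F i hi : Subgroup (Spg n F)) : Set (Spg n F)) := by
    ext A
    constructor
    · rintro ⟨h1, h2⟩
      refine ⟨fun k hk => ⟨h1 k, h2 k ?_ ?_⟩, h1⟩
      · intro e
        exact hk (Or.inl (Fin.ext e))
      · intro e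
        exact hk (Or.inr (Fin.ext e))
    · rintro ⟨h1, h2⟩
      refine ⟨h2, fun k hk hk' => (h1 k ?_).2⟩
      rintro (h | h)
      · exact hk (congrArg Fin.val h)
      · exact hk' (congrArg Fin.val h)
  rw [hM, e, Subgroup.closure_eq]

theorem main (F : Type*) [Field F] (hF : ∃ a : F, a ≠ 0 ∧ a ≠ 1) (n : ℕ) (hn : 2 ≤ n)
    (S M : Fin n → Subgroup (Spg n F))
    (hS : ∀ j : Fin n, S j = Fx ({j} : Set (Fin n)))
    (hM : ∀ (i : Fin n) (hi : (i : ℕ) + 1 < n), M i = Mi F i hi)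
    {H : Type*} [Group H] (σ : ∀ j : Fin n, ↥(S j) →* H) (μ : ∀ i : Fin n, ↥(M i) →* H)
    (hSS : ∀ j l : Fin n, j ≠ l → ∃ Ψ : ↥(S j ⊔ S l) →* H,
      (∀ (g : Spg n F) (hg : g ∈ S j), Ψ ⟨g, Subgroup.mem_sup_left hg⟩ = σ j ⟨g, hg⟩) ∧
        (∀ (g : Spg n F) (hg : g ∈ S l), Ψ ⟨g, Subgroup.mem_sup_right hg⟩ = σ l ⟨g, hg⟩))
    (hMM : ∀ i i' : Fin n, i ≠ i' → (i : ℕ) + 1 < n → (i' : ℕ) + 1 < n → ∃ Ψ : ↥(M i ⊔ M i') →* H,
      (∀ (g : Spg n F) (hg : g ∈ M i), Ψ ⟨g, Subgroup.mem_sup_left hg⟩ = μ i ⟨g, hg⟩) ∧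
        (∀ (g : Spg n F) (hg : g ∈ M i'), Ψ ⟨g, Subgroup.mem_sup_right hg⟩ = μ i' ⟨g, hg⟩))
    (hMS : ∀ i j : Fin n, (i : ℕ) + 1 < n → ∃ Ψ : ↥(M i ⊔ S j) →* H,
      (∀ (g : Spg n F) (hg : g ∈ M i), Ψ ⟨g, Subgroup.mem_sup_left hg⟩ = μ i ⟨g, hg⟩) ∧
        (∀ (g : Spg n F) (hg : g ∈ S j), Ψ ⟨g, Subgroup.mem_sup_right hg⟩ = σ j ⟨g, hg⟩)) :
    ∃! Φ : Spg n F →* H,
      (∀ (j : Fin n) (g : Spg n F) (hg : g ∈ S j), Φ g = σ j ⟨g, hg⟩) ∧
        (∀ (i : Fin n), (i : ℕ) + 1 < n → ∀ (g : Spg n F) (hg : g ∈ M i), Φ g = μ i ⟨g, hg⟩) := by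
  classical
  let sig : Fin n → Spg n F → Spg n F × H := fun j => ext (S j) (σ j)
  let mu : Fin n → Spg n F → Spg n F × H := fun i => ext (M i) (μ i)
  let ms : Fin n → Fin n → Spg n F → Spg n F × H := fun i j =>
    if h : i.val + 1 < n then ext (M i ⊔ S j) (Classical.choose (hMS i j h)) else fun _ => 1
  have hms : ∀ (i j : Fin n) (h : i.val + 1 < n), ms i j = ext (M i ⊔ S j) (Classical.choose (hMS i j h)) := by
    intro i j h
    simp only [ms, dif_pos h]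
  have D : Input F n (MonoidHom.fst (Spg n F) H) sig mu ms := {
    hF := hF
    psig := fun j => by
      rw [← hS j]
      exact ext_ph _ _
    pisig := fun j x hx => by
      rw [← hS j] at hx
      exact ext_fst _ _ hx
    pms := fun i j h => by
      rw [← hM i h, ← hS j, hms i j h]
      exact ext_ph _ _
    pims := fun i j h x hx => by
      rw [← hM i h, ← hS j] at hx
      rw [hms i j h]
      exact ext_fst _ _ hx
    ms1 := fun i j h x hx => by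
      rw [← hM i h] at hx
      rw [hms i j h, ext_of_mem _ _ (Subgroup.mem_sup_left hx)]
      change _ = ext (M i) (μ i) x
      rw [ext_of_mem _ _ hx, (Classical.choose_spec (hMS i j h)).1 x hx]
    ms2 := fun i j h x hx => by
      rw [← hS j] at hx
      rw [hms i j h, ext_of_mem _ _ (Subgroup.mem_sup_right hx)]
      change _ = ext (S j) (σ j) x
      rw [ext_of_mem _ _ hx, (Classical.choose_spec (hMS i j h)).2 x hx]
    hss := fun j l hjl x hx y hy => by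
      have hd : Disjoint ({j} : Set (Fin n)) {l} := by
        rw [Set.disjoint_singleton]
        exact hjl
      have hc : x * y = y * x := Fx_comm hd hx hy
      rw [← hS j] at hx
      rw [← hS l] at hy
      change ext (S j) (σ j) x * ext (S l) (σ l) y = ext (S l) (σ l) y * ext (S j) (σ j) x
      rw [ext_of_mem _ _ hx, ext_of_mem _ _ hy]
      refine Prod.ext hc ?_
      obtain ⟨Ψ, h1, h2⟩ := hSS j l hjl
      change σ j ⟨x, hx⟩ * σ l ⟨y, hy⟩ = σ l ⟨y, hy⟩ * σ j ⟨x, hx⟩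
      rw [← h1 x hx, ← h2 y hy, ← map_mul, ← map_mul]
      exact congrArg Ψ (Subtype.ext hc)
    hmm := fun i i' hii h h' x hx y hy => by
      have hc : x * y = y * x := Mg_comm hx hy
      rw [← hM i h] at hx
      rw [← hM i' h'] at hy
      change ext (M i) (μ i) x * ext (M i') (μ i') y = ext (M i') (μ i') y * ext (M i) (μ i) x
      rw [ext_of_mem _ _ hx, ext_of_mem _ _ hy]
      refine Prod.ext hc ?_
      obtain ⟨Ψ, h1, h2⟩ := hMM i i' hii h h'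
      change μ i ⟨x, hx⟩ * μ i' ⟨y, hy⟩ = μ i' ⟨y, hy⟩ * μ i ⟨x, hx⟩
      rw [← h1 x hx, ← h2 y hy, ← map_mul, ← map_mul]
      exact congrArg Ψ (Subtype.ext hc) }
  obtain ⟨ψ, hψ, -, hψk, hψi⟩ := core D (by omega)
  let Φ : Spg n F →* H := MonoidHom.mk' (fun g => (ψ g).2) (fun x y => by
    rw [hψ x (Subgroup.mem_top _) y (Subgroup.mem_top _)]
    rfl)
  have hΦ : ∀ g, Φ g = (ψ g).2 := fun _ => rfl
  refine ⟨Φ, ⟨?_, ?_⟩, ?_⟩
  · intro j g hg
    rw [hΦ, hψk j g (by rw [← hS j]; exact hg)]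
    change (ext (S j) (σ j) g).2 = _
    rw [ext_of_mem _ _ hg]
  · intro i hi g hg
    rw [hΦ, hψi i hi g (by rw [← hM i hi]; exact hg)]
    change (ext (M i) (μ i) g).2 = _
    rw [ext_of_mem _ _ hg]
  · rintro Φ₂ ⟨h1, h2⟩
    apply MonoidHom.ext
    intro g
    have hp2 : PH (⊤ : Subgroup (Spg n F)) Φ₂ := fun x _ y _ => map_mul _ _ _
    have hp1 : PH (⊤ : Subgroup (Spg n F)) Φ := fun x _ y _ => map_mul _ _ _
    refine PH.eq_on hp2 hp1 (X := Gens F n 0) (fun _ _ => Subgroup.mem_top _) Gens_top ?_ (Subgroup.mem_top g)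
    rintro x (⟨k, -, hx⟩ | ⟨i, hi, -, hx⟩)
    · have hx' : x ∈ S k := by rw [hS k]; exact hx
      rw [h1 k x hx', hΦ, hψk k x hx]
      change _ = (ext (S k) (σ k) x).2
      rw [ext_of_mem _ _ hx']
    · have hx' : x ∈ M i := by rw [hM i hi]; exact hx
      rw [h2 i hi x hx', hΦ, hψi i hi x hx]
      change _ = (ext (M i) (μ i) x).2
      rw [ext_of_mem _ _ hx']

end Cfsg.Agent.Lib.SpAm.Final
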