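import Cfsg.Agent.Lib.SpAm.Rank2G
import Cfsg.Agent.Lib.SpAm.PHom

/-!
# Rank 2: gluing the two sections over the radical
-/

set_option autoImplicit false

namespace Cfsg.Agent.Lib.SpAm.Rank2

open Cfsg.Agent.Lib.SpAm.Model Cfsg.Agent.Lib.SpAm.Rank2G Cfsg.Agent.Lib.SpAm.PHom

variable {m : ℕ} {F : Type*} [Field F] {H : Type*} [Group H]

/-- The input data of the rank 2 argument. -/
structure In (a b : Fin m) (sa sb : Spg m F → H) : Prop where
  ne : a ≠ b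
  pa : PH (Mg a b ⊔ Fx ({a} : Set (Fin m))) sa
  pb : PH (Mg a b ⊔ Fx ({b} : Set (Fin m))) sb
  ag : ∀ x ∈ (Mg a b : Subgroup (Spg m F)), sa x = sb x
  cm : ∀ x ∈ (Fx ({a} : Set (Fin m)) : Subgroup (Spg m F)), ∀ y ∈ (Fx ({b} : Set (Fin m)) : Subgroup (Spg m F)),
    Commute (sa x) (sb y)

/-- The group `Ga`. -/
abbrev Ga (a b : Fin m) : Subgroup (Spg m F) := Mg a b ⊔ Fx ({a} : Set (Fin m))

/-- The group `Gb`. -/
abbrev Gb (a b : Fin m) : Subgroup (Spg m F) := Mg a b ⊔ Fx ({b} : Set (Fin m))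

/-- The hat of the Weyl element. -/
def WW (sa sb : Spg m F → H) (a b : Fin m) : H := sb (xp a b 1) * sa (xm a b (-1)) * sb (xp a b 1)

/-- The second expression of the hat of the Weyl element. -/
def WW' (sa sb : Spg m F → H) (a b : Fin m) : H := sa (xm a b (-1)) * sb (xp a b 1) * sa (xm a b (-1))

/-- The hat of `θ`. -/
def Th (sa sb : Spg m F → H) (a b : Fin m) : H := sa (nn a) * sb (nn b)

/-- The set of double cosets. -/
def DD (sa sb : Spg m F → H) (a b : Fin m) : Set H :=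
  {z | ∃ r₁ ∈ (Gb a b : Subgroup (Spg m F)), ∃ r₂ ∈ (Gb a b : Subgroup (Spg m F)),
    ∃ y ∈ sa '' (Fx ({a} : Set (Fin m)) : Subgroup (Spg m F)) ∪ {WW sa sb a b}, z = sb r₁ * y * sb r₂}

namespace In

variable {a b : Fin m} {sa sb : Spg m F → H} (D : In a b sa sb)
include D

lemma mGa {x : Spg m F} (h : x ∈ (Mg a b : Subgroup (Spg m F))) : x ∈ (Ga a b : Subgroup (Spg m F)) :=
  Subgroup.mem_sup_left h

lemma mGb {x : Spg m F} (h : x ∈ (Mg a b : Subgroup (Spg m F))) : x ∈ (Gb a b : Subgroup (Spg m F)) :=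
  Subgroup.mem_sup_left h

lemma sGa {x : Spg m F} (h : x ∈ (Fx ({a} : Set (Fin m)) : Subgroup (Spg m F))) : x ∈ (Ga a b : Subgroup (Spg m F)) :=
  Subgroup.mem_sup_right h

lemma sGb {x : Spg m F} (h : x ∈ (Fx ({b} : Set (Fin m)) : Subgroup (Spg m F))) : x ∈ (Gb a b : Subgroup (Spg m F)) :=
  Subgroup.mem_sup_right h

lemma xp_Gb (c : F) : xp a b c ∈ (Gb a b : Subgroup (Spg m F)) :=
  (mem_Gb_iff D.ne).2 ⟨xp_mem a b c, xp_ee_a D.ne c⟩

lemma xm_Ga (c : F) : xm a b c ∈ (Ga a b : Subgroup (Spg m F)) :=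
  (mem_Ga_iff D.ne).2 ⟨xm_mem a b c, xm_ee_b D.ne c⟩

lemma nna_Ga : (nn a : Spg m F) ∈ (Ga a b : Subgroup (Spg m F)) := D.sGa (nn_mem (Set.mem_singleton a))

lemma nnb_Gb : (nn b : Spg m F) ∈ (Gb a b : Subgroup (Spg m F)) := D.sGb (nn_mem (Set.mem_singleton b))

lemma yy_Ga (c : F) : yy a b c ∈ (Ga a b : Subgroup (Spg m F)) := D.mGa (yy_mem_Mg a b c)

lemma yy_Gb (c : F) : yy a b c ∈ (Gb a b : Subgroup (Spg m F)) := D.mGb (yy_mem_Mg a b c)

lemma XP_eq (c : F) : sb (xp a b c) = sb (nn b) * sb (yy a b (-c)) * (sb (nn b))⁻¹ := by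
  rw [← D.pb.conj D.nnb_Gb (D.yy_Gb _), nn_b_yy D.ne, neg_neg]

lemma XM_eq (c : F) : sa (xm a b c) = sa (nn a) * sa (yy a b (-c)) * (sa (nn a))⁻¹ := by
  rw [← D.pa.conj D.nna_Ga (D.yy_Ga _), nn_a_yy D.ne, neg_neg]

lemma AB_comm : Commute (sa (nn a)) (sb (nn b)) :=
  D.cm _ (nn_mem (Set.mem_singleton a)) _ (nn_mem (Set.mem_singleton b))

lemma th_XP (c : F) : (Th sa sb a b)⁻¹ * sb (xp a b c) * Th sa sb a b = sa (xm a b (-c)) := by
  have e : ∀ {A B Y : H}, Commute A B → (A * B)⁻¹ * (B * Y * B⁻¹) * (A * B) = A⁻¹ * Y * A := by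
    intro A B Y h
    rw [h.eq]
    group
  rw [Th, D.XP_eq, e D.AB_comm, ← D.ag _ (yy_mem_Mg a b _), ← D.pa.conj_inv D.nna_Ga (D.yy_Ga _), nn_a_inv_yy D.ne]

lemma th_XM (c : F) : (Th sa sb a b)⁻¹ * sa (xm a b c) * Th sa sb a b = sb (xp a b (-c)) := by
  have e : ∀ {A B Y : H}, (A * B)⁻¹ * (A * Y * A⁻¹) * (A * B) = B⁻¹ * Y * B := by
    intro A B Y
    group
  rw [Th, D.XM_eq, e, D.ag _ (yy_mem_Mg a b _), ← D.pb.conj_inv D.nnb_Gb (D.yy_Gb _), nn_b_inv_yy D.ne]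

lemma th_W : (Th sa sb a b)⁻¹ * WW sa sb a b * Th sa sb a b = WW' sa sb a b := by
  have e : ∀ {T X Y : H}, T⁻¹ * (X * Y * X) * T = (T⁻¹ * X * T) * (T⁻¹ * Y * T) * (T⁻¹ * X * T) := by
    intro T X Y
    group
  rw [WW, e, D.th_XP, D.th_XM, neg_neg, WW']

lemma W_th : WW sa sb a b * Th sa sb a b = Th sa sb a b * WW' sa sb a b := by
  rw [← D.th_W]
  group

/-- Acting as a matrix on the radical. -/
def Good (sa : Spg m F → H) (a b : Fin m) (x : Spg m F) (X : H) : Prop :=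
  ∀ g ∈ (Mg a b : Subgroup (Spg m F)), x * g * x⁻¹ ∈ (Mg a b : Subgroup (Spg m F)) ∧ X * sa g * X⁻¹ = sa (x * g * x⁻¹)

omit D in
lemma Good.mul {x y : Spg m F} {X Y : H} (hx : Good sa a b x X) (hy : Good sa a b y Y) : Good sa a b (x * y) (X * Y) := by
  intro g hg
  have h1 := hy g hg
  have h2 := hx _ h1.1
  have e1 : x * y * g * (x * y)⁻¹ = x * (y * g * y⁻¹) * x⁻¹ := by group
  refine ⟨by rw [e1]; exact h2.1, ?_⟩
  have e2 : X * Y * sa g * (X * Y)⁻¹ = X * (Y * sa g * Y⁻¹) * X⁻¹ := by group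
  rw [e2, h1.2, h2.2, e1]

lemma good_xp (c : F) : Good sa a b (xp a b c) (sb (xp a b c)) := by
  intro g hg
  have h := xp_norm D.ne c hg
  refine ⟨h, ?_⟩
  rw [D.ag _ hg, D.ag _ h, ← D.pb.conj (D.xp_Gb c) (D.mGb hg)]

lemma good_xm (c : F) : Good sa a b (xm a b c) (sa (xm a b c)) := by
  intro g hg
  refine ⟨xm_norm D.ne c hg, ?_⟩
  rw [← D.pa.conj (D.xm_Ga c) (D.mGa hg)]

lemma good_W : Good sa a b (ww a b) (WW sa sb a b) :=
  ((D.good_xp 1).mul (D.good_xm (-1))).mul (D.good_xp 1)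

lemma good_W' : Good sa a b (ww a b) (WW' sa sb a b) := by
  have := ((D.good_xm (-1)).mul (D.good_xp 1)).mul (D.good_xm (-1))
  rwa [ww_alt D.ne] at this

lemma tS_e_a_conj (c : F) : sa (tS (ff a) c) = Th sa sb a b * sa (tS (ee a) c) * (Th sa sb a b)⁻¹ := by
  have hm := tS_ee_mem_Mg_left (F := F) a b c
  have hB : Commute (sb (nn b)) (sa (tS (ee a) c)) := by
    rw [D.ag _ hm]
    exact D.pb.comm D.nnb_Gb (D.mGb hm) (nn_comm_tS D.ne c)
  have e1 : Th sa sb a b * sa (tS (ee a) c) * (Th sa sb a b)⁻¹ =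
      sa (nn a) * (sb (nn b) * sa (tS (ee a) c) * (sb (nn b))⁻¹) * (sa (nn a))⁻¹ := by
    rw [Th]
    group
  have e2 : sb (nn b) * sa (tS (ee a) c) * (sb (nn b))⁻¹ = sa (tS (ee a) c) := by
    rw [hB.eq]
    group
  rw [e1, e2, ← D.pa.conj D.nna_Ga (D.mGa hm), tS_conj, nn_ee, tS_neg_vec]

lemma tS_f_b_conj (c : F) : sb (tS (ff b) c) = Th sa sb a b * sa (tS (ee b) c) * (Th sa sb a b)⁻¹ := by
  have hm := tS_ee_mem_Mg_right (F := F) a b c
  have hA : Commute (sa (nn a)) (sb (tS (ff b) c)) :=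
    D.cm _ (nn_mem (Set.mem_singleton a)) _ (tS_mem (Sup_ff (Set.mem_singleton b)) c)
  have e1 : Th sa sb a b * sa (tS (ee b) c) * (Th sa sb a b)⁻¹ =
      sa (nn a) * (sb (nn b) * sb (tS (ee b) c) * (sb (nn b))⁻¹) * (sa (nn a))⁻¹ := by
    rw [Th, D.ag _ hm]
    group
  rw [e1, ← D.pb.conj D.nnb_Gb (D.mGb hm), tS_conj, nn_ee, tS_neg_vec, hA.eq]
  group

lemma W_tS_f_a (c : F) : WW sa sb a b * sa (tS (ff a) c) * (WW sa sb a b)⁻¹ = sb (tS (ff b) c) := by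
  have hm := tS_ee_mem_Mg_left (F := F) a b c
  have h := (D.good_W' _ hm).2
  rw [ww_tS_ee_a D.ne] at h
  have e : ∀ {W T W' X : H}, W * T = T * W' → W * (T * X * T⁻¹) * W⁻¹ = T * (W' * X * W'⁻¹) * T⁻¹ := by
    intro W T W' X hW
    have : W⁻¹ = T * W'⁻¹ * T⁻¹ := by
      have : W = T * W' * T⁻¹ := by rw [← hW]; group
      rw [this]
      group
    rw [this]
    calc W * (T * X * T⁻¹) * (T * W'⁻¹ * T⁻¹) = W * T * X * W'⁻¹ * T⁻¹ := by group
      _ = T * W' * X * W'⁻¹ * T⁻¹ := by rw [hW]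
      _ = _ := by group
  rw [D.tS_e_a_conj, e D.W_th, h, D.tS_f_b_conj]

lemma W_tS_f_b (c : F) : WW sa sb a b * sb (tS (ff b) c) * (WW sa sb a b)⁻¹ = sa (tS (ff a) c) := by
  have hm := tS_ee_mem_Mg_right (F := F) a b c
  have h := (D.good_W' _ hm).2
  rw [ww_tS_ee_b D.ne] at h
  have e : ∀ {W T W' X : H}, W * T = T * W' → W * (T * X * T⁻¹) * W⁻¹ = T * (W' * X * W'⁻¹) * T⁻¹ := by
    intro W T W' X hW
    have : W⁻¹ = T * W'⁻¹ * T⁻¹ := by
      have : W = T * W' * T⁻¹ := by rw [← hW]; group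
      rw [this]
      group
    rw [this]
    calc W * (T * X * T⁻¹) * (T * W'⁻¹ * T⁻¹) = W * T * X * W'⁻¹ * T⁻¹ := by group
      _ = T * W' * X * W'⁻¹ * T⁻¹ := by rw [hW]
      _ = _ := by group
  rw [D.tS_f_b_conj, e D.W_th, h, D.tS_e_a_conj]

lemma ww_conj_Ga {g : Spg m F} (hg : g ∈ (Ga a b : Subgroup (Spg m F))) :
    ww a b * g * (ww a b)⁻¹ ∈ (Gb a b : Subgroup (Spg m F)) := by
  have h := (mem_Ga_iff D.ne).1 hg
  refine (mem_Gb_iff D.ne).2 ⟨(Fx _).mul_mem ((Fx _).mul_mem (ww_mem a b) h.1) ((Fx _).inv_mem (ww_mem a b)), ?_⟩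
  rw [act_mul, act_mul, ww_inv_ee_a D.ne, act_neg, h.2, act_neg, ww_ee_b D.ne, neg_neg]

lemma ww_conj_Gb {g : Spg m F} (hg : g ∈ (Gb a b : Subgroup (Spg m F))) :
    ww a b * g * (ww a b)⁻¹ ∈ (Ga a b : Subgroup (Spg m F)) := by
  have h := (mem_Gb_iff D.ne).1 hg
  refine (mem_Ga_iff D.ne).2 ⟨(Fx _).mul_mem ((Fx _).mul_mem (ww_mem a b) h.1) ((Fx _).inv_mem (ww_mem a b)), ?_⟩
  rw [act_mul, act_mul, ww_inv_ee_b D.ne, h.2, ww_ee_a D.ne]

lemma Ga_le_closure : (Ga a b : Subgroup (Spg m F)) ≤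
    Subgroup.closure (((Mg a b : Subgroup (Spg m F)) : Set (Spg m F)) ∪ Set.range (tS (ff a))) := by
  rw [sup_le_iff]
  constructor
  · intro x hx
    exact Subgroup.subset_closure (Or.inl hx)
  · refine (Fx_single_le_Sgen a).trans ?_
    rw [Sgen, Subgroup.closure_le]
    rintro _ (⟨c, rfl⟩ | ⟨c, rfl⟩)
    · exact Subgroup.subset_closure (Or.inl (tS_ee_mem_Mg_left a b c))
    · exact Subgroup.subset_closure (Or.inr ⟨c, rfl⟩)

lemma Gb_le_closure : (Gb a b : Subgroup (Spg m F)) ≤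
    Subgroup.closure (((Mg a b : Subgroup (Spg m F)) : Set (Spg m F)) ∪ Set.range (tS (ff b))) := by
  rw [sup_le_iff]
  constructor
  · intro x hx
    exact Subgroup.subset_closure (Or.inl hx)
  · refine (Fx_single_le_Sgen b).trans ?_
    rw [Sgen, Subgroup.closure_le]
    rintro _ (⟨c, rfl⟩ | ⟨c, rfl⟩)
    · exact Subgroup.subset_closure (Or.inl (tS_ee_mem_Mg_right a b c))
    · exact Subgroup.subset_closure (Or.inr ⟨c, rfl⟩)

/-- The key relation on `Ga`. -/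
lemma main_a {g : Spg m F} (hg : g ∈ (Ga a b : Subgroup (Spg m F))) :
    WW sa sb a b * sa g * (WW sa sb a b)⁻¹ = sb (ww a b * g * (ww a b)⁻¹) := by
  have hs : PH (Ga a b : Subgroup (Spg m F)) (fun g => WW sa sb a b * sa g * (WW sa sb a b)⁻¹) := by
    intro x hx y hy
    simp only
    rw [D.pa _ hx _ hy]
    group
  have ht : PH (Ga a b : Subgroup (Spg m F)) (fun g => sb (ww a b * g * (ww a b)⁻¹)) := by
    intro x hx y hy
    have e : (ww a b * (x * y) * (ww a b)⁻¹ : Spg m F) = (ww a b * x * (ww a b)⁻¹) * (ww a b * y * (ww a b)⁻¹) := by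
      group
    simp only
    rw [e, D.pb _ (D.ww_conj_Ga hx) _ (D.ww_conj_Ga hy)]
  refine PH.eq_on hs ht (X := ((Mg a b : Subgroup (Spg m F)) : Set (Spg m F)) ∪ Set.range (tS (ff a))) ?_ D.Ga_le_closure ?_ hg
  · rintro _ (hx | ⟨c, rfl⟩)
    · exact D.mGa hx
    · exact D.sGa (tS_mem (Sup_ff (Set.mem_singleton a)) c)
  · rintro _ (hx | ⟨c, rfl⟩)
    · have h := D.good_W _ hx
      rw [h.2, D.ag _ h.1]
    · rw [D.W_tS_f_a, ww_tS_ff_a D.ne]

/-- The key relation on `Gb`. -/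
lemma main_b {g : Spg m F} (hg : g ∈ (Gb a b : Subgroup (Spg m F))) :
    WW sa sb a b * sb g * (WW sa sb a b)⁻¹ = sa (ww a b * g * (ww a b)⁻¹) := by
  have hs : PH (Gb a b : Subgroup (Spg m F)) (fun g => WW sa sb a b * sb g * (WW sa sb a b)⁻¹) := by
    intro x hx y hy
    simp only
    rw [D.pb _ hx _ hy]
    group
  have ht : PH (Gb a b : Subgroup (Spg m F)) (fun g => sa (ww a b * g * (ww a b)⁻¹)) := by
    intro x hx y hy
    have e : (ww a b * (x * y) * (ww a b)⁻¹ : Spg m F) = (ww a b * x * (ww a b)⁻¹) * (ww a b * y * (ww a b)⁻¹) := by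
      group
    simp only
    rw [e, D.pa _ (D.ww_conj_Gb hx) _ (D.ww_conj_Gb hy)]
  refine PH.eq_on hs ht (X := ((Mg a b : Subgroup (Spg m F)) : Set (Spg m F)) ∪ Set.range (tS (ff b))) ?_ D.Gb_le_closure ?_ hg
  · rintro _ (hx | ⟨c, rfl⟩)
    · exact D.mGb hx
    · exact D.sGb (tS_mem (Sup_ff (Set.mem_singleton b)) c)
  · rintro _ (hx | ⟨c, rfl⟩)
    · have h := D.good_W _ hx
      rw [← D.ag _ hx, h.2]
    · rw [D.W_tS_f_b, ww_tS_ff_b D.ne]

/-- The two expressions of the Weyl element agree. -/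
lemma W_eq_W' : WW' sa sb a b = WW sa sb a b := by
  have h := D.main_a (D.xm_Ga (-1))
  rw [ww_xm D.ne, neg_neg] at h
  have e : WW sa sb a b * sa (xm a b (-1)) = sb (xp a b 1) * WW sa sb a b := mul_inv_eq_iff_eq_mul.1 h
  have e2 : sb (xp a b 1) * WW' sa sb a b = sb (xp a b 1) * WW sa sb a b := by
    calc sb (xp a b 1) * WW' sa sb a b = WW sa sb a b * sa (xm a b (-1)) := by
          simp only [WW, WW']
          group
      _ = _ := e
  exact mul_left_cancel e2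

/-- The torus on `xp`. -/
lemma hh_XP {p : F} (hp : p ≠ 0) (c : F) :
    sa (hh a p) * sb (xp a b c) * (sa (hh a p))⁻¹ = sb (xp a b (p * c)) := by
  have hcm : Commute (sa (hh a p)) (sb (nn b)) :=
    D.cm _ (hh_mem (Set.mem_singleton a) p) _ (nn_mem (Set.mem_singleton b))
  have hh1 : hh a p ∈ (Ga a b : Subgroup (Spg m F)) := D.sGa (hh_mem (Set.mem_singleton a) p)
  have e1 : sa (hh a p) * sa (yy a b (-c)) * (sa (hh a p))⁻¹ = sa (yy a b (p * -c)) := by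
    rw [← D.pa.conj hh1 (D.yy_Ga _), hh_yy D.ne hp]
  have e : ∀ {T B Y : H}, T * B = B * T → T * (B * Y * B⁻¹) * T⁻¹ = B * (T * Y * T⁻¹) * B⁻¹ := by
    intro T B Y h
    have h' : B⁻¹ * T⁻¹ = T⁻¹ * B⁻¹ := by
      rw [← mul_inv_rev, ← mul_inv_rev, h]
    calc T * (B * Y * B⁻¹) * T⁻¹ = (T * B) * Y * (B⁻¹ * T⁻¹) := by group
      _ = (B * T) * Y * (T⁻¹ * B⁻¹) := by rw [h, h']
      _ = _ := by group
  rw [D.XP_eq c, ← D.ag _ (yy_mem_Mg a b _), e hcm.eq, e1, D.ag _ (yy_mem_Mg a b _), D.XP_eq (p * c)]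
  congr 3
  ring_nf

/-- The torus on `xm`. -/
lemma hh_XM {p : F} (hp : p ≠ 0) (c : F) :
    sa (hh a p) * sa (xm a b c) * (sa (hh a p))⁻¹ = sa (xm a b (p⁻¹ * c)) := by
  have hh1 : hh a p ∈ (Ga a b : Subgroup (Spg m F)) := D.sGa (hh_mem (Set.mem_singleton a) p)
  rw [← D.pa.conj hh1 (D.xm_Ga _), hh_xm D.ne hp]

/-- The inverse of the Weyl element. -/
lemma W_inv : (WW sa sb a b)⁻¹ = sa (hh a (-1)) * WW sa sb a b * (sa (hh a (-1)))⁻¹ := by
  have hm1 : (-1 : F) ≠ 0 := neg_ne_zero.2 one_ne_zero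
  have e : ∀ {T X Y : H}, T * (X * Y * X) * T⁻¹ = (T * X * T⁻¹) * (T * Y * T⁻¹) * (T * X * T⁻¹) := by
    intro T X Y
    group
  rw [WW, e, D.hh_XP hm1, D.hh_XM hm1]
  have e1 : ((-1 : F)⁻¹ * -1) = 1 := by simp
  have e2 : sb (xp a b ((-1 : F) * 1)) = (sb (xp a b 1))⁻¹ := by
    rw [mul_one, xp_neg D.ne, D.pb.inv (D.xp_Gb 1)]
  have e3 : sa (xm a b (1 : F)) = (sa (xm a b (-1)))⁻¹ := by
    rw [← D.pa.inv (D.xm_Ga _), ← xm_neg D.ne, neg_neg]
  rw [e1, e2, e3]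
  group

/-- The square of the Weyl element. -/
lemma W_sq : ∃ k ∈ (Gb a b : Subgroup (Spg m F)), ∃ h ∈ (Fx ({a} : Set (Fin m)) : Subgroup (Spg m F)),
    WW sa sb a b * WW sa sb a b = sb k * sa h := by
  have hmem : (hh a (-1) : Spg m F)⁻¹ ∈ (Fx ({a} : Set (Fin m)) : Subgroup (Spg m F)) :=
    (Fx _).inv_mem (hh_mem (Set.mem_singleton a) _)
  have h1 := D.main_a (D.sGa hmem)
  have hinv : sa ((hh a (-1) : Spg m F)⁻¹) = (sa (hh a (-1)))⁻¹ :=
    D.pa.inv (D.sGa (hh_mem (Set.mem_singleton a) _))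
  set k₀ : Spg m F := ww a b * (hh a (-1))⁻¹ * (ww a b)⁻¹ with hk₀
  have hk₀G : k₀ ∈ (Gb a b : Subgroup (Spg m F)) := D.ww_conj_Ga (D.sGa hmem)
  refine ⟨k₀⁻¹, Subgroup.inv_mem _ hk₀G, (hh a (-1))⁻¹, hmem, ?_⟩
  rw [hinv] at h1
  -- `W⁻¹ = ĥ * (W ĥ⁻¹ W⁻¹) * W`
  have h2 : (WW sa sb a b)⁻¹ = sa (hh a (-1)) * sb k₀ * WW sa sb a b := by
    rw [← h1]
    conv_lhs => rw [D.W_inv]
    group
  rw [D.pb.inv hk₀G, hinv]
  have h3 : (WW sa sb a b)⁻¹ * (WW sa sb a b)⁻¹ = sa (hh a (-1)) * sb k₀ := by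
    calc (WW sa sb a b)⁻¹ * (WW sa sb a b)⁻¹
        = (sa (hh a (-1)) * sb k₀ * WW sa sb a b) * (WW sa sb a b)⁻¹ := congrArg (· * (WW sa sb a b)⁻¹) h2
      _ = _ := by group
  have h4 : (WW sa sb a b * WW sa sb a b)⁻¹ = sa (hh a (-1)) * sb k₀ := by
    rw [mul_inv_rev, h3]
  have h5 : WW sa sb a b * WW sa sb a b = (sa (hh a (-1)) * sb k₀)⁻¹ := by
    rw [← h4, inv_inv]
  rw [h5, mul_inv_rev]

lemma DD_left {r : Spg m F} (hr : r ∈ (Gb a b : Subgroup (Spg m F))) {z : H} (hz : z ∈ DD sa sb a b) :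
    sb r * z ∈ DD sa sb a b := by
  obtain ⟨r₁, hr₁, r₂, hr₂, y, hy, rfl⟩ := hz
  refine ⟨r * r₁, Subgroup.mul_mem _ hr hr₁, r₂, hr₂, y, hy, ?_⟩
  rw [D.pb _ hr _ hr₁]
  group

lemma DD_right {r : Spg m F} (hr : r ∈ (Gb a b : Subgroup (Spg m F))) {z : H} (hz : z ∈ DD sa sb a b) :
    z * sb r ∈ DD sa sb a b := by
  obtain ⟨r₁, hr₁, r₂, hr₂, y, hy, rfl⟩ := hz
  refine ⟨r₁, hr₁, r₂ * r, Subgroup.mul_mem _ hr₂ hr, y, hy, ?_⟩
  rw [D.pb _ hr₂ _ hr]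
  group

lemma DD_plane {ℓ : Spg m F} (hℓ : ℓ ∈ (Fx ({a} : Set (Fin m)) : Subgroup (Spg m F))) : sa ℓ ∈ DD sa sb a b := by
  refine ⟨1, Subgroup.one_mem _, 1, Subgroup.one_mem _, sa ℓ, Or.inl ⟨ℓ, hℓ, rfl⟩, ?_⟩
  rw [D.pb.one]
  group

lemma DD_W : WW sa sb a b ∈ DD sa sb a b := by
  refine ⟨1, Subgroup.one_mem _, 1, Subgroup.one_mem _, WW sa sb a b, Or.inr rfl, ?_⟩
  rw [D.pb.one]
  group

/-- The core case of Claim 2. -/
lemma claim2_core {A : Spg m F} (hA : A ∈ (Fx ({a} : Set (Fin m)) : Subgroup (Spg m F))) {β : F} (hβ : β ≠ 0)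
    (hAe : A ⋆ ee a = β • ff a) : WW sa sb a b * sb (xp a b 1) * sa A ∈ DD sa sb a b := by
  obtain ⟨k, hk, h, hh', hWW⟩ := D.W_sq
  have hb' : A ⋆ ee b = ee b := Fx.ee hA (by simpa using D.ne.symm)
  have hAinv_f : A⁻¹ ⋆ ff a = β⁻¹ • (ee a : VV m F) := by
    rw [act_eq_inv_iff, act_smul, hAe, smul_smul, inv_mul_cancel₀ hβ, one_smul]
  have hAinv_e : A⁻¹ ⋆ ee b = (ee b : VV m F) := by
    rw [act_eq_inv_iff, hb']
  -- rewriting `xp`
  have e1 : sb (xp a b 1) = sa (xm a b 1) * WW' sa sb a b * sa (xm a b 1) := by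
    have e3 : sa (xm a b (1 : F)) = (sa (xm a b (-1)))⁻¹ := by
      rw [← D.pa.inv (D.xm_Ga _), ← xm_neg D.ne, neg_neg]
    rw [WW', e3]
    group
  have e2 : WW sa sb a b * sa (xm a b 1) = sb (xp a b (-1)) * WW sa sb a b := by
    have h := D.main_a (D.xm_Ga (1 : F))
    rw [ww_xm D.ne] at h
    rw [← h]
    group
  have e3 : sa (xm a b 1) * sa A = sa A * sb (yy a b (β⁻¹ * 1)) := by
    have : xm a b (1 : F) * A = A * yy a b (β⁻¹ * 1) := by
      have h1 : A⁻¹ * xm a b 1 * A = yy a b (β⁻¹ * 1) := by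
        rw [xm, xS_conj', hAinv_f, hAinv_e, xS_smul_left (fm_ee_ee a b), yy]
      rw [← h1]
      group
    rw [← D.ag _ (yy_mem_Mg a b _), ← D.pa _ (D.xm_Ga _) _ (D.sGa hA), this, D.pa _ (D.sGa hA) _ (D.yy_Ga _)]
  have e4 : WW sa sb a b * sb (xp a b 1) * sa A =
      sb (xp a b (-1) * k) * sa (h * A) * sb (yy a b (β⁻¹ * 1)) := by
    rw [D.pb _ (D.xp_Gb _) _ hk, D.pa _ (D.sGa hh') _ (D.sGa hA), e1, D.W_eq_W']
    calc WW sa sb a b * (sa (xm a b 1) * WW sa sb a b * sa (xm a b 1)) * sa A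
        = (WW sa sb a b * sa (xm a b 1)) * WW sa sb a b * (sa (xm a b 1) * sa A) := by group
      _ = sb (xp a b (-1)) * (WW sa sb a b * WW sa sb a b) * (sa A * sb (yy a b (β⁻¹ * 1))) := by
          rw [e2, e3]
          group
      _ = _ := by
          rw [hWW]
          group
  rw [e4]
  exact D.DD_right (D.yy_Gb _) (D.DD_left (Subgroup.mul_mem _ (D.xp_Gb _) hk)
    (D.DD_plane ((Fx _).mul_mem hh' hA)))

/-- Claim 2. -/
lemma claim2 (κ : F) {ℓ : Spg m F} (hℓ : ℓ ∈ (Fx ({a} : Set (Fin m)) : Subgroup (Spg m F))) :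
    WW sa sb a b * sb (xp a b κ) * sa ℓ ∈ DD sa sb a b := by
  have hv : Sup ({a} : Set (Fin m)) (ℓ ⋆ ee a) := Fx.pres hℓ (Sup_ee (Set.mem_singleton a))
  have hsplit := split_single hv
  set α : F := -fm (ℓ ⋆ ee a) (ff a) with hα
  set β : F := fm (ℓ ⋆ ee a) (ee a) with hβ
  by_cases hβ0 : β = 0
  · -- torus case
    have hα0 : α ≠ 0 := by
      intro h0
      have : ℓ ⋆ ee a = 0 := by
        rw [hsplit, h0, hβ0]
        simp
      exact act_ne_zero ℓ (ee_ne_zero a) this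
    have hhm : hh a α ∈ (Fx ({a} : Set (Fin m)) : Subgroup (Spg m F)) := hh_mem (Set.mem_singleton a) α
    set ρ : Spg m F := (hh a α)⁻¹ * ℓ with hρ
    have hρe : ρ ⋆ ee a = ee a := by
      rw [hρ, act_mul, hsplit, hβ0, zero_smul, add_zero, act_eq_inv_iff, hh_ee a hα0]
    have hρM : ρ ∈ (Mg a b : Subgroup (Spg m F)) :=
      mem_Mg_of_plane ((Fx _).mul_mem ((Fx _).inv_mem hhm) hℓ) hρe
    have eℓ : ℓ = hh a α * ρ := by
      rw [hρ]
      group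
    have e1 : sb (xp a b κ) * sa (hh a α) = sa (hh a α) * sb (xp a b (α⁻¹ * κ)) := by
      have := D.hh_XP hα0 (α⁻¹ * κ)
      rw [← mul_assoc, mul_inv_cancel₀ hα0, one_mul] at this
      rw [← this]
      group
    have e2 : WW sa sb a b * sa (hh a α) = sb (ww a b * hh a α * (ww a b)⁻¹) * WW sa sb a b := by
      rw [← D.main_a (D.sGa hhm)]
      group
    have e3 : WW sa sb a b * sb (xp a b κ) * sa ℓ =
        sb (ww a b * hh a α * (ww a b)⁻¹) * WW sa sb a b * sb (xp a b (α⁻¹ * κ) * ρ) := by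
      rw [eℓ, D.pa _ (D.sGa hhm) _ (D.mGa hρM), D.pb _ (D.xp_Gb _) _ (D.mGb hρM), D.ag _ hρM]
      calc WW sa sb a b * sb (xp a b κ) * (sa (hh a α) * sb ρ)
          = WW sa sb a b * (sb (xp a b κ) * sa (hh a α)) * sb ρ := by group
        _ = (WW sa sb a b * sa (hh a α)) * sb (xp a b (α⁻¹ * κ)) * sb ρ := by rw [e1]; group
        _ = _ := by rw [e2]; group
    rw [e3]
    exact D.DD_right (Subgroup.mul_mem _ (D.xp_Gb _) (D.mGb hρM))
      (D.DD_left (D.ww_conj_Ga (D.sGa hhm)) D.DD_W)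
  · by_cases hκ : κ = 0
    · subst hκ
      have e1 : WW sa sb a b * sb (xp a b 0) * sa ℓ = sb (ww a b * ℓ * (ww a b)⁻¹) * WW sa sb a b := by
        rw [← D.main_a (D.sGa hℓ), xp_zero D.ne, D.pb.one]
        group
      rw [e1]
      have := D.DD_left (D.ww_conj_Ga (D.sGa hℓ)) D.DD_W
      exact this
    · -- normalize `κ` to `1`
      have hhm : hh a κ ∈ (Fx ({a} : Set (Fin m)) : Subgroup (Spg m F)) := hh_mem (Set.mem_singleton a) κ
      set ℓ₁ : Spg m F := (hh a κ)⁻¹ * ℓ with hℓ₁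
      have hℓ₁m : ℓ₁ ∈ (Fx ({a} : Set (Fin m)) : Subgroup (Spg m F)) := (Fx _).mul_mem ((Fx _).inv_mem hhm) hℓ
      have e0 : sb (xp a b κ) = sa (hh a κ) * sb (xp a b 1) * (sa (hh a κ))⁻¹ := by
        rw [D.hh_XP hκ, mul_one]
      have ehi : (hh a κ)⁻¹ ⋆ ee a = κ⁻¹ • (ee a : VV m F) := by
        rw [act_eq_inv_iff, act_smul, hh_ee a hκ, smul_smul, inv_mul_cancel₀ hκ, one_smul]
      have ehf : (hh a κ)⁻¹ ⋆ ff a = κ • (ff a : VV m F) := by
        rw [act_eq_inv_iff, act_smul, hh_ff a hκ, smul_smul, mul_inv_cancel₀ hκ, one_smul]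
      have eℓ₁ : ℓ₁ ⋆ ee a = (α * κ⁻¹) • ee a + (β * κ) • ff a := by
        rw [hℓ₁, act_mul, hsplit, act_add, act_smul, act_smul, ehi, ehf, smul_smul, smul_smul]
      set β₁ : F := β * κ with hβ₁
      set α₁ : F := α * κ⁻¹ with hα₁
      have hβ₁0 : β₁ ≠ 0 := mul_ne_zero hβ0 hκ
      set c₁ : F := α₁ / β₁ with hc₁
      set A : Spg m F := tS (ee a) (-c₁) * ℓ₁ with hA
      have hAm : A ∈ (Fx ({a} : Set (Fin m)) : Subgroup (Spg m F)) :=
        (Fx _).mul_mem (tS_mem (Sup_ee (Set.mem_singleton a)) _) hℓ₁m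
      have hAe : A ⋆ ee a = β₁ • ff a := by
        rw [hA, act_mul, eℓ₁, act_add, act_smul, act_smul, tS_ee_ee, tS_ee_ff, smul_add, smul_smul]
        have : β₁ * -c₁ = -α₁ := by
          rw [hc₁]
          field_simp
        rw [this]
        module
      have eℓ₁' : ℓ₁ = tS (ee a) c₁ * A := by
        rw [hA, ← mul_assoc, ← tS_add]
        simp [tS_zero]
      have htm := tS_ee_mem_Mg_left (F := F) a b c₁
      have hcomm : sb (xp a b 1) * sb (tS (ee a) c₁) = sb (tS (ee a) c₁) * sb (xp a b 1) :=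
        D.pb.comm (D.xp_Gb 1) (D.mGb htm) (xp_comm_tS D.ne 1 c₁)
      have e2 : WW sa sb a b * sb (tS (ee a) c₁) = sb (tS (ee b) c₁) * WW sa sb a b := by
        have := D.main_a (D.mGa htm)
        rw [ww_tS_ee_a D.ne, D.ag _ htm] at this
        rw [← this]
        group
      have e3 : WW sa sb a b * sa (hh a κ) = sb (ww a b * hh a κ * (ww a b)⁻¹) * WW sa sb a b := by
        rw [← D.main_a (D.sGa hhm)]
        group
      have e4 : WW sa sb a b * sb (xp a b κ) * sa ℓ =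
          sb (ww a b * hh a κ * (ww a b)⁻¹) * (sb (tS (ee b) c₁) * (WW sa sb a b * sb (xp a b 1) * sa A)) := by
        have el : sa ℓ = sa (hh a κ) * sb (tS (ee a) c₁) * sa A := by
          have : ℓ = hh a κ * (tS (ee a) c₁ * A) := by
            rw [← eℓ₁', hℓ₁]
            group
          rw [this, D.pa _ (D.sGa hhm) _ (Subgroup.mul_mem _ (D.mGa htm) (D.sGa hAm)),
            D.pa _ (D.mGa htm) _ (D.sGa hAm), D.ag _ htm]
          group
        rw [e0, el]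
        calc WW sa sb a b * (sa (hh a κ) * sb (xp a b 1) * (sa (hh a κ))⁻¹) * (sa (hh a κ) * sb (tS (ee a) c₁) * sa A)
            = (WW sa sb a b * sa (hh a κ)) * (sb (xp a b 1) * sb (tS (ee a) c₁)) * sa A := by group
          _ = sb (ww a b * hh a κ * (ww a b)⁻¹) * ((WW sa sb a b * sb (tS (ee a) c₁)) * sb (xp a b 1) * sa A) := by
              rw [e3, hcomm]
              group
          _ = _ := by
              rw [e2]
              group
      rw [e4]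
      have h1 := D.claim2_core hAm hβ₁0 hAe
      have htb := tS_ee_mem_Mg_right (F := F) a b c₁
      exact D.DD_left (D.ww_conj_Ga (D.sGa hhm)) (D.DD_left (D.mGb htb) h1)

lemma sb_dec {g₁ g₂ : Spg m F} {κ c : F} (h1 : g₁ ∈ (Fx ({b} : Set (Fin m)) : Subgroup (Spg m F)))
    (h2 : g₂ ∈ (Fx ({b} : Set (Fin m)) : Subgroup (Spg m F))) :
    sb (g₁ * yy a b κ * tS (ee a) c * g₂) = sb g₁ * sb (yy a b κ) * sb (tS (ee a) c) * sb g₂ := by
  have ht := tS_ee_mem_Mg_left (F := F) a b c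
  rw [D.pb _ (Subgroup.mul_mem _ (Subgroup.mul_mem _ (D.sGb h1) (D.yy_Gb κ)) (D.mGb ht)) _ (D.sGb h2),
    D.pb _ (Subgroup.mul_mem _ (D.sGb h1) (D.yy_Gb κ)) _ (D.mGb ht), D.pb _ (D.sGb h1) _ (D.yy_Gb κ)]

lemma XM_neg_one : sa (xm a b (-1)) = sb (xp a b (-1)) * WW sa sb a b * sb (xp a b (-1)) := by
  rw [WW, xp_neg D.ne, D.pb.inv (D.xp_Gb 1)]
  group

/-- The closure under the Weyl element of the plane, on plane elements. -/
lemma closure_plane {r ℓ : Spg m F} (hr : r ∈ (Gb a b : Subgroup (Spg m F)))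
    (hℓ : ℓ ∈ (Fx ({a} : Set (Fin m)) : Subgroup (Spg m F))) : sa (nn a) * sb r * sa ℓ ∈ DD sa sb a b := by
  obtain ⟨g₁, g₂, κ, c, h1, h2, hκ, rfl⟩ := Gb_decomp D.ne (Gb_le_StabL D.ne hr)
  have hna : (nn a : Spg m F) ∈ (Fx ({a} : Set (Fin m)) : Subgroup (Spg m F)) := nn_mem (Set.mem_singleton a)
  have ht := tS_ee_mem_Mg_left (F := F) a b c
  have htS : tS (ee a) c ∈ (Fx ({a} : Set (Fin m)) : Subgroup (Spg m F)) :=
    tS_mem (Sup_ee (Set.mem_singleton a)) c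
  have hc1 : sa (nn a) * sb g₁ = sb g₁ * sa (nn a) := (D.cm _ hna _ h1).eq
  have hc2 : sb g₂ * sa ℓ = sa ℓ * sb g₂ := (D.cm _ hℓ _ h2).eq.symm
  set ℓ' : Spg m F := nn a * tS (ee a) c * ℓ with hℓ'
  have hℓ'm : ℓ' ∈ (Fx ({a} : Set (Fin m)) : Subgroup (Spg m F)) := (Fx _).mul_mem ((Fx _).mul_mem hna htS) hℓ
  have e1 : sa (nn a) * sa (yy a b κ) = sa (xm a b (-κ)) * sa (nn a) := by
    rw [← nn_a_yy D.ne, D.pa.conj D.nna_Ga (D.yy_Ga κ)]
    group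
  have e2 : sa ℓ' = sa (nn a) * sa (tS (ee a) c) * sa ℓ := D.pa.mul3 D.nna_Ga (D.mGa ht) (D.sGa hℓ)
  have e3 : sa (nn a) * sb (g₁ * yy a b κ * tS (ee a) c * g₂) * sa ℓ = sb g₁ * (sa (xm a b (-κ)) * sa ℓ') * sb g₂ := by
    rw [D.sb_dec h1 h2, ← D.ag _ (yy_mem_Mg a b κ), ← D.ag _ ht, e2]
    calc sa (nn a) * (sb g₁ * sa (yy a b κ) * sa (tS (ee a) c) * sb g₂) * sa ℓ
        = (sa (nn a) * sb g₁) * sa (yy a b κ) * sa (tS (ee a) c) * (sb g₂ * sa ℓ) := by group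
      _ = sb g₁ * (sa (nn a) * sa (yy a b κ)) * sa (tS (ee a) c) * sa ℓ * sb g₂ := by
          rw [hc1, hc2]
          group
      _ = _ := by
          rw [e1]
          group
  rw [e3]
  refine D.DD_right (D.sGb h2) (D.DD_left (D.sGb h1) ?_)
  rcases hκ with rfl | rfl
  · rw [neg_zero, xm_zero D.ne, D.pa.one, one_mul]
    exact D.DD_plane hℓ'm
  · rw [D.XM_neg_one]
    have := D.DD_left (D.xp_Gb (-1)) (D.claim2 (-1) hℓ'm)
    have e : sb (xp a b (-1)) * WW sa sb a b * sb (xp a b (-1)) * sa ℓ' =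
        sb (xp a b (-1)) * (WW sa sb a b * sb (xp a b (-1)) * sa ℓ') := by group
    rw [e]
    exact this

/-- The closure under the Weyl element of the plane, on the second Weyl element. -/
lemma closure_W {r : Spg m F} (hr : r ∈ (Gb a b : Subgroup (Spg m F))) :
    sa (nn a) * sb r * WW sa sb a b ∈ DD sa sb a b := by
  obtain ⟨g₁, g₂, κ, c, h1, h2, hκ, rfl⟩ := Gb_decomp D.ne (Gb_le_StabL D.ne hr)
  have hna : (nn a : Spg m F) ∈ (Fx ({a} : Set (Fin m)) : Subgroup (Spg m F)) := nn_mem (Set.mem_singleton a)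
  have hnb : (nn b : Spg m F) ∈ (Fx ({b} : Set (Fin m)) : Subgroup (Spg m F)) := nn_mem (Set.mem_singleton b)
  have ht := tS_ee_mem_Mg_left (F := F) a b c
  have ht' := tS_ee_mem_Mg_right (F := F) a b c
  have htb : tS (ee b) c ∈ (Fx ({b} : Set (Fin m)) : Subgroup (Spg m F)) :=
    tS_mem (Sup_ee (Set.mem_singleton b)) c
  have hc1 : sa (nn a) * sb g₁ = sb g₁ * sa (nn a) := (D.cm _ hna _ h1).eq
  set W := WW sa sb a b with hW
  set ℓ₂ : Spg m F := (ww a b)⁻¹ * g₂ * ww a b with hℓ₂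
  have hℓ₂m : ℓ₂ ∈ (Fx ({a} : Set (Fin m)) : Subgroup (Spg m F)) := ww_inv_conj_plane D.ne h2
  have e1 : sb g₂ * W = W * sa ℓ₂ := by
    have := D.main_a (D.sGa hℓ₂m)
    rw [← hW] at this
    have e : ww a b * ℓ₂ * (ww a b)⁻¹ = g₂ := by
      rw [hℓ₂]
      group
    rw [e] at this
    rw [← this]
    group
  set g : Spg m F := yy a b (-κ) * tS (ee b) c with hg
  have hgM : g ∈ (Mg a b : Subgroup (Spg m F)) := Subgroup.mul_mem _ (yy_mem_Mg a b _) ht'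
  have e2 : sb (yy a b κ) * sb (tS (ee a) c) * W = W * sb g := by
    have := D.main_a (D.mGa hgM)
    rw [← hW] at this
    have e : ww a b * g * (ww a b)⁻¹ = yy a b κ * tS (ee a) c := by
      rw [hg, ← ww_inv_yy_t D.ne]
      group
    rw [e, D.pb _ (D.yy_Gb κ) _ (D.mGb ht), D.ag _ hgM] at this
    rw [← this]
    group
  have e3 : sa (nn a) * W = W * sb (nn b) := by
    have := D.main_b D.nnb_Gb
    rw [← hW, ww_nn_b D.ne] at this
    rw [← this]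
    group
  have e4 : sb (nn b) * sb g = sb (xp a b κ) * sb (nn b * tS (ee b) c) := by
    rw [hg, D.pb _ (D.yy_Gb _) _ (D.mGb ht'), D.XP_eq κ, D.pb _ D.nnb_Gb _ (D.mGb ht')]
    group
  have e5 : sb (nn b * tS (ee b) c) * sa ℓ₂ = sa ℓ₂ * sb (nn b * tS (ee b) c) :=
    (D.cm _ hℓ₂m _ ((Fx _).mul_mem hnb htb)).eq.symm
  have e6 : sa (nn a) * sb (g₁ * yy a b κ * tS (ee a) c * g₂) * W =
      sb g₁ * (W * sb (xp a b κ) * sa ℓ₂) * sb (nn b * tS (ee b) c) := by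
    rw [D.sb_dec h1 h2]
    calc sa (nn a) * (sb g₁ * sb (yy a b κ) * sb (tS (ee a) c) * sb g₂) * W
        = (sa (nn a) * sb g₁) * sb (yy a b κ) * sb (tS (ee a) c) * (sb g₂ * W) := by group
      _ = sb g₁ * sa (nn a) * (sb (yy a b κ) * sb (tS (ee a) c) * W) * sa ℓ₂ := by
          rw [hc1, e1]
          group
      _ = sb g₁ * (sa (nn a) * W) * sb g * sa ℓ₂ := by
          rw [e2]
          group
      _ = sb g₁ * W * (sb (nn b) * sb g) * sa ℓ₂ := by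
          rw [e3]
          group
      _ = sb g₁ * W * sb (xp a b κ) * (sb (nn b * tS (ee b) c) * sa ℓ₂) := by
          rw [e4]
          group
      _ = _ := by
          rw [e5]
          group
  rw [e6]
  exact D.DD_right (D.sGb ((Fx _).mul_mem hnb htb)) (D.DD_left (D.sGb h1) (D.claim2 κ hℓ₂m))

lemma XP_mem_closure (c : F) : xp a b c ∈ (Gb a b : Subgroup (Spg m F)) := D.xp_Gb c

omit D [Group H] in
/-- The generation statement. -/
lemma L_le_closure (hab : a ≠ b) : (Fx ({a, b} : Set (Fin m)) : Subgroup (Spg m F)) ≤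
    Subgroup.closure (((Gb a b : Subgroup (Spg m F)) : Set (Spg m F)) ∪ {nn a}) := by
  set K := Subgroup.closure (((Gb a b : Subgroup (Spg m F)) : Set (Spg m F)) ∪ {nn a}) with hK
  have hGb : (Gb a b : Subgroup (Spg m F)) ≤ K := fun x hx => Subgroup.subset_closure (Or.inl hx)
  have hnn : (nn a : Spg m F) ∈ K := Subgroup.subset_closure (Or.inr rfl)
  have hSa : (Fx ({a} : Set (Fin m)) : Subgroup (Spg m F)) ≤ K := by
    refine (Fx_single_le_Sgen a).trans ?_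
    rw [Sgen, Subgroup.closure_le]
    rintro _ (⟨c, rfl⟩ | ⟨c, rfl⟩)
    · exact hGb (Subgroup.mem_sup_left (tS_ee_mem_Mg_left a b c))
    · have e : tS (ff a) c = nn a * tS (ee a) c * (nn a)⁻¹ := by
        rw [tS_conj, nn_ee, tS_neg_vec]
      rw [SetLike.mem_coe, e]
      exact K.mul_mem (K.mul_mem hnn (hGb (Subgroup.mem_sup_left (tS_ee_mem_Mg_left a b c)))) (K.inv_mem hnn)
  have hKT : K ≤ Fx ({a, b} : Set (Fin m)) := by
    rw [hK, Subgroup.closure_le]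
    rintro x (hx | rfl)
    · exact ((mem_Gb_iff hab).1 hx).1
    · exact nn_mem (mem_pair_left a b)
  refine gen_of_trans (mem_pair_left a b) hKT (fun r hr he => hGb ((mem_Gb_iff hab).2 ⟨hr, he⟩)) ?_
  intro v hv hv0
  refine trans_step (T' := {b}) hab (by simpa using hab) hSa ?_ ?_ ?_ hv hv0
  · have e : xm a b (-1 : F) = nn a * yy a b 1 * (nn a)⁻¹ := by rw [nn_a_yy hab]
    rw [e]
    exact K.mul_mem (K.mul_mem hnn (hGb (Subgroup.mem_sup_left (yy_mem_Mg a b 1)))) (K.inv_mem hnn)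
  · exact hGb ((mem_Gb_iff hab).2 ⟨xp_mem a b 1, xp_ee_a hab 1⟩)
  · intro u hu hu0
    obtain ⟨g, hg, e⟩ := plane_trans b hu hu0
    have hg' := Sgen_le_Fx b hg
    exact ⟨g, hGb (Subgroup.mem_sup_right hg'), hg', e⟩

end In

/-- The rank 2 gluing theorem. -/
theorem glue {a b : Fin m} {sa sb : Spg m F → H} (π : H →* Spg m F) (D : In a b sa sb)
    (hπa : ∀ x ∈ (Ga a b : Subgroup (Spg m F)), π (sa x) = x) (hπb : ∀ x ∈ (Gb a b : Subgroup (Spg m F)), π (sb x) = x) :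
    ∃ s : Spg m F → H, PH (Fx ({a, b} : Set (Fin m))) s ∧ (∀ x ∈ (Fx ({a, b} : Set (Fin m)) : Subgroup (Spg m F)), π (s x) = x) ∧
      (∀ x ∈ (Ga a b : Subgroup (Spg m F)), s x = sa x) ∧ (∀ x ∈ (Gb a b : Subgroup (Spg m F)), s x = sb x) := by
  have hna : (nn a : Spg m F) ∈ (Fx ({a} : Set (Fin m)) : Subgroup (Spg m F)) := nn_mem (Set.mem_singleton a)
  have hn4 : sa (nn a) ^ 4 = 1 := by
    have h := nn_pow_four (F := F) a
    have e : (nn a : Spg m F) ^ 4 = nn a * nn a * nn a * nn a := by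
      simp only [pow_succ, pow_zero, one_mul]
    rw [e] at h
    have e2 : sa (nn a) ^ 4 = sa (nn a) * sa (nn a) * sa (nn a) * sa (nn a) := by
      simp only [pow_succ, pow_zero, one_mul]
    rw [e2, ← D.pa _ D.nna_Ga _ D.nna_Ga, ← D.pa _ (Subgroup.mul_mem _ D.nna_Ga D.nna_Ga) _ D.nna_Ga,
      ← D.pa _ (Subgroup.mul_mem _ (Subgroup.mul_mem _ D.nna_Ga D.nna_Ga) D.nna_Ga) _ D.nna_Ga, h, D.pa.one]
  have hπW : π (WW sa sb a b) = ww a b := by
    rw [WW, map_mul, map_mul, hπb _ (D.xp_Gb 1), hπa _ (D.xm_Ga _), ww]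
  obtain ⟨Φ, hΦ, hπΦ, hΦR, hΦn⟩ := PHom.dc π (Gb a b) sb D.pb hπb (nn a) (sa (nn a)) (hπa _ D.nna_Ga) hn4
    (sa '' (Fx ({a} : Set (Fin m)) : Subgroup (Spg m F)) ∪ {WW sa sb a b})
    (Or.inl ⟨1, Subgroup.one_mem _, D.pa.one⟩)
    (by
      rintro y (⟨ℓ, hℓ, rfl⟩ | hy) hyR
      · rw [hπa _ (D.sGa hℓ)] at hyR ⊢
        have h := (mem_Gb_iff D.ne).1 hyR
        exact D.ag _ (mem_Mg_of_plane hℓ h.2)
      · rw [Set.mem_singleton_iff] at hy
        subst hy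
        rw [hπW] at hyR
        have h := (mem_Gb_iff D.ne).1 hyR
        rw [ww_ee_a D.ne] at h
        exact absurd h.2 (ee_ne_ee D.ne.symm))
    (by
      rintro r hr x (⟨ℓ, hℓ, rfl⟩ | hx)
      · exact D.closure_plane hr hℓ
      · rw [Set.mem_singleton_iff] at hx
        subst hx
        exact D.closure_W hr)
  have hle := In.L_le_closure (a := a) (b := b) (F := F) D.ne
  have hnC : (nn a : Spg m F) ∈ Subgroup.closure (((Gb a b : Subgroup (Spg m F)) : Set (Spg m F)) ∪ {nn a}) :=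
    Subgroup.subset_closure (Or.inr rfl)
  have hGbC : (Gb a b : Subgroup (Spg m F)) ≤ Subgroup.closure (((Gb a b : Subgroup (Spg m F)) : Set (Spg m F)) ∪ {nn a}) :=
    fun x hx => Subgroup.subset_closure (Or.inl hx)
  have hGaL : (Ga a b : Subgroup (Spg m F)) ≤ Fx ({a, b} : Set (Fin m)) := by
    intro x hx
    exact ((mem_Ga_iff D.ne).1 hx).1
  refine ⟨Φ, hΦ.mono hle, fun x hx => hπΦ x (hle hx), ?_, hΦR⟩
  intro x hx
  refine PH.eq_on ((hΦ.mono hle).mono hGaL) D.pa (X := ((Mg a b : Subgroup (Spg m F)) : Set (Spg m F)) ∪ Set.range (tS (ff a))) ?_ D.Ga_le_closure ?_ hx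
  · rintro _ (hx | ⟨c, rfl⟩)
    · exact D.mGa hx
    · exact D.sGa (tS_mem (Sup_ff (Set.mem_singleton a)) c)
  · rintro _ (hx | ⟨c, rfl⟩)
    · rw [hΦR _ (D.mGb hx), D.ag _ hx]
    · have hm := tS_ee_mem_Mg_left (F := F) a b c
      have e : tS (ff a) c = nn a * tS (ee a) c * (nn a)⁻¹ := by
        rw [tS_conj, nn_ee, tS_neg_vec]
      rw [e, hΦ.conj hnC (hGbC (D.mGb hm)), hΦn, hΦR _ (D.mGb hm), ← D.ag _ hm, ← D.pa.conj D.nna_Ga (D.mGa hm)]

end Cfsg.Agent.Lib.SpAm.Rank2
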