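import Cfsg.Agent.Lib.SpAm.LevelG
import Cfsg.Agent.Lib.SpAm.Rank2

/-!
# The level step: extending from `Fx (insert b T'')` and the Levi to `Fx (insert a (insert b T''))`
-/

set_option autoImplicit false

namespace Cfsg.Agent.Lib.SpAm.Level

open Cfsg.Agent.Lib.SpAm.Model Cfsg.Agent.Lib.SpAm.Rank2G Cfsg.Agent.Lib.SpAm.PHom Cfsg.Agent.Lib.SpAm.LevelG

variable {m : ℕ} {F : Type*} [Field F] {H : Type*} [Group H]

/-- The input of the level step. -/
structure LIn (π : H →* Spg m F) (T'' : Set (Fin m)) (a b : Fin m) (sL s' : Spg m F → H) : Prop where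
  ab : a ≠ b
  a2 : a ∉ T''
  b2 : b ∉ T''
  pL : PH (Fx ({a, b} : Set (Fin m))) sL
  pS : PH (Fx (insert b T'')) s'
  πL : ∀ x ∈ (Fx ({a, b} : Set (Fin m)) : Subgroup (Spg m F)), π (sL x) = x
  πS : ∀ x ∈ (Fx (insert b T'') : Subgroup (Spg m F)), π (s' x) = x
  ag : ∀ x ∈ (Fx ({b} : Set (Fin m)) : Subgroup (Spg m F)), sL x = s' x
  c1 : ∀ x ∈ (Fx ({a} : Set (Fin m)) : Subgroup (Spg m F)), ∀ y ∈ (Fx (insert b T'') : Subgroup (Spg m F)),
    Commute (sL x) (s' y)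
  c2 : ∀ x ∈ (Fx ({a, b} : Set (Fin m)) : Subgroup (Spg m F)), ∀ y ∈ (Fx T'' : Subgroup (Spg m F)),
    Commute (sL x) (s' y)
  tr : ∀ u : VV m F, Sup (insert b T'') u → u ≠ 0 → ∃ g ∈ (Fx (insert b T'') : Subgroup (Spg m F)), g ⋆ ee b = u
  r3 : T'' = ∅ ∨ ∃ c, c ∈ T'' ∧ (∀ u : VV m F, Sup T'' u → u ≠ 0 → ∃ g ∈ (Fx T'' : Subgroup (Spg m F)), g ⋆ ee c = u) ∧
    Commute (sL (yy a b 1)) (s' (yy b c 1)) ∧
    ∃ X : H, s' (ww b c) * sL (yy a b 1) * (s' (ww b c))⁻¹ = X ∧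
      s' (xm b c (-1)) * sL (yy a b 1) * (s' (xm b c (-1)))⁻¹ = sL (yy a b 1) * X ∧
      sL (ww a b) * X * (sL (ww a b))⁻¹ = s' (yy b c 1)

/-- The elements `Ê(u)`. -/
noncomputable def EE (sL s' : Spg m F → H) (T'' : Set (Fin m)) (a b : Fin m) (u : VV m F) : H := by
  classical
  exact if h : ∃ g, g ∈ (Fx (insert b T'') : Subgroup (Spg m F)) ∧ g ⋆ ee b = u then
    s' h.choose * sL (yy a b 1) * (s' h.choose)⁻¹ else 1

namespace LIn

variable {π : H →* Spg m F} {T'' : Set (Fin m)} {a b : Fin m} {sL s' : Spg m F → H}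
  (D : LIn π T'' a b sL s')
include D

lemma a3 : a ∉ insert b T'' := by
  simp [D.ab, D.a2]

lemma sb_le : (Fx ({b} : Set (Fin m)) : Subgroup (Spg m F)) ≤ Fx (insert b T'') :=
  Fx_mono (Set.singleton_subset_iff.2 (Set.mem_insert _ _))

lemma t2_le : (Fx T'' : Subgroup (Spg m F)) ≤ Fx (insert b T'') := Fx_mono (Set.subset_insert _ _)

lemma yyL (c : F) : yy a b c ∈ (Fx ({a, b} : Set (Fin m)) : Subgroup (Spg m F)) := yy_mem a b c

lemma tt_L (c : F) : tS (ee a) c ∈ (Fx ({a, b} : Set (Fin m)) : Subgroup (Spg m F)) :=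
  tS_mem (Sup_ee (mem_pair_left a b)) c

lemma tt_S (c : F) : tS (ee a) c ∈ (Fx ({a} : Set (Fin m)) : Subgroup (Spg m F)) :=
  tS_mem (Sup_ee (Set.mem_singleton a)) c

lemma sa_L {x : Spg m F} (h : x ∈ (Fx ({a} : Set (Fin m)) : Subgroup (Spg m F))) : x ∈ (Fx ({a, b} : Set (Fin m)) : Subgroup (Spg m F)) :=
  Fx_single_le_pair_left a b h

lemma sb_L {x : Spg m F} (h : x ∈ (Fx ({b} : Set (Fin m)) : Subgroup (Spg m F))) : x ∈ (Fx ({a, b} : Set (Fin m)) : Subgroup (Spg m F)) :=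
  Fx_single_le_pair_right a b h

/-- The stabilizer of `e_b` commutes with `Ŷ`. -/
lemma stab_comm {g : Spg m F} (hg : g ∈ (Fx (insert b T'') : Subgroup (Spg m F))) (he : g ⋆ ee b = ee b) :
    Commute (s' g) (sL (yy a b 1)) := by
  obtain ⟨u, c, g₂, hu, hg₂, rfl⟩ := decomp_qq D.b2 hg he
  have hb1 : (ee b : VV m F) ∈ {x | Sup (insert b T'') x} := Sup_ee (Set.mem_insert _ _)
  have hxm : xS (ee b) u 1 ∈ (Fx (insert b T'') : Subgroup (Spg m F)) :=
    xS_mem hb1 (hu.mono (Set.subset_insert _ _)) _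
  have htm : tS (ee b) c ∈ (Fx (insert b T'') : Subgroup (Spg m F)) := tS_mem hb1 _
  have e : s' (qq b u c * g₂) = s' (xS (ee b) u 1) * s' (tS (ee b) c) * s' g₂ := by
    rw [qq, D.pS.mul3 hxm htm (D.t2_le hg₂)]
  have h3 : Commute (s' g₂) (sL (yy a b 1)) := (D.c2 _ (D.yyL 1) _ hg₂).symm
  have h2 : Commute (s' (tS (ee b) c)) (sL (yy a b 1)) := by
    have hS : tS (ee b) c ∈ (Fx ({b} : Set (Fin m)) : Subgroup (Spg m F)) := tS_mem (Sup_ee (Set.mem_singleton b)) c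
    rw [← D.ag _ hS]
    exact D.pL.comm (D.sb_L hS) (D.yyL 1) (Mg_comm (tS_ee_mem_Mg_right a b c) (yy_mem_Mg a b 1))
  have h1 : Commute (s' (xS (ee b) u 1)) (sL (yy a b 1)) := by
    by_cases hu0 : u = 0
    · subst hu0
      rw [xS_zero_right, D.pS.one]
      exact Commute.one_left _
    · rcases D.r3 with h0 | ⟨c', hc', htr, hz, _⟩
      · subst h0
        exact absurd (Sup_empty hu) hu0
      · obtain ⟨g₃, hg₃, e3⟩ := htr u hu hu0
        have e4 : xS (ee b) u 1 = g₃ * yy b c' 1 * g₃⁻¹ := by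
          rw [yy, xS_conj, e3, Fx.ee hg₃ D.b2]
        have hyy : yy b c' (1 : F) ∈ (Fx (insert b T'') : Subgroup (Spg m F)) :=
          xS_mem hb1 (Sup_ee (Set.mem_insert_of_mem _ hc')) _
        rw [e4, D.pS.conj (D.t2_le hg₃) hyy]
        have h3' : Commute (s' g₃) (sL (yy a b 1)) := (D.c2 _ (D.yyL 1) _ hg₃).symm
        exact (h3'.mul_left hz.symm).mul_left h3'.inv_left
  rw [e]
  exact (h1.mul_left h2).mul_left h3

lemma EE_eq {g : Spg m F} (hg : g ∈ (Fx (insert b T'') : Subgroup (Spg m F))) :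
    EE sL s' T'' a b (g ⋆ ee b) = s' g * sL (yy a b 1) * (s' g)⁻¹ := by
  have h : ∃ g', g' ∈ (Fx (insert b T'') : Subgroup (Spg m F)) ∧ g' ⋆ ee b = g ⋆ ee b := ⟨g, hg, rfl⟩
  rw [EE, dif_pos h]
  have h1 := h.choose_spec
  set g₀ := h.choose
  have hs : (g⁻¹ * g₀) ⋆ ee b = ee b := by
    rw [act_mul, h1.2, inv_act_act]
  have hm : g⁻¹ * g₀ ∈ (Fx (insert b T'') : Subgroup (Spg m F)) := (Fx _).mul_mem ((Fx _).inv_mem hg) h1.1
  have hc := D.stab_comm hm hs
  have e : s' g₀ = s' g * s' (g⁻¹ * g₀) := by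
    rw [← D.pS _ hg _ hm]
    congr 1
    group
  rw [e]
  calc s' g * s' (g⁻¹ * g₀) * sL (yy a b 1) * (s' g * s' (g⁻¹ * g₀))⁻¹
      = s' g * (s' (g⁻¹ * g₀) * sL (yy a b 1)) * (s' (g⁻¹ * g₀))⁻¹ * (s' g)⁻¹ := by group
    _ = _ := by
        rw [hc.eq]
        group

lemma EE_zero : EE sL s' T'' a b 0 = 1 := by
  rw [EE, dif_neg]
  rintro ⟨g, _, e⟩
  exact act_ne_zero g (ee_ne_zero b) e

lemma EE_equiv {g : Spg m F} (hg : g ∈ (Fx (insert b T'') : Subgroup (Spg m F))) {u : VV m F} (hu : Sup (insert b T'') u) :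
    s' g * EE sL s' T'' a b u * (s' g)⁻¹ = EE sL s' T'' a b (g ⋆ u) := by
  by_cases hu0 : u = 0
  · subst hu0
    rw [act_zero, D.EE_zero]
    group
  · obtain ⟨g₀, hg₀, rfl⟩ := D.tr u hu hu0
    rw [← act_mul, D.EE_eq hg₀, D.EE_eq (Subgroup.mul_mem _ hg hg₀), D.pS _ hg _ hg₀]
    group

lemma EE_plane {u : VV m F} (hu : Sup ({b} : Set (Fin m)) u) : EE sL s' T'' a b u = sL (xS (ee a) u 1) := by
  have hab' : a ∉ ({b} : Set (Fin m)) := by simpa using D.ab
  by_cases hu0 : u = 0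
  · subst hu0
    rw [D.EE_zero, xS_zero_right, D.pL.one]
  · obtain ⟨g, hg, rfl⟩ := plane_trans b hu hu0
    have hg' := Sgen_le_Fx b hg
    rw [D.EE_eq (D.sb_le hg'), ← D.ag _ hg', ← D.pL.conj (D.sb_L hg') (D.yyL 1), yy, xS_conj, Fx.ee hg' hab']

lemma tt_comm_s' (c : F) {g : Spg m F} (hg : g ∈ (Fx (insert b T'') : Subgroup (Spg m F))) :
    Commute (sL (tS (ee a) c)) (s' g) := D.c1 _ (D.tt_S c) _ hg

lemma tt_comm_Y (c d : F) : Commute (sL (tS (ee a) c)) (sL (yy a b d)) :=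
  D.pL.comm (D.tt_L c) (D.yyL d) (Mg_comm (tS_ee_mem_Mg_left a b c) (yy_mem_Mg a b d))

lemma tt_comm_EE (c : F) {u : VV m F} (hu : Sup (insert b T'') u) :
    Commute (sL (tS (ee a) c)) (EE sL s' T'' a b u) := by
  by_cases hu0 : u = 0
  · subst hu0
    rw [D.EE_zero]
    exact Commute.one_right _
  · obtain ⟨g₀, hg₀, rfl⟩ := D.tr u hu hu0
    rw [D.EE_eq hg₀]
    have h := D.tt_comm_s' c hg₀
    exact (h.mul_right (D.tt_comm_Y c 1)).mul_right h.inv_right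

lemma tt_add (c d : F) : sL (tS (ee a) (c + d)) = sL (tS (ee a) c) * sL (tS (ee a) d) := by
  rw [tS_add, D.pL _ (D.tt_L c) _ (D.tt_L d)]

lemma tt_zero : sL (tS (ee a) (0 : F)) = 1 := by
  rw [tS_zero, D.pL.one]

omit D in
/-- The addition law. -/
def Law (sL s' : Spg m F → H) (T'' : Set (Fin m)) (a b : Fin m) (u u' : VV m F) : Prop :=
  EE sL s' T'' a b u * EE sL s' T'' a b u' = sL (tS (ee a) (fm u' u)) * EE sL s' T'' a b (u + u')

lemma Law_transport {g : Spg m F} (hg : g ∈ (Fx (insert b T'') : Subgroup (Spg m F))) {u u' : VV m F}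
    (hu : Sup (insert b T'') u) (hu' : Sup (insert b T'') u') (h : Law sL s' T'' a b (g ⋆ u) (g ⋆ u')) :
    Law sL s' T'' a b u u' := by
  unfold Law at h ⊢
  rw [← D.EE_equiv hg hu, ← D.EE_equiv hg hu', ← act_add, ← D.EE_equiv hg (hu.add hu'), fm_act] at h
  have hc := D.tt_comm_s' (fm u' u) hg
  have e1 : s' g * (EE sL s' T'' a b u * EE sL s' T'' a b u') * (s' g)⁻¹ =
      s' g * (sL (tS (ee a) (fm u' u)) * EE sL s' T'' a b (u + u')) * (s' g)⁻¹ := by
    calc s' g * (EE sL s' T'' a b u * EE sL s' T'' a b u') * (s' g)⁻¹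
        = s' g * EE sL s' T'' a b u * (s' g)⁻¹ * (s' g * EE sL s' T'' a b u' * (s' g)⁻¹) := by group
      _ = sL (tS (ee a) (fm u' u)) * (s' g * EE sL s' T'' a b (u + u') * (s' g)⁻¹) := h
      _ = (sL (tS (ee a) (fm u' u)) * s' g) * EE sL s' T'' a b (u + u') * (s' g)⁻¹ := by group
      _ = _ := by
          rw [hc.eq]
          group
  have := mul_left_cancel (mul_right_cancel e1)
  exact this

lemma Law_plane {v : VV m F} (hv : Sup ({b} : Set (Fin m)) v) : Law sL s' T'' a b (ee b) v := by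
  have hab' : a ∉ ({b} : Set (Fin m)) := by simpa using D.ab
  unfold Law
  have hb : Sup ({b} : Set (Fin m)) (ee b : VV m F) := Sup_ee (Set.mem_singleton b)
  have hxL : ∀ {w : VV m F}, Sup ({b} : Set (Fin m)) w → xS (ee a) w 1 ∈ (Fx ({a, b} : Set (Fin m)) : Subgroup (Spg m F)) :=
    fun hw => xS_mem (Sup_ee (mem_pair_left a b)) (hw.mono (by simp)) _
  rw [D.EE_plane hb, D.EE_plane hv, D.EE_plane (hb.add hv), ← D.pL _ (hxL hb) _ (hxL hv),
    xS_mul_same (hb.ee_left hab') (hv.ee_left hab'), D.pL _ (D.tt_L _) _ (hxL (hb.add hv))]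

lemma Law_bc {c : Fin m} (hc : c ∈ T'') {X : H} (h1 : s' (ww b c) * sL (yy a b 1) * (s' (ww b c))⁻¹ = X)
    (h2 : s' (xm b c (-1)) * sL (yy a b 1) * (s' (xm b c (-1)))⁻¹ = sL (yy a b 1) * X) :
    Law sL s' T'' a b (ee b) (ee c) := by
  have hbc : b ≠ c := fun e => D.b2 (e ▸ hc)
  have hsub : ({b, c} : Set (Fin m)) ⊆ insert b T'' := by
    intro x hx
    rcases hx with rfl | hx
    · exact Set.mem_insert _ _
    · rw [Set.mem_singleton_iff] at hx
      subst hx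
      exact Set.mem_insert_of_mem _ hc
  have hw : ww b c ∈ (Fx (insert b T'') : Subgroup (Spg m F)) := Fx_mono hsub (ww_mem b c)
  have hx : xm b c (-1) ∈ (Fx (insert b T'') : Subgroup (Spg m F)) := Fx_mono hsub (xm_mem b c _)
  unfold Law
  have e1 : EE sL s' T'' a b (ee c) = X := by
    rw [← h1, ← D.EE_eq hw, ww_ee_a hbc]
  have e2 : EE sL s' T'' a b (ee b + ee c) = sL (yy a b 1) * X := by
    rw [← h2, ← D.EE_eq hx, xm_ee_a hbc]
    congr 1
    module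
  have e3 : EE sL s' T'' a b (ee b) = sL (yy a b 1) := by
    rw [D.EE_plane (Sup_ee (Set.mem_singleton b))]
    rfl
  rw [e1, e2, e3, fm_ee_ee, D.tt_zero, one_mul]

lemma Law_b {u' : VV m F} (hu' : Sup (insert b T'') u') : Law sL s' T'' a b (ee b) u' := by
  set α : F := -fm u' (ff b) with hα
  set β : F := fm u' (ee b) with hβ
  set w : VV m F := u' - α • ee b - β • ff b with hw
  have hwS : Sup T'' w := split_a hu'
  have hsplit : u' = α • ee b + β • ff b + w := by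
    rw [hw]
    abel
  have hbS : Sup (insert b T'') (ee b : VV m F) := Sup_ee (Set.mem_insert _ _)
  by_cases hβ0 : β = 0
  · by_cases hw0 : w = 0
    · have e : u' = α • ee b := by
        rw [hsplit, hβ0, hw0]
        simp
      rw [e]
      exact D.Law_plane ((Sup_ee (Set.mem_singleton b)).smul α)
    · rcases D.r3 with h0 | ⟨c, hc, htr, hz, X, h1, h2, h3⟩
      · subst h0
        exact absurd (Sup_empty hwS) hw0
      · obtain ⟨g₃, hg₃, e3⟩ := htr w hwS hw0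
        have hbc : b ≠ c := fun e => D.b2 (e ▸ hc)
        have hsub : ({b, c} : Set (Fin m)) ⊆ insert b T'' := by
          intro x hx
          rcases hx with rfl | hx
          · exact Set.mem_insert _ _
          · rw [Set.mem_singleton_iff] at hx
            subst hx
            exact Set.mem_insert_of_mem _ hc
        have hg : xp b c α * g₃⁻¹ ∈ (Fx (insert b T'') : Subgroup (Spg m F)) :=
          (Fx _).mul_mem (Fx_mono hsub (xp_mem b c α)) (D.t2_le ((Fx _).inv_mem hg₃))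
        have he1 : g₃⁻¹ ⋆ ee b = (ee b : VV m F) := Fx.ee ((Fx _).inv_mem hg₃) D.b2
        have he2 : g₃⁻¹ ⋆ w = (ee c : VV m F) := by
          rw [act_eq_inv_iff, e3]
        have he : (xp b c α * g₃⁻¹) ⋆ ee b = ee b := by
          rw [act_mul, he1, xp_ee_a hbc]
        have hu : (xp b c α * g₃⁻¹) ⋆ u' = ee c := by
          rw [act_mul, hsplit, hβ0, zero_smul, add_zero, act_add, act_smul, he1, he2, act_add, act_smul,
            xp_ee_a hbc, xp_ee_b hbc]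
          abel
        refine D.Law_transport hg hbS hu' ?_
        rw [he, hu]
        exact D.Law_bc hc h1 h2
  · set v : VV m F := (-β⁻¹) • w with hv
    have hvS : Sup T'' v := hwS.smul _
    have h0 : fm (ee b : VV m F) v = 0 := hvS.ee_left D.b2
    have hg : xS (ee b) v 1 ∈ (Fx (insert b T'') : Subgroup (Spg m F)) :=
      xS_mem hbS (hvS.mono (Set.subset_insert _ _)) _
    have he : xS (ee b) v 1 ⋆ ee b = (ee b : VV m F) := by
      rw [xS_act h0, fm_self, h0]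
      simp
    have h1 : fm u' v = 0 := by
      rw [hsplit, fm_add_left, fm_add_left, fm_smul_left, fm_smul_left, h0, hvS.ff_left D.b2, hv, fm_smul_right, fm_self]
      simp
    have hu : xS (ee b) v 1 ⋆ u' = α • ee b + β • ff b := by
      rw [xS_act h0, h1, ← hβ, hv]
      have : (1 * β) • (-β⁻¹) • w = -w := by
        rw [smul_smul]
        field_simp
        simp
      rw [this, hsplit]
      simp only [mul_zero, zero_smul, add_zero]
      abel
    refine D.Law_transport hg hbS hu' ?_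
    rw [he, hu]
    exact D.Law_plane (((Sup_ee (Set.mem_singleton b)).smul α).add ((Sup_ff (Set.mem_singleton b)).smul β))

lemma Law_all {u u' : VV m F} (hu : Sup (insert b T'') u) (hu' : Sup (insert b T'') u') : Law sL s' T'' a b u u' := by
  by_cases hu0 : u = 0
  · subst hu0
    unfold Law
    rw [D.EE_zero, fm_zero_right, D.tt_zero, zero_add]
  · obtain ⟨g₀, hg₀, e⟩ := D.tr u hu hu0
    have hi := (Fx (insert b T'')).inv_mem hg₀
    refine D.Law_transport hi hu hu' ?_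
    have : g₀⁻¹ ⋆ u = ee b := by
      rw [act_eq_inv_iff, e]
    rw [this]
    exact D.Law_b (Fx.pres hi hu')

omit D in
/-- The section on the stabilizer. -/
noncomputable def psi (sL s' : Spg m F → H) (T'' : Set (Fin m)) (a b : Fin m) (r : Spg m F) : H := by
  classical
  exact if h : ∃ t : VV m F × F × Spg m F, Sup (insert b T'') t.1 ∧ t.2.2 ∈ (Fx (insert b T'') : Subgroup (Spg m F)) ∧
      r = qq a t.1 t.2.1 * t.2.2 then
    EE sL s' T'' a b h.choose.1 * sL (tS (ee a) h.choose.2.1) * s' h.choose.2.2 else 1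

lemma psi_eq {u : VV m F} {c : F} {g : Spg m F} (hu : Sup (insert b T'') u) (hg : g ∈ (Fx (insert b T'') : Subgroup (Spg m F))) :
    psi sL s' T'' a b (qq a u c * g) = EE sL s' T'' a b u * sL (tS (ee a) c) * s' g := by
  have h : ∃ t : VV m F × F × Spg m F, Sup (insert b T'') t.1 ∧ t.2.2 ∈ (Fx (insert b T'') : Subgroup (Spg m F)) ∧
      qq a u c * g = qq a t.1 t.2.1 * t.2.2 := ⟨(u, c, g), hu, hg, rfl⟩
  rw [psi, dif_pos h]
  have h1 := h.choose_spec
  obtain ⟨e1, e2, e3⟩ := q_uniq D.a3 hu h1.1 hg h1.2.1 h1.2.2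
  rw [← e1, ← e2, ← e3]

lemma mem_T' {g : Spg m F} (hg : g ∈ (Fx (insert b T'') : Subgroup (Spg m F))) :
    g ∈ (RR (insert a (insert b T'')) a : Subgroup (Spg m F)) :=
  ⟨Fx_mono (Set.subset_insert _ _) hg, Fx.ee hg D.a3⟩

lemma psi_ph : PH (RR (insert a (insert b T'')) a : Subgroup (Spg m F)) (psi sL s' T'' a b) := by
  intro r hr r' hr'
  obtain ⟨u, c, g, hu, hg, rfl⟩ := decomp_qq D.a3 hr.1 hr.2
  obtain ⟨u', c', g', hu', hg', rfl⟩ := decomp_qq D.a3 hr'.1 hr'.2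
  have hga : g ⋆ ee a = ee a := Fx.ee hg D.a3
  have hv : Sup (insert b T'') (g ⋆ u') := Fx.pres hg hu'
  set v := g ⋆ u' with hvd
  have h1 : qq a u c * g * (qq a u' c' * g') = qq a (u + v) (fm v u + c + c') * (g * g') := by
    rw [← qq_mul (hu.ee_left D.a3) (hv.ee_left D.a3), hvd, ← conj_qq hga]
    group
  rw [h1, D.psi_eq (hu.add hv) ((Fx _).mul_mem hg hg'), D.psi_eq hu hg, D.psi_eq hu' hg', D.pS _ hg _ hg',
    add_assoc (fm v u), D.tt_add, D.tt_add]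
  have e1 := D.EE_equiv hg hu'
  have e2 := (D.tt_comm_s' c' hg).eq
  have e3 := (D.tt_comm_EE c hv).eq
  have e4 := (D.tt_comm_EE (fm v u) (hu.add hv)).eq
  have e5 : Law sL s' T'' a b u v := D.Law_all hu hv
  unfold Law at e5
  rw [← hvd] at e1
  calc EE sL s' T'' a b (u + v) * (sL (tS (ee a) (fm v u)) * (sL (tS (ee a) c) * sL (tS (ee a) c'))) * (s' g * s' g')
      = (sL (tS (ee a) (fm v u)) * EE sL s' T'' a b (u + v)) * (sL (tS (ee a) c) * sL (tS (ee a) c')) * (s' g * s' g') := by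
        rw [e4]
        group
    _ = EE sL s' T'' a b u * (EE sL s' T'' a b v * sL (tS (ee a) c)) * sL (tS (ee a) c') * (s' g * s' g') := by
        rw [← e5]
        group
    _ = EE sL s' T'' a b u * sL (tS (ee a) c) * (s' g * EE sL s' T'' a b u' * (s' g)⁻¹) * sL (tS (ee a) c') * s' g * s' g' := by
        rw [← e3, e1]
        group
    _ = EE sL s' T'' a b u * sL (tS (ee a) c) * s' g * EE sL s' T'' a b u' * ((s' g)⁻¹ * (sL (tS (ee a) c') * s' g)) * s' g' := by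
        group
    _ = _ := by
        rw [e2]
        group

lemma π_EE {u : VV m F} (hu : Sup (insert b T'') u) : π (EE sL s' T'' a b u) = xS (ee a) u 1 := by
  by_cases hu0 : u = 0
  · subst hu0
    rw [D.EE_zero, xS_zero_right, map_one]
  · obtain ⟨g₀, hg₀, rfl⟩ := D.tr u hu hu0
    rw [D.EE_eq hg₀, map_mul, map_mul, map_inv, D.πS _ hg₀, D.πL _ (D.yyL 1), yy, xS_conj, Fx.ee hg₀ D.a3]

lemma π_psi {r : Spg m F} (hr : r ∈ (RR (insert a (insert b T'')) a : Subgroup (Spg m F))) : π (psi sL s' T'' a b r) = r := by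
  obtain ⟨u, c, g, hu, hg, rfl⟩ := decomp_qq D.a3 hr.1 hr.2
  rw [D.psi_eq hu hg, map_mul, map_mul, D.π_EE hu, D.πL _ (D.tt_L c), D.πS _ hg, qq]

lemma psi_s' {g : Spg m F} (hg : g ∈ (Fx (insert b T'') : Subgroup (Spg m F))) : psi sL s' T'' a b g = s' g := by
  have e : qq a (0 : VV m F) 0 * g = g := by
    rw [qq, xS_zero_right, tS_zero]
    group
  have h := D.psi_eq (c := 0) (Sup_zero _) hg
  rw [e, D.EE_zero, D.tt_zero] at h
  simpa using h

lemma psi_sL {r : Spg m F} (hr : r ∈ (StabL a b : Subgroup (Spg m F))) : psi sL s' T'' a b r = sL r := by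
  have hab' : a ∉ ({b} : Set (Fin m)) := by simpa using D.ab
  obtain ⟨u, c, g, hu, hg, rfl⟩ := decomp_qq hab' hr.1 hr.2
  have hu' : Sup (insert b T'') u := hu.mono (Set.singleton_subset_iff.2 (Set.mem_insert _ _))
  have hxL : xS (ee a) u 1 ∈ (Fx ({a, b} : Set (Fin m)) : Subgroup (Spg m F)) :=
    xS_mem (Sup_ee (mem_pair_left a b)) (hu.mono (by simp)) _
  rw [D.psi_eq hu' (D.sb_le hg), D.EE_plane hu, ← D.ag _ hg, qq, D.pL.mul3 hxL (D.tt_L c) (D.sb_L hg)]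

lemma pair_sub : ({a, b} : Set (Fin m)) ⊆ insert a (insert b T'') := by
  intro x hx
  rcases hx with rfl | hx
  · exact Set.mem_insert _ _
  · rw [Set.mem_singleton_iff] at hx
    subst hx
    exact Set.mem_insert_of_mem _ (Set.mem_insert _ _)

lemma disj2 : Disjoint ({a, b} : Set (Fin m)) T'' := by
  rw [Set.disjoint_left]
  intro x hx
  rcases hx with rfl | hx
  · exact D.a2
  · rw [Set.mem_singleton_iff] at hx
    subst hx
    exact D.b2

lemma disj1 : Disjoint ({a} : Set (Fin m)) (insert b T'') := by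
  rw [Set.disjoint_left]
  intro x hx
  rw [Set.mem_singleton_iff] at hx
  subst hx
  exact D.a3

lemma w_EE {u : VV m F} (hu : Sup T'' u) :
    sL (ww a b) * EE sL s' T'' a b u * (sL (ww a b))⁻¹ = s' (xS (ee b) u 1) := by
  by_cases hu0 : u = 0
  · subst hu0
    rw [D.EE_zero, xS_zero_right, D.pS.one]
    group
  · rcases D.r3 with h0 | ⟨c, hc, htr, hz, X, h1, h2, h3⟩
    · subst h0
      exact absurd (Sup_empty hu) hu0
    · obtain ⟨g₃, hg₃, e3⟩ := htr u hu hu0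
      have hbc : b ≠ c := fun e => D.b2 (e ▸ hc)
      have hsub : ({b, c} : Set (Fin m)) ⊆ insert b T'' := by
        intro x hx
        rcases hx with rfl | hx
        · exact Set.mem_insert _ _
        · rw [Set.mem_singleton_iff] at hx
          subst hx
          exact Set.mem_insert_of_mem _ hc
      have hw : ww b c ∈ (Fx (insert b T'') : Subgroup (Spg m F)) := Fx_mono hsub (ww_mem b c)
      have hyy : yy b c (1 : F) ∈ (Fx (insert b T'') : Subgroup (Spg m F)) := Fx_mono hsub (yy_mem b c 1)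
      have hEc : EE sL s' T'' a b (ee c) = X := by
        rw [← h1, ← D.EE_eq hw, ww_ee_a hbc]
      have hE : EE sL s' T'' a b u = s' g₃ * X * (s' g₃)⁻¹ := by
        rw [← e3, ← D.EE_equiv (D.t2_le hg₃) (Sup_ee (Set.mem_insert_of_mem _ hc)), hEc]
      have hcm : Commute (sL (ww a b)) (s' g₃) := D.c2 _ (ww_mem a b) _ hg₃
      rw [hE]
      calc sL (ww a b) * (s' g₃ * X * (s' g₃)⁻¹) * (sL (ww a b))⁻¹
          = (sL (ww a b) * s' g₃) * X * (s' g₃)⁻¹ * (sL (ww a b))⁻¹ := by group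
        _ = s' g₃ * (sL (ww a b) * X * (sL (ww a b))⁻¹) * (sL (ww a b) * (s' g₃)⁻¹ * (sL (ww a b))⁻¹) := by
            rw [hcm.eq]
            group
        _ = s' g₃ * s' (yy b c 1) * (s' g₃)⁻¹ := by
            rw [h3, hcm.inv_right.eq]
            group
        _ = _ := by
            rw [← D.pS.conj (D.t2_le hg₃) hyy, yy, xS_conj, e3, Fx.ee hg₃ D.b2]

lemma w_F {u : VV m F} (hu : Sup T'' u) :
    sL (ww a b) * s' (xS (ee b) u 1) * (sL (ww a b))⁻¹ = EE sL s' T'' a b (-u) := by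
  have h0 : fm (ee b : VV m F) u = 0 := hu.ee_left D.b2
  have hm1 : (-1 : F) ≠ 0 := neg_ne_zero.2 one_ne_zero
  have hx : xS (ee b) u 1 ∈ (Fx (insert b T'') : Subgroup (Spg m F)) :=
    xS_mem (Sup_ee (Set.mem_insert _ _)) (hu.mono (Set.subset_insert _ _)) _
  have hha : hh a (-1) ∈ (Fx ({a} : Set (Fin m)) : Subgroup (Spg m F)) := hh_mem (Set.mem_singleton a) _
  have hhb : hh b (-1) ∈ (Fx ({b} : Set (Fin m)) : Subgroup (Spg m F)) := hh_mem (Set.mem_singleton b) _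
  have hww : sL (ww a b) * sL (ww a b) = sL (hh a (-1)) * s' (hh b (-1)) := by
    rw [← D.pL _ (ww_mem a b) _ (ww_mem a b), ww_sq D.ab, D.pL _ (D.sa_L hha) _ (D.sb_L hhb), D.ag _ hhb]
  have hA : Commute (sL (hh a (-1))) (s' (xS (ee b) u (-1))) :=
    D.c1 _ hha _ (xS_mem (Sup_ee (Set.mem_insert _ _)) (hu.mono (Set.subset_insert _ _)) _)
  have hB : s' (hh b (-1)) * s' (xS (ee b) u 1) * (s' (hh b (-1)))⁻¹ = s' (xS (ee b) u (-1)) := by
    have hfix : hh b (-1) ⋆ u = u := by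
      refine Fx.fix (T' := T'') ?_ hhb hu
      rw [Set.disjoint_left]
      intro x hx
      rw [Set.mem_singleton_iff] at hx
      subst hx
      exact D.b2
    rw [← D.pS.conj (D.sb_le hhb) hx, xS_conj, hfix, hh_ee b hm1, neg_one_smul, xS_neg_left h0]
  have h1 : (sL (ww a b) * sL (ww a b)) * s' (xS (ee b) u 1) * (sL (ww a b) * sL (ww a b))⁻¹ = s' (xS (ee b) u (-1)) := by
    rw [hww]
    calc sL (hh a (-1)) * s' (hh b (-1)) * s' (xS (ee b) u 1) * (sL (hh a (-1)) * s' (hh b (-1)))⁻¹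
        = sL (hh a (-1)) * (s' (hh b (-1)) * s' (xS (ee b) u 1) * (s' (hh b (-1)))⁻¹) * (sL (hh a (-1)))⁻¹ := by group
      _ = _ := by
          rw [hB, hA.eq]
          group
  have h2 := D.w_EE hu.neg
  rw [xS_neg_right h0] at h2
  rw [← h2] at h1
  have h3 : sL (ww a b) * (sL (ww a b) * s' (xS (ee b) u 1) * (sL (ww a b))⁻¹) * (sL (ww a b))⁻¹ =
      sL (ww a b) * EE sL s' T'' a b (-u) * (sL (ww a b))⁻¹ := by
    rw [← h1]
    group
  exact mul_left_cancel (mul_right_cancel h3)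

omit D in
/-- The relation with the Weyl element. -/
def PP (sL s' : Spg m F → H) (T'' : Set (Fin m)) (a b : Fin m) (r : Spg m F) : Prop :=
  r ∈ (RR (insert a (insert b T'')) a : Subgroup (Spg m F)) ∧
    ww a b * r * (ww a b)⁻¹ ∈ (RR (insert a (insert b T'')) a : Subgroup (Spg m F)) ∧
    sL (ww a b) * psi sL s' T'' a b r * (sL (ww a b))⁻¹ = psi sL s' T'' a b (ww a b * r * (ww a b)⁻¹)

lemma PP_mul {r₁ r₂ : Spg m F} (h1 : PP sL s' T'' a b r₁) (h2 : PP sL s' T'' a b r₂) : PP sL s' T'' a b (r₁ * r₂) := by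
  have e : ww a b * (r₁ * r₂) * (ww a b)⁻¹ = (ww a b * r₁ * (ww a b)⁻¹) * (ww a b * r₂ * (ww a b)⁻¹) := by group
  refine ⟨Subgroup.mul_mem _ h1.1 h2.1, by rw [e]; exact Subgroup.mul_mem _ h1.2.1 h2.2.1, ?_⟩
  rw [e, D.psi_ph _ h1.2.1 _ h2.2.1, ← h1.2.2, ← h2.2.2, D.psi_ph _ h1.1 _ h2.1]
  group

lemma StabL_le : (StabL a b : Subgroup (Spg m F)) ≤ RR (insert a (insert b T'')) a :=
  fun _ h => ⟨Fx_mono D.pair_sub h.1, h.2⟩

lemma PP_L {r : Spg m F} (hr : r ∈ (StabL a b : Subgroup (Spg m F))) (he : r ⋆ ee b = ee b) : PP sL s' T'' a b r := by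
  have h1 : ww a b * r * (ww a b)⁻¹ ∈ (StabL a b : Subgroup (Spg m F)) := by
    refine ⟨(Fx _).mul_mem ((Fx _).mul_mem (ww_mem a b) hr.1) ((Fx _).inv_mem (ww_mem a b)), ?_⟩
    rw [act_mul, act_mul, ww_inv_ee_a D.ab, act_neg, he, act_neg, ww_ee_b D.ab, neg_neg]
  refine ⟨D.StabL_le hr, D.StabL_le h1, ?_⟩
  rw [D.psi_sL hr, D.psi_sL h1, D.pL.conj (ww_mem a b) hr.1]

lemma PP_T2 {g : Spg m F} (hg : g ∈ (Fx T'' : Subgroup (Spg m F))) : PP sL s' T'' a b g := by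
  have e : ww a b * g * (ww a b)⁻¹ = g := by
    rw [Fx_comm D.disj2 (ww_mem a b) hg]
    group
  have h := D.mem_T' (D.t2_le hg)
  refine ⟨h, by rw [e]; exact h, ?_⟩
  rw [e, D.psi_s' (D.t2_le hg), (D.c2 _ (ww_mem a b) _ hg).eq]
  group

lemma psi_xS {u : VV m F} (hu : Sup (insert b T'') u) : psi sL s' T'' a b (xS (ee a) u 1) = EE sL s' T'' a b u := by
  have e : qq a u 0 * 1 = (xS (ee a) u 1 : Spg m F) := by
    rw [qq, tS_zero]
    group
  have h := D.psi_eq (c := 0) hu (Subgroup.one_mem _)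
  rw [e, D.tt_zero, D.pS.one] at h
  simpa using h

lemma xS_RR {u : VV m F} (hu : Sup (insert b T'') u) :
    (xS (ee a) u 1 : Spg m F) ∈ (RR (insert a (insert b T'')) a : Subgroup (Spg m F)) := by
  have h0 : fm (ee a : VV m F) u = 0 := hu.ee_left D.a3
  refine ⟨xS_mem (Sup_ee (Set.mem_insert _ _)) (hu.mono (Set.subset_insert _ _)) _, ?_⟩
  rw [xS_act h0, fm_self, h0]
  simp

lemma ww_fix {u : VV m F} (hu : Sup T'' u) : ww a b ⋆ u = u := Fx.fix D.disj2 (ww_mem a b) hu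

lemma PP_E {u : VV m F} (hu : Sup T'' u) : PP sL s' T'' a b (xS (ee a) u 1) := by
  have hu' : Sup (insert b T'') u := hu.mono (Set.subset_insert _ _)
  have e : ww a b * xS (ee a) u 1 * (ww a b)⁻¹ = xS (ee b) u 1 := by
    rw [xS_conj, ww_ee_a D.ab, D.ww_fix hu]
  have hx : xS (ee b) u 1 ∈ (Fx (insert b T'') : Subgroup (Spg m F)) :=
    xS_mem (Sup_ee (Set.mem_insert _ _)) hu' _
  refine ⟨D.xS_RR hu', by rw [e]; exact D.mem_T' hx, ?_⟩
  rw [e, D.psi_xS hu', D.w_EE hu, D.psi_s' hx]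

lemma PP_F {u : VV m F} (hu : Sup T'' u) : PP sL s' T'' a b (xS (ee b) u 1) := by
  have hu' : Sup (insert b T'') u := hu.mono (Set.subset_insert _ _)
  have h0 : fm (ee a : VV m F) u = 0 := hu'.ee_left D.a3
  have e : ww a b * xS (ee b) u 1 * (ww a b)⁻¹ = xS (ee a) (-u) 1 := by
    rw [xS_conj, ww_ee_b D.ab, D.ww_fix hu, xS_neg_left h0, xS_neg_right h0]
  have hx : xS (ee b) u 1 ∈ (Fx (insert b T'') : Subgroup (Spg m F)) :=
    xS_mem (Sup_ee (Set.mem_insert _ _)) hu' _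
  refine ⟨D.mem_T' hx, by rw [e]; exact D.xS_RR hu'.neg, ?_⟩
  rw [e, D.psi_xS hu'.neg, D.psi_s' hx, D.w_F hu]

/-- The relation with the Weyl element on all of the stabilizer of `e_a, e_b`. -/
lemma PP_all {r : Spg m F} (hr : r ∈ (RR (insert a (insert b T'')) a : Subgroup (Spg m F))) (he : r ⋆ ee b = ee b) :
    PP sL s' T'' a b r := by
  obtain ⟨u, c, g, hu, hg, rfl⟩ := decomp_qq D.a3 hr.1 hr.2
  have hga : Sup (insert b T'') (g ⋆ ee b) := Fx.pres hg (Sup_ee (Set.mem_insert _ _))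
  set v := g ⋆ ee b with hv
  have h0u : fm (ee a : VV m F) u = 0 := hu.ee_left D.a3
  have h0v : fm v (ee a : VV m F) = 0 := (hga a D.a3).1
  have h1 : qq a u c ⋆ v = v + (fm v u) • ee a := by
    rw [qq, act_mul, tS_act, h0v, mul_zero, zero_smul, add_zero, xS_act h0u, h0v]
    simp
  have he' : v + (fm v u) • ee a = ee b := by
    rw [← h1, hv, ← act_mul, he]
  have h2 : fm v u = 0 := by
    have := congrArg (fun z => fm z (ff a)) he'
    simp only [fm_add_left, fm_smul_left, fm_ee_ff_self, (hga a D.a3).2, fm_ee_ff_ne D.ab.symm] at this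
    linear_combination -this
  have hvb : v = ee b := by
    rw [h2] at he'
    simpa using he'
  have hge : g ⋆ ee b = ee b := hvb
  have hβ : fm u (ee b) = 0 := by
    rw [hvb] at h2
    rw [fm_anti (ee b), h2, neg_zero]
  -- decomposing `u`
  set α : F := -fm u (ff b) with hα
  set u₂ : VV m F := u - α • ee b - (fm u (ee b)) • ff b with hu₂
  have hu₂S : Sup T'' u₂ := split_a hu
  have hsplit : u = α • ee b + u₂ := by
    rw [hu₂, hβ]
    simp
  -- decomposing `g`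
  obtain ⟨u₃, c₃, g₂, hu₃, hg₂, e₂⟩ := decomp_qq D.b2 hg hge
  -- the factors
  have hxe : xS (ee a) u 1 = (yy a b α : Spg m F) * xS (ee a) u₂ 1 := by
    have h3 := xS_mul_same (u := (ee a : VV m F)) (v := α • ee b) (v' := u₂) (by rw [fm_smul_right, fm_ee_ee, mul_zero])
      (hu₂S.ee_left D.a2)
    have h4 : fm u₂ (α • ee b : VV m F) = 0 := by
      rw [fm_smul_right, (hu₂S b D.b2).1, mul_zero]
    rw [h4, tS_zero, one_mul, ← hsplit, xS_smul_right (fm_ee_ee a b), mul_one] at h3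
    rw [yy, ← h3]
  have hfin : qq a u c * g = yy a b α * (xS (ee a) u₂ 1 * (tS (ee a) c * (xS (ee b) u₃ 1 * (tS (ee b) c₃ * g₂)))) := by
    rw [qq, e₂, qq, hxe]
    group
  rw [hfin]
  refine D.PP_mul (D.PP_L ⟨yy_mem a b α, ?_⟩ ?_) (D.PP_mul (D.PP_E hu₂S) (D.PP_mul (D.PP_L ⟨D.tt_L c, tS_ee_ee a c⟩ ?_)
    (D.PP_mul (D.PP_F hu₃) (D.PP_mul (D.PP_L ⟨tS_mem (Sup_ee (mem_pair_right a b)) _, ?_⟩ (tS_ee_ee b c₃)) (D.PP_T2 hg₂)))))
  · rw [yy, xS_act (fm_ee_ee a b), fm_self, fm_ee_ee]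
    simp
  · rw [yy, xS_act (fm_ee_ee a b), fm_ee_ee, fm_self]
    simp
  · rw [tS_act, fm_ee_ee]
    simp
  · rw [tS_act, fm_ee_ee]
    simp

/-- The main relation between the two sections. -/
lemma M_main {r A : Spg m F} (hr : r ∈ (RR (insert a (insert b T'')) a : Subgroup (Spg m F)))
    (hA : A ∈ (Fx ({a, b} : Set (Fin m)) : Subgroup (Spg m F))) :
    ∃ g₁ ∈ (Fx (insert b T'') : Subgroup (Spg m F)), ∃ A' ∈ (Fx ({a, b} : Set (Fin m)) : Subgroup (Spg m F)),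
      ∃ r' ∈ (RR (insert a (insert b T'')) a : Subgroup (Spg m F)),
        psi sL s' T'' a b r * sL A = s' g₁ * sL A' * psi sL s' T'' a b r' := by
  obtain ⟨ρ₁, ρ₂, A₀, h1, h2, h3, rfl⟩ := L_double D.ab hA
  have hρ₁R := D.StabL_le (T'' := T'') h1
  have hρ₂R := D.StabL_le (T'' := T'') h2
  have hA₀ : A₀ ∈ (Fx ({a, b} : Set (Fin m)) : Subgroup (Spg m F)) := by
    rcases h3 with h3 | rfl
    · exact D.sa_L h3
    · exact ww_mem a b
  have hr₁ := Subgroup.mul_mem _ hr hρ₁R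
  have e0 : psi sL s' T'' a b r * sL (ρ₁ * A₀ * ρ₂) =
      psi sL s' T'' a b (r * ρ₁) * sL A₀ * psi sL s' T'' a b ρ₂ := by
    rw [D.pL.mul3 h1.1 hA₀ h2.1, D.psi_ph _ hr _ hρ₁R, D.psi_sL h1, D.psi_sL h2]
    group
  suffices hs : ∃ g₁ ∈ (Fx (insert b T'') : Subgroup (Spg m F)), ∃ A' ∈ (Fx ({a, b} : Set (Fin m)) : Subgroup (Spg m F)),
      ∃ r' ∈ (RR (insert a (insert b T'')) a : Subgroup (Spg m F)),
        psi sL s' T'' a b (r * ρ₁) * sL A₀ = s' g₁ * sL A' * psi sL s' T'' a b r' by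
    obtain ⟨g₁, hg₁, A', hA', r', hr', e⟩ := hs
    refine ⟨g₁, hg₁, A', hA', r' * ρ₂, Subgroup.mul_mem _ hr' hρ₂R, ?_⟩
    rw [e0, e, D.psi_ph _ hr' _ hρ₂R]
    group
  set r₁ := r * ρ₁ with hr₁d
  rcases h3 with h3 | rfl
  · -- the plane case
    obtain ⟨u, c, g, hu, hg, e⟩ := decomp_qq D.a3 hr₁.1 hr₁.2
    rw [e, D.psi_eq hu hg]
    have hB : tS (ee a) c * A₀ ∈ (Fx ({a} : Set (Fin m)) : Subgroup (Spg m F)) := (Fx _).mul_mem (D.tt_S c) h3
    have eB : sL (tS (ee a) c * A₀) = sL (tS (ee a) c) * sL A₀ := D.pL _ (D.tt_L c) _ hA₀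
    by_cases hu0 : u = 0
    · subst hu0
      refine ⟨1, Subgroup.one_mem _, tS (ee a) c * A₀, D.sa_L hB, g, D.mem_T' hg, ?_⟩
      rw [D.EE_zero, D.pS.one, D.psi_s' hg, eB, one_mul, one_mul, mul_assoc, (D.c1 _ h3 _ hg).symm.eq, mul_assoc]
    · obtain ⟨g_u, hg_u, rfl⟩ := D.tr u hu hu0
      have hY : yy a b 1 * (tS (ee a) c * A₀) ∈ (Fx ({a, b} : Set (Fin m)) : Subgroup (Spg m F)) :=
        (Fx _).mul_mem (D.yyL 1) (D.sa_L hB)
      have hm : g_u⁻¹ * g ∈ (Fx (insert b T'') : Subgroup (Spg m F)) := (Fx _).mul_mem ((Fx _).inv_mem hg_u) hg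
      refine ⟨g_u, hg_u, _, hY, g_u⁻¹ * g, D.mem_T' hm, ?_⟩
      rw [D.EE_eq hg_u, D.psi_s' hm, D.pS _ ((Fx _).inv_mem hg_u) _ hg, D.pS.inv hg_u,
        D.pL _ (D.yyL 1) _ (D.sa_L hB)]
      have hcomm := (D.c1 _ hB _ hg_u)
      have hc2 := (D.c1 _ h3 _ hg)
      rw [eB] at hcomm
      calc s' g_u * sL (yy a b 1) * (s' g_u)⁻¹ * sL (tS (ee a) c) * s' g * sL A₀
          = s' g_u * sL (yy a b 1) * (s' g_u)⁻¹ * sL (tS (ee a) c) * (s' g * sL A₀) := by group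
        _ = s' g_u * sL (yy a b 1) * (s' g_u)⁻¹ * (sL (tS (ee a) c) * sL A₀) * s' g := by
            rw [hc2.symm.eq]
            group
        _ = s' g_u * sL (yy a b 1) * ((s' g_u)⁻¹ * (sL (tS (ee a) c) * sL A₀)) * s' g := by group
        _ = _ := by
            rw [hcomm.inv_right.symm.eq, eB]
            group
  · -- the Weyl case
    set v₁ := r₁ ⋆ ee b with hv₁
    have hv₁S : Sup (insert a (insert b T'')) v₁ := Fx.pres hr₁.1 (Sup_ee (Set.mem_insert_of_mem _ (Set.mem_insert _ _)))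
    have hv₁a : fm v₁ (ee a) = 0 := by
      rw [← hr₁.2, hv₁, fm_act, fm_ee_ee]
    set α : F := -fm v₁ (ff a) with hα
    set u₁ : VV m F := v₁ - α • ee a - (fm v₁ (ee a)) • ff a with hu₁
    have hu₁S : Sup (insert b T'') u₁ := split_a hv₁S
    have hsplit : v₁ = α • ee a + u₁ := by
      rw [hu₁, hv₁a]
      simp
    have hu₁0 : u₁ ≠ 0 := by
      intro h0
      rw [h0, add_zero] at hsplit
      have h1 : r₁ ⋆ ee b = r₁ ⋆ (α • ee a) := by
        rw [act_smul, hr₁.2, ← hsplit]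
      have h2 := act_inj r₁ h1
      have h3' := congrArg (fun z => fm z (ff b)) h2
      simp only [fm_smul_left, fm_ee_ff_self, fm_ee_ff_ne D.ab] at h3'
      simp at h3'
    obtain ⟨g_u, hg_u, e_u⟩ := D.tr u₁ hu₁S hu₁0
    have hgi := (Fx (insert b T'')).inv_mem hg_u
    have hgia : g_u⁻¹ ⋆ ee a = ee a := Fx.ee hgi D.a3
    have hgiu : g_u⁻¹ ⋆ u₁ = ee b := by
      rw [act_eq_inv_iff, e_u]
    set r₀ : Spg m F := xp a b α * (g_u⁻¹ * r₁) with hr₀
    have hxR : xp a b α ∈ (RR (insert a (insert b T'')) a : Subgroup (Spg m F)) :=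
      D.StabL_le (T'' := T'') ⟨xp_mem a b α, xp_ee_a D.ab α⟩
    have hr₀R : r₀ ∈ (RR (insert a (insert b T'')) a : Subgroup (Spg m F)) :=
      Subgroup.mul_mem _ hxR (Subgroup.mul_mem _ (D.mem_T' hgi) hr₁)
    have hr₀b : r₀ ⋆ ee b = ee b := by
      rw [hr₀, act_mul, act_mul, ← hv₁, hsplit, act_add, act_smul, hgia, hgiu, act_add, act_smul, xp_ee_a D.ab,
        xp_ee_b D.ab]
      abel
    set r₀' : Spg m F := (ww a b)⁻¹ * r₀ * ww a b with hr₀'
    have hr₀'e : r₀' ⋆ ee a = ee a := by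
      rw [hr₀', act_mul, act_mul, ww_ee_a D.ab, hr₀b, ww_inv_ee_b D.ab]
    have hr₀'b : r₀' ⋆ ee b = ee b := by
      rw [hr₀', act_mul, act_mul, ww_ee_b D.ab, act_neg, hr₀R.2, act_neg, ww_inv_ee_a D.ab, neg_neg]
    have hwT : ww a b ∈ (Fx (insert a (insert b T'')) : Subgroup (Spg m F)) := Fx_mono D.pair_sub (ww_mem a b)
    have hr₀'R : r₀' ∈ (RR (insert a (insert b T'')) a : Subgroup (Spg m F)) :=
      ⟨(Fx _).mul_mem ((Fx _).mul_mem ((Fx _).inv_mem hwT) hr₀R.1) hwT, hr₀'e⟩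
    have hPP := D.PP_all hr₀'R hr₀'b
    have hcon : ww a b * r₀' * (ww a b)⁻¹ = r₀ := by
      rw [hr₀']
      group
    have h4 := hPP.2.2
    rw [hcon] at h4
    have e5 : r₁ = g_u * ((xp a b α)⁻¹ * r₀) := by
      rw [hr₀]
      group
    have hxiR := Subgroup.inv_mem _ hxR
    have hxiS : (xp a b α)⁻¹ ∈ (StabL a b : Subgroup (Spg m F)) := (StabL a b).inv_mem ⟨xp_mem a b α, xp_ee_a D.ab α⟩
    have e6 : psi sL s' T'' a b r₁ = s' g_u * sL ((xp a b α)⁻¹) * psi sL s' T'' a b r₀ := by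
      conv_lhs => rw [e5]
      rw [D.psi_ph _ (D.mem_T' hg_u) _ (Subgroup.mul_mem _ hxiR hr₀R), D.psi_ph _ hxiR _ hr₀R, D.psi_s' hg_u,
        D.psi_sL hxiS, mul_assoc]
    refine ⟨g_u, hg_u, (xp a b α)⁻¹ * ww a b, (Fx _).mul_mem hxiS.1 (ww_mem a b), r₀', hr₀'R, ?_⟩
    rw [e6, D.pL _ hxiS.1 _ (ww_mem a b), ← h4]
    group

end LIn


/-- The level step. -/
theorem level {π : H →* Spg m F} {T'' : Set (Fin m)} {a b : Fin m} {sL s' : Spg m F → H}
    (D : LIn π T'' a b sL s') :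
    ∃ Φ : Spg m F → H, PH (Fx (insert a (insert b T''))) Φ ∧
      (∀ x ∈ (Fx (insert a (insert b T'')) : Subgroup (Spg m F)), π (Φ x) = x) ∧
      (∀ x ∈ (Fx ({a, b} : Set (Fin m)) : Subgroup (Spg m F)), Φ x = sL x) ∧
      (∀ x ∈ (Fx (insert b T'') : Subgroup (Spg m F)), Φ x = s' x) := by
  have hnL : (nn a : Spg m F) ∈ (Fx ({a, b} : Set (Fin m)) : Subgroup (Spg m F)) := nn_mem (mem_pair_left a b)
  have hnS : (nn a : Spg m F) ∈ (Fx ({a} : Set (Fin m)) : Subgroup (Spg m F)) := nn_mem (Set.mem_singleton a)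
  have hn4 : sL (nn a) ^ 4 = 1 := by
    have h := nn_pow_four (F := F) a
    have e : (nn a : Spg m F) ^ 4 = nn a * nn a * nn a * nn a := by
      simp only [pow_succ, pow_zero, one_mul]
    rw [e] at h
    have e2 : sL (nn a) ^ 4 = sL (nn a) * sL (nn a) * sL (nn a) * sL (nn a) := by
      simp only [pow_succ, pow_zero, one_mul]
    rw [e2, ← D.pL _ hnL _ hnL, ← D.pL _ (Subgroup.mul_mem _ hnL hnL) _ hnL,
      ← D.pL _ (Subgroup.mul_mem _ (Subgroup.mul_mem _ hnL hnL) hnL) _ hnL, h, D.pL.one]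
  obtain ⟨Φ, hΦ, hπΦ, hΦR, hΦn⟩ := PHom.dc π (RR (insert a (insert b T'')) a) (LIn.psi sL s' T'' a b) D.psi_ph
    (fun x hx => D.π_psi hx) (nn a) (sL (nn a)) (D.πL _ hnL) hn4
    (sL '' (Fx ({a, b} : Set (Fin m)) : Subgroup (Spg m F)))
    ⟨1, Subgroup.one_mem _, D.pL.one⟩
    (by
      rintro y ⟨A, hA, rfl⟩ hyR
      rw [D.πL _ hA] at hyR ⊢
      exact (D.psi_sL ⟨hA, hyR.2⟩).symm)
    (by
      rintro r hr _ ⟨A, hA, rfl⟩
      obtain ⟨g₁, hg₁, A', hA', r', hr', e⟩ := D.M_main hr hA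
      refine ⟨g₁, D.mem_T' hg₁, r', hr', sL (nn a * A'), ⟨_, Subgroup.mul_mem _ hnL hA', rfl⟩, ?_⟩
      have hc := D.c1 _ hnS _ hg₁
      rw [mul_assoc, e, D.psi_s' hg₁, D.pL _ hnL _ hA']
      calc sL (nn a) * (s' g₁ * sL A' * LIn.psi sL s' T'' a b r')
          = (sL (nn a) * s' g₁) * sL A' * LIn.psi sL s' T'' a b r' := by group
        _ = _ := by
            rw [hc.eq]
            group)
  set K := Subgroup.closure (((RR (insert a (insert b T'')) a : Subgroup (Spg m F)) : Set (Spg m F)) ∪ {nn a}) with hK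
  have hRK : (RR (insert a (insert b T'')) a : Subgroup (Spg m F)) ≤ K := fun x hx => Subgroup.subset_closure (Or.inl hx)
  have hnK : (nn a : Spg m F) ∈ K := Subgroup.subset_closure (Or.inr rfl)
  have hta : a ∈ insert a (insert b T'') := Set.mem_insert _ _
  have hnT : (nn a : Spg m F) ∈ (Fx (insert a (insert b T'')) : Subgroup (Spg m F)) := nn_mem hta
  have hKT : K ≤ Fx (insert a (insert b T'')) := by
    rw [hK, Subgroup.closure_le]
    rintro x (hx | rfl)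
    · exact hx.1
    · exact hnT
  have hle : (Fx (insert a (insert b T'')) : Subgroup (Spg m F)) ≤ K := by
    refine gen_of_trans hta hKT (fun r hr he => hRK ⟨hr, he⟩) ?_
    intro v hv hv0
    have hL : ∀ {x : Spg m F}, x ∈ (StabL a b : Subgroup (Spg m F)) → x ∈ K := fun h => hRK (D.StabL_le h)
    have hyy : yy a b (1 : F) ∈ (StabL a b : Subgroup (Spg m F)) := by
      refine ⟨yy_mem a b 1, ?_⟩
      rw [yy, xS_act (fm_ee_ee a b), fm_self, fm_ee_ee]
      simp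
    refine trans_step (T' := insert b T'') D.ab D.a3 ?_ ?_ ?_ ?_ hv hv0
    · refine (Fx_single_le_Sgen a).trans ?_
      rw [Sgen, Subgroup.closure_le]
      have htS : ∀ c : F, tS (ee a) c ∈ K := fun c => hL ⟨tS_mem (Sup_ee (mem_pair_left a b)) c, tS_ee_ee a c⟩
      rintro _ (⟨c, rfl⟩ | ⟨c, rfl⟩)
      · exact htS c
      · have e : tS (ff a) c = nn a * tS (ee a) c * (nn a)⁻¹ := by
          rw [tS_conj, nn_ee, tS_neg_vec]
        rw [SetLike.mem_coe, e]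
        exact K.mul_mem (K.mul_mem hnK (htS c)) (K.inv_mem hnK)
    · have e : xm a b (-1 : F) = nn a * yy a b 1 * (nn a)⁻¹ := by rw [nn_a_yy D.ab]
      rw [e]
      exact K.mul_mem (K.mul_mem hnK (hL hyy)) (K.inv_mem hnK)
    · exact hL ⟨xp_mem a b 1, xp_ee_a D.ab 1⟩
    · intro u hu hu0
      obtain ⟨g, hg, e⟩ := D.tr u hu hu0
      exact ⟨g, hRK (D.mem_T' hg), hg, e⟩
  refine ⟨Φ, hΦ.mono hle, fun x hx => hπΦ x (hle hx), ?_, ?_⟩
  · intro x hx
    have hPL : PH (Fx ({a, b} : Set (Fin m))) Φ := (hΦ.mono hle).mono (Fx_mono D.pair_sub)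
    refine PH.eq_on hPL D.pL (X := ((StabL a b : Subgroup (Spg m F)) : Set (Spg m F)) ∪ {nn a}) ?_ ?_ ?_ hx
    · rintro y (hy | rfl)
      · exact hy.1
      · exact hnL
    · refine (Rank2.In.L_le_closure (a := a) (b := b) (F := F) D.ab).trans (Subgroup.closure_mono ?_)
      rintro y (hy | hy)
      · exact Or.inl (Gb_le_StabL D.ab hy)
      · exact Or.inr hy
    · rintro y (hy | rfl)
      · rw [hΦR _ (D.StabL_le hy), D.psi_sL hy]
      · exact hΦn
  · intro x hx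
    rw [hΦR _ (D.mem_T' hx), D.psi_s' hx]

end Cfsg.Agent.Lib.SpAm.Level
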