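import Cfsg.Agent.Lib.SpAm.Rank2G
import Cfsg.Agent.Lib.SpAm.PHom

/-!
# The level step: group level facts
-/

set_option autoImplicit false

namespace Cfsg.Agent.Lib.SpAm.LevelG

open Cfsg.Agent.Lib.SpAm.Model Cfsg.Agent.Lib.SpAm.Rank2G

variable {m : ℕ} {F : Type*} [Field F]

/-- The element `q(u,c)`. -/
def qq (a : Fin m) (u : VV m F) (c : F) : Spg m F := xS (ee a) u 1 * tS (ee a) c

lemma qq_ff {a : Fin m} {u : VV m F} (h1 : fm (ee a : VV m F) u = 0) (h2 : fm (ff a : VV m F) u = 0) (c : F) :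
    qq a u c ⋆ ff a = ff a + c • ee a + u := by
  rw [qq, act_mul, tS_ee_ff, xS_act h1]
  simp only [fm_add_left, fm_smul_left, fm_self, fm_ff_ee_self, h1, h2]
  module

lemma qq_ee {a : Fin m} {u : VV m F} (h1 : fm (ee a : VV m F) u = 0) (c : F) : qq a u c ⋆ ee a = ee a := by
  rw [qq, act_mul, tS_ee_ee, xS_act h1, fm_self, h1]
  simp

lemma comm_xS_tS {a : Fin m} {u : VV m F} (h1 : fm (ee a : VV m F) u = 0) (c : F) :
    tS (ee a) c * xS (ee a) u 1 = xS (ee a) u 1 * tS (ee a) c := by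
  have h1' : fm u (ee a : VV m F) = 0 := by rw [fm_anti (ee a), h1, neg_zero]
  apply sp_ext
  intro x
  simp only [act_mul, xS_act h1, tS_act, fm_add_left, fm_smul_left, fm_self, h1, h1']
  simp only [mul_zero, zero_add, add_zero]
  module

lemma qq_mul {a : Fin m} {u v : VV m F} (h1 : fm (ee a : VV m F) u = 0) (h2 : fm (ee a : VV m F) v = 0) (c d : F) :
    qq a u c * qq a v d = qq a (u + v) (fm v u + c + d) := by
  have e : (tS (ee a) (fm v u) * xS (ee a) (u + v) 1 : Spg m F) = xS (ee a) u 1 * xS (ee a) v 1 :=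
    (xS_mul_same h1 h2).symm
  have h3 : fm (ee a : VV m F) (u + v) = 0 := by rw [fm_add_right, h1, h2, add_zero]
  simp only [qq]
  rw [add_assoc (fm v u), tS_add, tS_add]
  calc xS (ee a) u 1 * tS (ee a) c * (xS (ee a) v 1 * tS (ee a) d)
      = xS (ee a) u 1 * (tS (ee a) c * xS (ee a) v 1) * tS (ee a) d := by group
    _ = (xS (ee a) u 1 * xS (ee a) v 1) * (tS (ee a) c * tS (ee a) d) := by
        rw [comm_xS_tS h2]
        group
    _ = tS (ee a) (fm v u) * xS (ee a) (u + v) 1 * (tS (ee a) c * tS (ee a) d) := by rw [e]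
    _ = (tS (ee a) (fm v u) * xS (ee a) (u + v) 1) * tS (ee a) c * tS (ee a) d := by group
    _ = xS (ee a) (u + v) 1 * (tS (ee a) (fm v u) * (tS (ee a) c * tS (ee a) d)) := by
        rw [comm_xS_tS h3]
        group

lemma conj_qq {a : Fin m} {g : Spg m F} (hg : g ⋆ ee a = ee a) (u : VV m F) (c : F) :
    g * qq a u c * g⁻¹ = qq a (g ⋆ u) c := by
  have e : g * qq a u c * g⁻¹ = (g * xS (ee a) u 1 * g⁻¹) * (g * tS (ee a) c * g⁻¹) := by
    simp only [qq]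
    group
  rw [e, xS_conj, tS_conj, hg, qq]

/-- Uniqueness of the decomposition. -/
lemma q_uniq {T' : Set (Fin m)} {a : Fin m} (ha : a ∉ T') {u u' : VV m F} {c c' : F} {g g' : Spg m F}
    (hu : Sup T' u) (hu' : Sup T' u') (hg : g ∈ Fx T') (hg' : g' ∈ Fx T')
    (e : qq a u c * g = qq a u' c' * g') : u = u' ∧ c = c' ∧ g = g' := by
  have h := congrArg (fun z => z ⋆ ff a) e
  simp only [act_mul, Fx.ff hg ha, Fx.ff hg' ha, qq_ff (hu.ee_left ha) (hu.ff_left ha),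
    qq_ff (hu'.ee_left ha) (hu'.ff_left ha)] at h
  have hc : c = c' := by
    have h2 := congrArg (fun z => fm z (ff a)) h
    simp only [fm_add_left, fm_smul_left, fm_ff_ff, fm_ee_ff_self, (hu a ha).2, (hu' a ha).2] at h2
    linear_combination -h2
  subst hc
  have hu2 : u = u' := by
    have : ff a + c • ee a + u - (ff a + c • ee a) = ff a + c • ee a + u' - (ff a + c • ee a) := by rw [h]
    simpa using this
  subst hu2
  exact ⟨rfl, rfl, mul_left_cancel e⟩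

/-- The stabilizer decomposition with `qq`. -/
lemma decomp_qq {T' : Set (Fin m)} {a : Fin m} (ha : a ∉ T') {r : Spg m F} (hr : r ∈ Fx (insert a T'))
    (hra : r ⋆ ee a = ee a) :
    ∃ (u : VV m F) (c : F) (g : Spg m F), Sup T' u ∧ g ∈ Fx T' ∧ r = qq a u c * g := decomp ha hr hra

lemma qq_mem {T' : Set (Fin m)} {a : Fin m} {u : VV m F} (hu : Sup T' u) (c : F) : qq a u c ∈ (Fx (insert a T') : Subgroup (Spg m F)) :=
  (Fx _).mul_mem (xS_mem (Sup_ee (Set.mem_insert _ _)) (hu.mono (Set.subset_insert _ _)) _)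
    (tS_mem (Sup_ee (Set.mem_insert _ _)) _)

/-- The stabilizer of `e_a` in `Fx T`. -/
def RR (T : Set (Fin m)) (a : Fin m) : Subgroup (Spg m F) where
  carrier := {g | g ∈ Fx T ∧ g ⋆ ee a = ee a}
  mul_mem' := by
    intro x y hx hy
    refine ⟨(Fx _).mul_mem hx.1 hy.1, ?_⟩
    rw [act_mul, hy.2, hx.2]
  one_mem' := ⟨(Fx _).one_mem, act_one _⟩
  inv_mem' := by
    intro x hx
    refine ⟨(Fx _).inv_mem hx.1, ?_⟩
    rw [act_eq_inv_iff, hx.2]

lemma mem_RR {T : Set (Fin m)} {a : Fin m} {g : Spg m F} : g ∈ RR T a ↔ g ∈ Fx T ∧ g ⋆ ee a = ee a := Iff.rfl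

/-- The double coset decomposition of the Levi. -/
lemma L_double {a b : Fin m} (hab : a ≠ b) {A : Spg m F} (hA : A ∈ Fx ({a, b} : Set (Fin m))) :
    ∃ ρ₁ ρ₂ A₀ : Spg m F, ρ₁ ∈ (StabL a b : Subgroup (Spg m F)) ∧ ρ₂ ∈ (StabL a b : Subgroup (Spg m F)) ∧
      (A₀ ∈ (Fx ({a} : Set (Fin m)) : Subgroup (Spg m F)) ∨ A₀ = ww a b) ∧ A = ρ₁ * A₀ * ρ₂ := by
  have key : ∀ ρ₁ A₀ : Spg m F, ρ₁ ∈ (StabL a b : Subgroup (Spg m F)) → (A₀ ∈ (Fx ({a} : Set (Fin m)) : Subgroup (Spg m F)) ∨ A₀ = ww a b) →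
      ρ₁ ⋆ (A₀ ⋆ ee a) = A ⋆ ee a → ∃ ρ₁ ρ₂ A₀ : Spg m F, ρ₁ ∈ (StabL a b : Subgroup (Spg m F)) ∧ ρ₂ ∈ (StabL a b : Subgroup (Spg m F)) ∧
      (A₀ ∈ (Fx ({a} : Set (Fin m)) : Subgroup (Spg m F)) ∨ A₀ = ww a b) ∧ A = ρ₁ * A₀ * ρ₂ := by
    intro ρ₁ A₀ h1 h2 h3
    refine ⟨ρ₁, (ρ₁ * A₀)⁻¹ * A, A₀, h1, ⟨?_, ?_⟩, h2, by group⟩
    · refine (Fx _).mul_mem ((Fx _).inv_mem ((Fx _).mul_mem h1.1 ?_)) hA
      rcases h2 with h2 | rfl
      · exact Fx_single_le_pair_left a b h2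
      · exact ww_mem a b
    · rw [act_mul, act_eq_inv_iff, act_mul, h3]
  set v := A ⋆ ee a with hv
  have hvS : Sup (insert a {b}) v := Fx.pres hA (Sup_ee (mem_pair_left a b))
  have hv0 : v ≠ 0 := act_ne_zero A (ee_ne_zero a)
  set α : F := -fm v (ff a) with hα
  set β : F := fm v (ee a) with hβ
  set u₀ : VV m F := v - α • ee a - β • ff a with hu₀
  have hus : Sup ({b} : Set (Fin m)) u₀ := split_a hvS
  have hab' : a ∉ ({b} : Set (Fin m)) := by simpa using hab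
  have hvsplit : v = α • ee a + β • ff a + u₀ := by
    rw [hu₀]
    abel
  by_cases hβ0 : β = 0
  · by_cases hu0 : u₀ = 0
    · -- `v = α e_a`
      have hvv : v = α • ee a := by
        rw [hvsplit, hu0, hβ0]
        simp
      have hx : Sup ({a} : Set (Fin m)) v := by
        rw [hvv]
        exact (Sup_ee (Set.mem_singleton a)).smul α
      obtain ⟨g, hg, e⟩ := plane_trans a hx hv0
      refine key 1 g (StabL a b).one_mem (Or.inl (Sgen_le_Fx a hg)) ?_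
      rw [act_one, e]
    · obtain ⟨g₀, hg₀, e⟩ := plane_trans b hus hu0
      have hg₀' := Sgen_le_Fx b hg₀
      have hmem : g₀ * xp a b (-α) ∈ (StabL a b : Subgroup (Spg m F)) := by
        refine (StabL a b).mul_mem ⟨Fx_single_le_pair_right a b hg₀', Fx.ee hg₀' hab'⟩ ⟨xp_mem a b _, xp_ee_a hab _⟩
      refine key (g₀ * xp a b (-α)) (ww a b) hmem (Or.inr rfl) ?_
      rw [act_mul, ww_ee_a hab, xp_ee_b hab, act_sub, e, act_smul, Fx.ee hg₀' hab', hvsplit, hβ0]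
      simp only [zero_smul, add_zero, neg_smul, sub_neg_eq_add]
      abel
  · -- `β ≠ 0`
    have hx : Sup ({a} : Set (Fin m)) (β • ff a : VV m F) := (Sup_ff (Set.mem_singleton a)).smul β
    have hx0 : (β • ff a : VV m F) ≠ 0 := smul_ne_zero hβ0 (ff_ne_zero a)
    obtain ⟨g, hg, e⟩ := plane_trans a hx hx0
    set u₁ : VV m F := β⁻¹ • u₀ with hu₁
    have hu₁S : Sup ({b} : Set (Fin m)) u₁ := hus.smul _
    have hqm : qq a u₁ (α / β) ∈ (StabL a b : Subgroup (Spg m F)) :=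
      ⟨qq_mem hu₁S _, qq_ee (hu₁S.ee_left hab') _⟩
    refine key (qq a u₁ (α / β)) g hqm (Or.inl (Sgen_le_Fx a hg)) ?_
    rw [e, act_smul, qq_ff (hu₁S.ee_left hab') (hu₁S.ff_left hab'), hvsplit, hu₁, smul_add, smul_add, smul_smul, smul_smul,
      mul_div_cancel₀ _ hβ0, mul_inv_cancel₀ hβ0, one_smul]
    abel

/-- The square of the Weyl element. -/
lemma ww_sq {a b : Fin m} (hab : a ≠ b) :
    ww a b * ww a b = (hh a (-1) * hh b (-1) : Spg m F) := by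
  have hm1 : (-1 : F) ≠ 0 := neg_ne_zero.2 one_ne_zero
  have hm1i : (-1 : F)⁻¹ = -1 := by simp
  have hL : ∀ {k : Fin m}, k ∈ ({a, b} : Set (Fin m)) → (hh k (-1) : Spg m F) ∈ Fx ({a, b} : Set (Fin m)) :=
    fun hk => hh_mem hk _
  apply L_ext ((Fx _).mul_mem (ww_mem a b) (ww_mem a b)) ((Fx _).mul_mem (hL (mem_pair_left a b)) (hL (mem_pair_right a b)))
  · rw [act_mul, act_mul, ww_ee_a hab, ww_ee_b hab, hh_ee_ne hab, hh_ee a hm1]
    simp
  · rw [act_mul, act_mul, ww_ee_b hab, act_neg, ww_ee_a hab, hh_ee b hm1, act_smul, hh_ee_ne hab.symm]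
    simp
  · rw [act_mul, act_mul, ww_ff_a hab, ww_ff_b hab, hh_ff_ne hab, hh_ff a hm1, hm1i]
    simp
  · rw [act_mul, act_mul, ww_ff_b hab, act_neg, ww_ff_a hab, hh_ff b hm1, hm1i, act_smul, hh_ff_ne hab.symm]
    simp

end Cfsg.Agent.Lib.SpAm.LevelG
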