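import Cfsg.Agent.Lib.SpAm.Core

/-!
# The induction over the levels: the inductive step and the result
-/

set_option autoImplicit false

namespace Cfsg.Agent.Lib.SpAm.Main

open Cfsg.Agent.Lib.SpAm.Model Cfsg.Agent.Lib.SpAm.Rank2G Cfsg.Agent.Lib.SpAm.PHom Cfsg.Agent.Lib.SpAm.LevelG
open Cfsg.Agent.Lib.SpAm.Level Cfsg.Agent.Lib.SpAm.Rank3 Cfsg.Agent.Lib.SpAm.Rank2 Cfsg.Agent.Lib.SpAm.Core

variable {n : ℕ} {F : Type*} [Field F] {H : Type*} [Group H] {π : H →* Spg n F} {sig mu : Fin n → Spg n F → H}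
  {ms : Fin n → Fin n → Spg n F → H}

lemma Gens_sub (t : ℕ) : Gens F n t ⊆ (Fx (Tt n t) : Subgroup (Spg n F)) :=
  fun _ hx => Clo_le_Fx t (Subgroup.subset_closure hx)

/-- The last level. -/
lemma stage_last (D : Input F n π sig mu ms) {t : ℕ} (ht : t + 1 = n) :
    ∃ ψ, Input.Stage π sig mu t ψ := by
  have hT := Tt_last (n := n) ht
  refine ⟨sig ⟨t, by omega⟩, ?_, ?_, ?_, ?_⟩
  · rw [hT]
    exact D.psig _
  · rw [hT]
    exact D.pisig _
  · intro k hk x hx
    have : k = ⟨t, by omega⟩ := by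
      apply Fin.ext
      have := k.2
      change k.val = t
      omega
    rw [this] at hx ⊢
  · intro i hi hk
    omega

/-- The inductive step. -/
lemma stage_step (D : Input F n π sig mu ms) {t : ℕ} (ht1 : t + 1 < n) {ψ' : Spg n F → H}
    (hψ' : Input.Stage π sig mu (t + 1) ψ') : ∃ ψ, Input.Stage π sig mu t ψ := by
  have htn : t < n := by omega
  obtain ⟨pS0, πS0, hψk, hψi⟩ := hψ'
  set a : Fin n := ⟨t, htn⟩ with ha
  set b : Fin n := ⟨t + 1, ht1⟩ with hb
  have hab : a ≠ b := by
    intro e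
    have := congrArg Fin.val e
    simp [ha, hb] at this
  have h : a.val + 1 < n := ht1
  have hT0 : Tt n t = insert a (Tt n (t + 1)) := Tt_succ_insert htn
  have hIn : In a b (ms a a) (ms a b) := {
    ne := hab
    pa := D.pms a a h
    pb := D.pms a b h
    ag := fun x hx => (D.ms1 a a h x hx).trans (D.ms1 a b h x hx).symm
    cm := fun x hx y hy => by
      rw [D.ms2 a a h x hx, D.ms2 a b h y hy]
      exact D.hss a b hab x hx y hy }
  obtain ⟨sL, pL, πL, hLa', hLb'⟩ := glue π hIn (fun x hx => D.pims a a h x hx) (fun x hx => D.pims a b h x hx)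
  have hLa : ∀ x ∈ (Fx ({a} : Set (Fin n)) : Subgroup (Spg n F)), sL x = sig a x := fun x hx =>
    (hLa' x (Subgroup.mem_sup_right hx)).trans (D.ms2 a a h x hx)
  have hLb : ∀ x ∈ (Fx ({b} : Set (Fin n)) : Subgroup (Spg n F)), sL x = sig b x := fun x hx =>
    (hLb' x (Subgroup.mem_sup_right hx)).trans (D.ms2 a b h x hx)
  have hLm : ∀ x ∈ (Mg a b : Subgroup (Spg n F)), sL x = mu a x := fun x hx =>
    (hLa' x (Subgroup.mem_sup_left hx)).trans (D.ms1 a a h x hx)
  have hka : ∀ k : Fin n, t + 1 ≤ k.val → k ≠ a := by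
    intro k hk e
    have := congrArg Fin.val e
    simp only [ha] at this
    omega
  -- `c1`
  have c1 : ∀ x ∈ (Fx ({a} : Set (Fin n)) : Subgroup (Spg n F)), ∀ y ∈ (Fx (Tt n (t + 1)) : Subgroup (Spg n F)),
      Commute (sL x) (ψ' y) := by
    intro x hx y hy
    rw [hLa x hx]
    refine (PH.comm_on pS0 (Gens_sub (t + 1)) (Fx_le_Clo (t + 1)) (h₀ := sig a x) ?_ hy).symm
    rintro z (⟨k, hk, hz⟩ | ⟨i, hi, hk, hz⟩)
    · rw [hψk k hk z hz]
      exact D.hss k a (hka k hk) z hz x hx
    · rw [hψi i hi hk z hz]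
      refine D.mu_comm_sig hi ?_ ?_ hz hx
      · exact (hka i hk).symm
      · change t ≠ i.val + 1
        omega
  -- `c2`
  have hgens : ∀ z ∈ ((Mg a b : Subgroup (Spg n F)) : Set (Spg n F)) ∪
      (((Fx ({a} : Set (Fin n)) : Subgroup (Spg n F)) : Set (Spg n F)) ∪
        ((Fx ({b} : Set (Fin n)) : Subgroup (Spg n F)) : Set (Spg n F))),
      ∀ g ∈ Gens F n (t + 2), Commute (sL z) (ψ' g) := by
    rintro z hz g (⟨k, hk, hg⟩ | ⟨i, hi, hk, hg⟩)
    · rw [hψk k (by omega) g hg]
      rcases hz with hz | hz | hz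
      · rw [hLm z hz]
        refine D.mu_comm_sig h ?_ ?_ hz hg
        · exact hka k (by omega)
        · change k.val ≠ t + 1
          omega
      · rw [hLa z hz]
        exact (D.hss k a (hka k (by omega)) g hg z hz).symm
      · rw [hLb z hz]
        refine (D.hss k b ?_ g hg z hz).symm
        intro e
        have := congrArg Fin.val e
        simp only [hb] at this
        omega
    · rw [hψi i hi (by omega) g hg]
      have hia : a ≠ i := (hka i (by omega)).symm
      rcases hz with hz | hz | hz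
      · rw [hLm z hz]
        exact D.hmm a i hia h hi z hz g hg
      · rw [hLa z hz]
        refine (D.mu_comm_sig hi hia ?_ hg hz).symm
        change t ≠ i.val + 1
        omega
      · rw [hLb z hz]
        refine (D.mu_comm_sig hi ?_ ?_ hg hz).symm
        · intro e
          have := congrArg Fin.val e
          simp only [hb] at this
          omega
        · change t + 1 ≠ i.val + 1
          omega
  have hXsub : ((Mg a b : Subgroup (Spg n F)) : Set (Spg n F)) ∪
      (((Fx ({a} : Set (Fin n)) : Subgroup (Spg n F)) : Set (Spg n F)) ∪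
        ((Fx ({b} : Set (Fin n)) : Subgroup (Spg n F)) : Set (Spg n F))) ⊆ (Fx ({a, b} : Set (Fin n)) : Subgroup (Spg n F)) := by
    rintro z (hz | hz | hz)
    · exact Mg_le_L _ _ hz
    · exact Fx_mono (by simp) hz
    · exact Fx_mono (by simp) hz
  have hXle : (Fx ({a, b} : Set (Fin n)) : Subgroup (Spg n F)) ≤ Subgroup.closure
      (((Mg a b : Subgroup (Spg n F)) : Set (Spg n F)) ∪
      (((Fx ({a} : Set (Fin n)) : Subgroup (Spg n F)) : Set (Spg n F)) ∪
        ((Fx ({b} : Set (Fin n)) : Subgroup (Spg n F)) : Set (Spg n F)))) := by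
    refine (In.L_le_closure (F := F) hab).trans ?_
    rw [Subgroup.closure_le]
    rintro z (hz | hz)
    · have hle : Gb a b ≤ Subgroup.closure
          (((Mg a b : Subgroup (Spg n F)) : Set (Spg n F)) ∪
          (((Fx ({a} : Set (Fin n)) : Subgroup (Spg n F)) : Set (Spg n F)) ∪
            ((Fx ({b} : Set (Fin n)) : Subgroup (Spg n F)) : Set (Spg n F)))) := by
        refine sup_le ?_ ?_
        · exact fun w hw => Subgroup.subset_closure (Or.inl hw)
        · exact fun w hw => Subgroup.subset_closure (Or.inr (Or.inr hw))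
      exact hle hz
    · rw [Set.mem_singleton_iff] at hz
      subst hz
      exact Subgroup.subset_closure (Or.inr (Or.inl (nn_mem (Set.mem_singleton a))))
  have c2 : ∀ x ∈ (Fx ({a, b} : Set (Fin n)) : Subgroup (Spg n F)), ∀ y ∈ (Fx (Tt n (t + 2)) : Subgroup (Spg n F)),
      Commute (sL x) (ψ' y) := by
    intro x hx y hy
    have hmono : (Fx (Tt n (t + 2)) : Subgroup (Spg n F)) ≤ Fx (Tt n (t + 1)) := Fx_mono (by
      intro w hw
      simp only [Tt, Set.mem_ofPred_eq] at hw ⊢
      omega)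
    refine (PH.comm_on (pS0.mono hmono) (Gens_sub (t + 2)) (Fx_le_Clo (t + 2)) (h₀ := sL x) ?_ hy).symm
    intro g hg
    exact (PH.comm_on pL hXsub hXle (h₀ := ψ' g) (fun z hz => hgens z hz g hg) hx).symm
  have hT1 : Tt n (t + 1) = insert b (Tt n (t + 2)) := Tt_succ_insert ht1
  have htr : ∀ u : VV n F, Sup (Tt n (t + 1)) u → u ≠ 0 → ∃ g ∈ (Fx (Tt n (t + 1)) : Subgroup (Spg n F)), g ⋆ ee b = u := by
    intro u hu hu0
    obtain ⟨g, hg, e⟩ := (gen_main (F := F) (n := n) (n - 1 - (t + 1)) (t + 1) (by omega)).1 u hu hu0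
    exact ⟨g, Clo_le_Fx _ hg, e⟩
  have hr3 : Tt n (t + 2) = ∅ ∨ ∃ c, c ∈ Tt n (t + 2) ∧ (∀ u : VV n F, Sup (Tt n (t + 2)) u → u ≠ 0 →
      ∃ g ∈ (Fx (Tt n (t + 2)) : Subgroup (Spg n F)), g ⋆ ee c = u) ∧
      Commute (sL (yy a b 1)) (ψ' (yy b c 1)) ∧
      ∃ X : H, ψ' (ww b c) * sL (yy a b 1) * (ψ' (ww b c))⁻¹ = X ∧
        ψ' (xm b c (-1)) * sL (yy a b 1) * (ψ' (xm b c (-1)))⁻¹ = sL (yy a b 1) * X ∧
        sL (ww a b) * X * (sL (ww a b))⁻¹ = ψ' (yy b c 1) := by
    by_cases ht2 : t + 2 < n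
    · right
      set c : Fin n := ⟨t + 2, ht2⟩ with hc
      have hb1 : b.val + 1 < n := ht2
      have hMb : ∀ y ∈ (Mg b c : Subgroup (Spg n F)), ψ' y = mu b y := fun y hy => hψi b hb1 (le_refl _) y hy
      have hab2 : a ≠ b := hab
      have hbc : b ≠ c := by
        intro e
        have := congrArg Fin.val e
        simp [hb, hc] at this
      have hac : a ≠ c := by
        intro e
        have := congrArg Fin.val e
        simp [ha, hc] at this
      have hcmM : ∀ x ∈ (Mg a b : Subgroup (Spg n F)), ∀ y ∈ (Mg b c : Subgroup (Spg n F)),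
          Commute (sL x) (ψ' y) := by
        intro x hx y hy
        rw [hLm x hx, hMb y hy]
        exact D.hmm a b hab h hb1 x hx y hy
      have hIn3 : In3 a b c sL ψ' := {
        pq := hab
        qr := hbc
        pr := hac
        pl := pL
        pro := pS0.mono (Fx_mono (by
          rintro w (rfl | hw)
          · exact Nat.le_refl _
          · rw [Set.mem_singleton_iff] at hw
            subst hw
            exact Nat.le_succ _))
        ag := fun x hx => (hLb x hx).trans (hψk b (le_refl _) x hx).symm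
        cmM := hcmM
        cm1 := fun x hx y hy => c1 x hx y (Fx_mono (by
          rintro w (rfl | hw)
          · exact Nat.le_refl _
          · rw [Set.mem_singleton_iff] at hw
            subst hw
            exact Nat.le_succ _) hy)
        cm3 := fun x hx y hy => c2 x hx y (Fx_mono (by
          intro w hw
          rw [Set.mem_singleton_iff] at hw
          subst hw
          exact Nat.le_refl _) hy)
        hF := D.hF }
      refine ⟨c, Nat.le_refl _, ?_, hcmM _ (yy_mem_Mg a b 1) _ (yy_mem_Mg b c 1), rank3 hIn3⟩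
      intro u hu hu0
      obtain ⟨g, hg, e⟩ := (gen_main (F := F) (n := n) (n - 1 - (t + 2)) (t + 2) (by omega)).1 u hu hu0
      exact ⟨g, Clo_le_Fx _ hg, e⟩
    · left
      ext w
      have := w.2
      simp only [Tt, Set.mem_ofPred_eq, Set.mem_empty_iff_false, iff_false, not_le]
      omega
  have hLIn : LIn π (Tt n (t + 2)) a b sL ψ' := {
    ab := hab
    a2 := by
      simp only [Tt, Set.mem_ofPred_eq, ha]
      omega
    b2 := by
      simp only [Tt, Set.mem_ofPred_eq, hb]
      omega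
    pL := pL
    pS := by
      rw [← hT1]
      exact pS0
    πL := πL
    πS := by
      rw [← hT1]
      exact πS0
    ag := fun x hx => (hLb x hx).trans (hψk b (le_refl _) x hx).symm
    c1 := by
      rw [← hT1]
      exact c1
    c2 := c2
    tr := by
      rw [← hT1]
      exact htr
    r3 := hr3 }
  obtain ⟨Φ, pΦ, πΦ, hΦL, hΦS⟩ := level hLIn
  rw [← hT1, ← hT0] at pΦ πΦ
  rw [← hT1] at hΦS
  refine ⟨Φ, pΦ, πΦ, ?_, ?_⟩
  · intro k hk x hx
    by_cases hka2 : k = a
    · subst hka2
      rw [hΦL x (Fx_mono (by simp) hx), hLa x hx]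
    · have hk1 : t + 1 ≤ k.val := by
        have : k.val ≠ t := fun e => hka2 (Fin.ext e)
        omega
      rw [hΦS x (Fx_mono (by
        intro w hw
        rw [Set.mem_singleton_iff] at hw
        subst hw
        exact hk1) hx), hψk k hk1 x hx]
  · intro i hi hk x hx
    by_cases hka2 : i = a
    · subst hka2
      rw [hΦL x (Mg_le_L _ _ hx), hLm x hx]
    · have hk1 : t + 1 ≤ i.val := by
        have : i.val ≠ t := fun e => hka2 (Fin.ext e)
        omega
      rw [hΦS x (Clo_le_Fx _ (Mi_le_Clo hi hk1 hx)), hψi i hi hk1 x hx]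

/-- The stages. -/
lemma exists_stage (D : Input F n π sig mu ms) (d : ℕ) :
    ∀ t : ℕ, t + d + 1 = n → ∃ ψ, Input.Stage π sig mu t ψ := by
  induction d with
  | zero =>
    intro t ht
    exact stage_last D (by omega)
  | succ d ih =>
    intro t ht
    obtain ⟨ψ', hψ'⟩ := ih (t + 1) (by omega)
    exact stage_step D (by omega) hψ'

lemma Fx_Tt_zero : (Fx (Tt n 0) : Subgroup (Spg n F)) = ⊤ := by
  rw [eq_top_iff]
  intro g _ j hj
  exact absurd (Nat.zero_le _) hj

/-- The core statement. -/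
theorem core (D : Input F n π sig mu ms) (hn : 0 < n) :
    ∃ ψ : Spg n F → H, PH ⊤ ψ ∧ (∀ x, π (ψ x) = x) ∧
      (∀ k : Fin n, ∀ x ∈ (Fx ({k} : Set (Fin n)) : Subgroup (Spg n F)), ψ x = sig k x) ∧
      (∀ (i : Fin n) (h : i.val + 1 < n), ∀ x ∈ Mi F i h, ψ x = mu i x) := by
  obtain ⟨ψ, h1, h2, h3, h4⟩ := exists_stage D (n - 1) 0 (by omega)
  rw [Fx_Tt_zero] at h1 h2
  exact ⟨ψ, h1, fun x => h2 x (Subgroup.mem_top _), fun k => h3 k (Nat.zero_le _), fun i h => h4 i h (Nat.zero_le _)⟩

/-- The generators generate. -/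
lemma Gens_top : (⊤ : Subgroup (Spg n F)) ≤ Subgroup.closure (Gens F n 0) := by
  have := Fx_le_Clo (F := F) (n := n) 0
  rwa [Fx_Tt_zero] at this

end Cfsg.Agent.Lib.SpAm.Main
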