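import Cfsg.Agent.Lib.Classical.SympForm

/-!
# The symplectic group on vectors: transvections, Siegel elements, supports

Everything is phrased through the action `g ⋆ x` on vectors and the form `fm x y`.
-/

set_option autoImplicit false

namespace Cfsg.Agent.Lib.SpAm.Model

open Matrix Cfsg Cfsg.Agent.Lib.Classical.SympForm

variable {m : ℕ} {F : Type*} [Field F]

/-- The vectors. -/
abbrev VV (m : ℕ) (F : Type*) [Field F] : Type _ := Fin m ⊕ Fin m → F

/-- The symplectic group. -/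
abbrev Spg (m : ℕ) (F : Type*) [Field F] : Type _ := ↥(Matrix.symplecticGroup (Fin m) F)

/-- The form. -/
def fm (x y : VV m F) : F := sympForm m F x y

/-- The action. -/
def act (g : Spg m F) (x : VV m F) : VV m F := g.1 *ᵥ x

scoped infixr:73 " ⋆ " => act

lemma fm_add_left (u v w : VV m F) : fm (u + v) w = fm u w + fm v w := by
  simp [fm, sympForm, add_dotProduct]

lemma fm_add_right (u v w : VV m F) : fm u (v + w) = fm u v + fm u w := by
  simp [fm, sympForm, mulVec_add, dotProduct_add]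

lemma fm_smul_left (a : F) (u w : VV m F) : fm (a • u) w = a * fm u w := by
  simp [fm, sympForm, smul_dotProduct]

lemma fm_smul_right (a : F) (u w : VV m F) : fm u (a • w) = a * fm u w := by
  simp [fm, sympForm, mulVec_smul, dotProduct_smul]

lemma fm_self (u : VV m F) : fm u u = 0 := sympBilin_isAlt u

lemma fm_anti (u v : VV m F) : fm v u = -fm u v := by
  have h := fm_self (u + v)
  rw [fm_add_left, fm_add_right, fm_add_right, fm_self, fm_self] at h
  linear_combination h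

lemma fm_neg_right (u w : VV m F) : fm u (-w) = -fm u w := by
  rw [← neg_one_smul F w, fm_smul_right]
  ring

lemma fm_neg_left (u w : VV m F) : fm (-u) w = -fm u w := by
  rw [← neg_one_smul F u, fm_smul_left]
  ring

lemma fm_sub_right (u v w : VV m F) : fm u (v - w) = fm u v - fm u w := by
  rw [sub_eq_add_neg, fm_add_right, fm_neg_right]
  ring

lemma fm_sub_left (u v w : VV m F) : fm (u - v) w = fm u w - fm v w := by
  rw [sub_eq_add_neg, fm_add_left, fm_neg_left]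
  ring

lemma fm_zero_left (w : VV m F) : fm 0 w = 0 := by
  simpa using fm_smul_left (0 : F) (0 : VV m F) w

lemma fm_zero_right (w : VV m F) : fm w 0 = 0 := by
  simpa using fm_smul_right (0 : F) w (0 : VV m F)

lemma act_mul (g h : Spg m F) (x : VV m F) : (g * h) ⋆ x = g ⋆ (h ⋆ x) := by
  simp only [act]
  rw [mulVec_mulVec]
  rfl

lemma act_one (x : VV m F) : (1 : Spg m F) ⋆ x = x := one_mulVec x

lemma act_add (g : Spg m F) (x y : VV m F) : g ⋆ (x + y) = g ⋆ x + g ⋆ y := mulVec_add _ _ _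

lemma act_smul (g : Spg m F) (a : F) (x : VV m F) : g ⋆ (a • x) = a • (g ⋆ x) := mulVec_smul _ _ _

lemma act_zero (g : Spg m F) : g ⋆ (0 : VV m F) = 0 := mulVec_zero _

lemma act_neg (g : Spg m F) (x : VV m F) : g ⋆ (-x) = -(g ⋆ x) := by
  rw [← neg_one_smul F x, act_smul, neg_one_smul]

lemma act_sub (g : Spg m F) (x y : VV m F) : g ⋆ (x - y) = g ⋆ x - g ⋆ y := by
  rw [sub_eq_add_neg, act_add, act_neg, sub_eq_add_neg]

lemma inv_act_act (g : Spg m F) (x : VV m F) : g⁻¹ ⋆ (g ⋆ x) = x := by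
  rw [← act_mul, inv_mul_cancel, act_one]

lemma act_inv_act (g : Spg m F) (x : VV m F) : g ⋆ (g⁻¹ ⋆ x) = x := by
  rw [← act_mul, mul_inv_cancel, act_one]

lemma sp_ext {g h : Spg m F} (H : ∀ x : VV m F, g ⋆ x = h ⋆ x) : g = h :=
  Subtype.ext (Matrix.ext_iff_mulVec.2 H)

lemma fm_act (g : Spg m F) (u v : VV m F) : fm (g ⋆ u) (g ⋆ v) = fm u v :=
  (mem_symplecticGroup_iff g.1).1 g.2 u v

lemma act_inj (g : Spg m F) {x y : VV m F} (h : g ⋆ x = g ⋆ y) : x = y := by
  have := congrArg (fun z => g⁻¹ ⋆ z) h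
  simpa [inv_act_act] using this

lemma act_eq_inv_iff (g : Spg m F) {x y : VV m F} : g⁻¹ ⋆ x = y ↔ x = g ⋆ y := by
  constructor
  · rintro rfl
    rw [act_inv_act]
  · rintro rfl
    rw [inv_act_act]

/-- The transvection. -/
def tS (v : VV m F) (c : F) : Spg m F := ⟨sympTransvection m v c, sympTransvection_mem v c⟩

lemma tS_act (v : VV m F) (c : F) (x : VV m F) : tS v c ⋆ x = x + (c * fm x v) • v :=
  sympTransvection_mulVec v c x

lemma tS_conj (g : Spg m F) (v : VV m F) (c : F) : g * tS v c * g⁻¹ = tS (g ⋆ v) c :=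
  Subtype.ext (sp_mul_sympTransvection_mul_inv g v c)

lemma tS_add (v : VV m F) (c d : F) : tS v (c + d) = tS v c * tS v d := by
  apply sp_ext
  intro x
  simp only [act_mul, tS_act, fm_add_left, fm_smul_left, fm_self]
  module

lemma tS_zero (v : VV m F) : tS v (0 : F) = 1 := by
  apply sp_ext
  intro x
  simp only [tS_act, act_one]
  simp

lemma tS_neg (v : VV m F) (c : F) : tS v (-c) = (tS v c)⁻¹ := by
  apply eq_inv_of_mul_eq_one_left
  rw [← tS_add, neg_add_cancel, tS_zero]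

lemma tS_smul (a : F) (v : VV m F) (c : F) : tS (a • v) c = tS v (a ^ 2 * c) :=
  Subtype.ext (sympTransvection_smul a v c)

lemma tS_neg_vec (v : VV m F) (c : F) : tS (-v) c = tS v c := by
  rw [← neg_one_smul F v, tS_smul]
  simp

/-- The Siegel element. -/
def xS (u v : VV m F) (c : F) : Spg m F := tS (u + v) c * tS u (-c) * tS v (-c)

lemma xS_act {u v : VV m F} (h : fm u v = 0) (c : F) (x : VV m F) :
    xS u v c ⋆ x = x + (c * fm x u) • v + (c * fm x v) • u := by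
  have h' : fm v u = 0 := by rw [fm_anti u v, h, neg_zero]
  simp only [xS, act_mul, tS_act, fm_add_left, fm_add_right, fm_smul_left, fm_self, h, h']
  simp only [mul_zero, zero_add, add_zero]
  module

lemma xS_conj (g : Spg m F) (u v : VV m F) (c : F) : g * xS u v c * g⁻¹ = xS (g ⋆ u) (g ⋆ v) c := by
  have e : g * xS u v c * g⁻¹ = (g * tS (u + v) c * g⁻¹) * (g * tS u (-c) * g⁻¹) * (g * tS v (-c) * g⁻¹) := by
    simp only [xS]
    group
  rw [e, tS_conj, tS_conj, tS_conj, xS, act_add]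

lemma xS_add {u v : VV m F} (h : fm u v = 0) (c d : F) : xS u v (c + d) = xS u v c * xS u v d := by
  have h' : fm v u = 0 := by rw [fm_anti u v, h, neg_zero]
  apply sp_ext
  intro x
  simp only [act_mul, xS_act h, fm_add_left, fm_smul_left, fm_self, h, h']
  simp only [mul_zero, zero_add, add_zero]
  module

lemma xS_zero {u v : VV m F} (h : fm u v = 0) : xS u v (0 : F) = 1 := by
  apply sp_ext
  intro x
  rw [xS_act h, act_one]
  simp

lemma xS_neg {u v : VV m F} (h : fm u v = 0) (c : F) : xS u v (-c) = (xS u v c)⁻¹ := by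
  apply eq_inv_of_mul_eq_one_left
  rw [← xS_add h, neg_add_cancel, xS_zero h]

lemma xS_symm {u v : VV m F} (h : fm u v = 0) (c : F) : xS u v c = xS v u c := by
  have h' : fm v u = 0 := by rw [fm_anti u v, h, neg_zero]
  apply sp_ext
  intro x
  rw [xS_act h, xS_act h']
  module

lemma xS_smul_left {u v : VV m F} (h : fm u v = 0) (a c : F) : xS (a • u) v c = xS u v (a * c) := by
  have h2 : fm (a • u) v = 0 := by rw [fm_smul_left, h, mul_zero]
  apply sp_ext
  intro x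
  rw [xS_act h2, xS_act h, fm_smul_right]
  module

lemma xS_smul_right {u v : VV m F} (h : fm u v = 0) (a c : F) : xS u (a • v) c = xS u v (a * c) := by
  have h2 : fm u (a • v) = 0 := by rw [fm_smul_right, h, mul_zero]
  apply sp_ext
  intro x
  rw [xS_act h2, xS_act h, fm_smul_right]
  module

lemma xS_neg_left {u v : VV m F} (h : fm u v = 0) (c : F) : xS (-u) v c = xS u v (-c) := by
  have := xS_smul_left h (-1) c
  simpa using this

lemma xS_neg_right {u v : VV m F} (h : fm u v = 0) (c : F) : xS u (-v) c = xS u v (-c) := by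
  have := xS_smul_right h (-1) c
  simpa using this

lemma xS_zero_right (u : VV m F) (c : F) : xS u 0 c = 1 := by
  apply sp_ext
  intro x
  rw [xS_act (fm_zero_right u), act_one, fm_zero_right]
  simp

lemma xS_self (u : VV m F) (c : F) : xS u u c = tS u (2 * c) := by
  apply sp_ext
  intro x
  rw [xS_act (fm_self u), tS_act]
  module

/-- Two Siegel elements with the same first vector. -/
lemma xS_mul_same {u v v' : VV m F} (h : fm u v = 0) (h' : fm u v' = 0) :
    xS u v 1 * xS u v' 1 = tS u (fm v' v) * xS u (v + v') 1 := by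
  have h2 : fm u (v + v') = 0 := by rw [fm_add_right, h, h', add_zero]
  have h3 : fm v u = 0 := by rw [fm_anti u v, h, neg_zero]
  have h4 : fm v' u = 0 := by rw [fm_anti u v', h', neg_zero]
  apply sp_ext
  intro x
  simp only [act_mul, xS_act h, xS_act h', xS_act h2, tS_act, fm_add_left, fm_add_right, fm_smul_left,
    fm_self, h, h', h3, h4]
  simp only [mul_zero, zero_add, add_zero]
  module

lemma tS_conj' (g : Spg m F) (v : VV m F) (c : F) : g⁻¹ * tS v c * g = tS (g⁻¹ ⋆ v) c := by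
  have := tS_conj g⁻¹ v c
  rwa [inv_inv] at this

lemma xS_conj' (g : Spg m F) (u v : VV m F) (c : F) : g⁻¹ * xS u v c * g = xS (g⁻¹ ⋆ u) (g⁻¹ ⋆ v) c := by
  have := xS_conj g⁻¹ u v c
  rwa [inv_inv] at this

/-! ### The basis -/

/-- The vector `e_k`. -/
def ee (k : Fin m) : VV m F := Pi.single (Sum.inl k) 1

/-- The vector `f_k`. -/
def ff (k : Fin m) : VV m F := Pi.single (Sum.inr k) 1

lemma fm_ee (x : VV m F) (k : Fin m) : fm x (ee k) = x (Sum.inr k) := sympForm_single_inl x k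

lemma fm_ff (x : VV m F) (k : Fin m) : fm x (ff k) = -x (Sum.inl k) := sympForm_single_inr x k

lemma fm_ee_ee (j k : Fin m) : fm (ee j : VV m F) (ee k) = 0 := by
  rw [fm_ee]
  simp [ee]

lemma fm_ff_ff (j k : Fin m) : fm (ff j : VV m F) (ff k) = 0 := by
  rw [fm_ff]
  simp [ff]

lemma fm_ee_ff (j k : Fin m) : fm (ee j : VV m F) (ff k) = if j = k then -1 else 0 := by
  rw [fm_ff]
  by_cases h : j = k
  · subst h
    simp [ee]
  · have h' : k ≠ j := fun e => h e.symm
    simp [ee, h, h']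

lemma fm_ff_ee (j k : Fin m) : fm (ff j : VV m F) (ee k) = if j = k then 1 else 0 := by
  rw [fm_ee]
  by_cases h : j = k
  · subst h
    simp [ff]
  · have h' : k ≠ j := fun e => h e.symm
    simp [ff, h, h']

@[simp] lemma fm_ee_ff_self (k : Fin m) : fm (ee k : VV m F) (ff k) = -1 := by simp [fm_ee_ff]

@[simp] lemma fm_ff_ee_self (k : Fin m) : fm (ff k : VV m F) (ee k) = 1 := by simp [fm_ff_ee]

lemma fm_ee_ff_ne {j k : Fin m} (h : j ≠ k) : fm (ee j : VV m F) (ff k) = 0 := by simp [fm_ee_ff, h]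

lemma fm_ff_ee_ne {j k : Fin m} (h : j ≠ k) : fm (ff j : VV m F) (ee k) = 0 := by simp [fm_ff_ee, h]

/-- Vectors are determined by the form against the basis. -/
lemma vec_ext {x y : VV m F} (h1 : ∀ k, fm x (ee k) = fm y (ee k)) (h2 : ∀ k, fm x (ff k) = fm y (ff k)) :
    x = y := by
  ext (k | k)
  · have := h2 k
    rw [fm_ff, fm_ff] at this
    exact neg_injective this
  · have := h1 k
    rwa [fm_ee, fm_ee] at this

/-- Group elements are determined by the basis. -/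
lemma sp_ext_basis {g h : Spg m F} (h1 : ∀ k, g ⋆ ee k = h ⋆ ee k) (h2 : ∀ k, g ⋆ ff k = h ⋆ ff k) :
    g = h := by
  apply Subtype.ext
  apply Matrix.ext
  intro i j
  rcases j with j | j
  · have := congrFun (h1 j) i
    simpa [act, ee, Matrix.mulVec_single] using this
  · have := congrFun (h2 j) i
    simpa [act, ff, Matrix.mulVec_single] using this

/-! ### Supports -/

/-- A vector is supported on `T`. -/
def Sup (T : Set (Fin m)) (x : VV m F) : Prop := ∀ j, j ∉ T → fm x (ee j) = 0 ∧ fm x (ff j) = 0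

lemma Sup_zero (T : Set (Fin m)) : Sup T (0 : VV m F) := fun j _ => ⟨fm_zero_left _, fm_zero_left _⟩

lemma Sup.add {T : Set (Fin m)} {x y : VV m F} (hx : Sup T x) (hy : Sup T y) : Sup T (x + y) := by
  intro j hj
  rw [fm_add_left, fm_add_left, (hx j hj).1, (hx j hj).2, (hy j hj).1, (hy j hj).2]
  simp

lemma Sup.smul {T : Set (Fin m)} {x : VV m F} (a : F) (hx : Sup T x) : Sup T (a • x) := by
  intro j hj
  rw [fm_smul_left, fm_smul_left, (hx j hj).1, (hx j hj).2]
  simp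

lemma Sup.neg {T : Set (Fin m)} {x : VV m F} (hx : Sup T x) : Sup T (-x) := by
  simpa using hx.smul (-1)

lemma Sup.sub {T : Set (Fin m)} {x y : VV m F} (hx : Sup T x) (hy : Sup T y) : Sup T (x - y) := by
  rw [sub_eq_add_neg]
  exact hx.add hy.neg

lemma Sup.mono {T T' : Set (Fin m)} {x : VV m F} (h : T ⊆ T') (hx : Sup T x) : Sup T' x :=
  fun j hj => hx j (fun hh => hj (h hh))

lemma Sup_ee {T : Set (Fin m)} {k : Fin m} (hk : k ∈ T) : Sup T (ee k : VV m F) := by
  intro j hj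
  have : k ≠ j := fun e => hj (e ▸ hk)
  exact ⟨fm_ee_ee _ _, fm_ee_ff_ne this⟩

lemma Sup_ff {T : Set (Fin m)} {k : Fin m} (hk : k ∈ T) : Sup T (ff k : VV m F) := by
  intro j hj
  have : k ≠ j := fun e => hj (e ▸ hk)
  exact ⟨fm_ff_ee_ne this, fm_ff_ff _ _⟩

lemma Sup.ee_left {T : Set (Fin m)} {x : VV m F} (hx : Sup T x) {j : Fin m} (hj : j ∉ T) :
    fm (ee j) x = 0 := by
  rw [fm_anti x, (hx j hj).1, neg_zero]

lemma Sup.ff_left {T : Set (Fin m)} {x : VV m F} (hx : Sup T x) {j : Fin m} (hj : j ∉ T) :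
    fm (ff j) x = 0 := by
  rw [fm_anti x, (hx j hj).2, neg_zero]

/-- Vectors with disjoint supports are orthogonal. -/
lemma fm_eq_zero_of_disjoint {T T' : Set (Fin m)} (hd : Disjoint T T') {x y : VV m F}
    (hx : Sup T x) (hy : Sup T' y) : fm x y = 0 := by
  simp only [fm]
  rw [sympForm_eq_sum]
  refine Finset.sum_eq_zero fun k _ => ?_
  by_cases hk : k ∈ T
  · have hk' : k ∉ T' := Set.disjoint_left.1 hd hk
    have h1 := (hy k hk').1
    have h2 := (hy k hk').2
    rw [fm_ee] at h1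
    rw [fm_ff] at h2
    have h2' : y (Sum.inl k) = 0 := neg_eq_zero.1 h2
    simp [h2', h1]
  · have h1 := (hx k hk).1
    have h2 := (hx k hk).2
    rw [fm_ee] at h1
    rw [fm_ff] at h2
    have h2' : x (Sum.inl k) = 0 := neg_eq_zero.1 h2
    simp [h2', h1]

/-- The subgroup fixing `e_j, f_j` outside `T`. -/
def Fx (T : Set (Fin m)) : Subgroup (Spg m F) where
  carrier := {g | ∀ j, j ∉ T → g ⋆ ee j = ee j ∧ g ⋆ ff j = ff j}
  mul_mem' := by
    intro a b ha hb j hj
    rw [act_mul, act_mul, (hb j hj).1, (hb j hj).2, (ha j hj).1, (ha j hj).2]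
    exact ⟨rfl, rfl⟩
  one_mem' := fun j _ => ⟨act_one _, act_one _⟩
  inv_mem' := by
    intro a ha j hj
    refine ⟨?_, ?_⟩
    · rw [act_eq_inv_iff, (ha j hj).1]
    · rw [act_eq_inv_iff, (ha j hj).2]

lemma mem_Fx {T : Set (Fin m)} {g : Spg m F} :
    g ∈ Fx T ↔ ∀ j, j ∉ T → g ⋆ ee j = ee j ∧ g ⋆ ff j = ff j := Iff.rfl

lemma Fx_mono {T T' : Set (Fin m)} (h : T ⊆ T') : (Fx T : Subgroup (Spg m F)) ≤ Fx T' :=
  fun _ hg j hj => hg j (fun hh => hj (h hh))

lemma Fx.ee {T : Set (Fin m)} {g : Spg m F} (hg : g ∈ Fx T) {j : Fin m} (hj : j ∉ T) :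
    g ⋆ ee j = ee j := (hg j hj).1

lemma Fx.ff {T : Set (Fin m)} {g : Spg m F} (hg : g ∈ Fx T) {j : Fin m} (hj : j ∉ T) :
    g ⋆ ff j = ff j := (hg j hj).2

/-- `Fx T` preserves vectors supported on `T`. -/
lemma Fx.pres {T : Set (Fin m)} {g : Spg m F} (hg : g ∈ Fx T) {x : VV m F} (hx : Sup T x) :
    Sup T (g ⋆ x) := by
  intro j hj
  constructor
  · rw [← Fx.ee hg hj, fm_act]
    exact (hx j hj).1
  · rw [← Fx.ff hg hj, fm_act]
    exact (hx j hj).2

/-- `Fx T` fixes vectors supported off `T`. -/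
lemma Fx.fix {T T' : Set (Fin m)} (hd : Disjoint T T') {g : Spg m F} (hg : g ∈ Fx T) {x : VV m F}
    (hx : Sup T' x) : g ⋆ x = x := by
  have e1 : ∀ k, fm (g ⋆ x) (Model.ee k) = fm x (Model.ee k) := by
    intro k
    have e : fm (g ⋆ x) (Model.ee k) = fm x (g⁻¹ ⋆ Model.ee k) := by
      rw [← fm_act g x (g⁻¹ ⋆ Model.ee k), act_inv_act]
    rw [e]
    by_cases hk : k ∈ T
    · have h1 : Sup T (g⁻¹ ⋆ Model.ee k : VV m F) := Fx.pres ((Fx T).inv_mem hg) (Sup_ee hk)
      have h2 : Sup T (Model.ee k : VV m F) := Sup_ee hk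
      rw [fm_eq_zero_of_disjoint hd.symm hx h1, fm_eq_zero_of_disjoint hd.symm hx h2]
    · rw [Fx.ee ((Fx T).inv_mem hg) hk]
  have e2 : ∀ k, fm (g ⋆ x) (Model.ff k) = fm x (Model.ff k) := by
    intro k
    have e : fm (g ⋆ x) (Model.ff k) = fm x (g⁻¹ ⋆ Model.ff k) := by
      rw [← fm_act g x (g⁻¹ ⋆ Model.ff k), act_inv_act]
    rw [e]
    by_cases hk : k ∈ T
    · have h1 : Sup T (g⁻¹ ⋆ Model.ff k : VV m F) := Fx.pres ((Fx T).inv_mem hg) (Sup_ff hk)
      have h2 : Sup T (Model.ff k : VV m F) := Sup_ff hk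
      rw [fm_eq_zero_of_disjoint hd.symm hx h1, fm_eq_zero_of_disjoint hd.symm hx h2]
    · rw [Fx.ff ((Fx T).inv_mem hg) hk]
  exact vec_ext e1 e2

/-- Elements with disjoint supports commute. -/
lemma Fx_comm {T T' : Set (Fin m)} (hd : Disjoint T T') {g h : Spg m F} (hg : g ∈ Fx T) (hh : h ∈ Fx T') :
    g * h = h * g := by
  have hT : ∀ v : VV m F, Sup T v → (g * h) ⋆ v = (h * g) ⋆ v := by
    intro v hv
    rw [act_mul, act_mul, Fx.fix hd.symm hh hv, Fx.fix hd.symm hh (Fx.pres hg hv)]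
  have hT' : ∀ v : VV m F, Sup T' v → (g * h) ⋆ v = (h * g) ⋆ v := by
    intro v hv
    rw [act_mul, act_mul, Fx.fix hd hg hv, Fx.fix hd hg (Fx.pres hh hv)]
  apply sp_ext_basis
  · intro k
    by_cases hk : k ∈ T
    · exact hT _ (Sup_ee hk)
    · by_cases hk' : k ∈ T'
      · exact hT' _ (Sup_ee hk')
      · rw [act_mul, act_mul, Fx.ee hh hk', Fx.ee hg hk, Fx.ee hh hk']
  · intro k
    by_cases hk : k ∈ T
    · exact hT _ (Sup_ff hk)
    · by_cases hk' : k ∈ T'
      · exact hT' _ (Sup_ff hk')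
      · rw [act_mul, act_mul, Fx.ff hh hk', Fx.ff hg hk, Fx.ff hh hk']

lemma tS_mem {T : Set (Fin m)} {u : VV m F} (hu : Sup T u) (c : F) : tS u c ∈ Fx T := by
  intro j hj
  simp only [tS_act, hu.ee_left hj, hu.ff_left hj]
  simp

lemma tS_mem_of_Sup_single {T : Set (Fin m)} {k : Fin m} (hk : k ∈ T) (c : F) :
    tS (Model.ee k) c ∈ (Fx T : Subgroup (Spg m F)) ∧ tS (Model.ff k) c ∈ (Fx T : Subgroup (Spg m F)) :=
  ⟨tS_mem (Sup_ee hk) c, tS_mem (Sup_ff hk) c⟩

lemma xS_mem {T : Set (Fin m)} {u v : VV m F} (hu : Sup T u) (hv : Sup T v) (c : F) : xS u v c ∈ Fx T := by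
  unfold xS
  exact (Fx T).mul_mem ((Fx T).mul_mem (tS_mem (hu.add hv) c) (tS_mem hu _)) (tS_mem hv _)

lemma Sup_empty {x : VV m F} (hx : Sup (∅ : Set (Fin m)) x) : x = 0 := by
  apply vec_ext
  · intro k
    rw [(hx k (Set.notMem_empty k)).1, fm_zero_left]
  · intro k
    rw [(hx k (Set.notMem_empty k)).2, fm_zero_left]

/-- Splitting off the plane of `a`. -/
lemma split_a {T' : Set (Fin m)} {a : Fin m} {x : VV m F} (hx : Sup (insert a T') x) :
    Sup T' (x - (-fm x (Model.ff a)) • Model.ee a - (fm x (Model.ee a)) • Model.ff a) := by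
  intro j hj
  by_cases hja : j = a
  · subst hja
    simp only [fm_sub_left, fm_smul_left, fm_ee_ee, fm_ff_ee_self, fm_ee_ff_self, fm_ff_ff]
    constructor <;> ring
  · have h := hx j (by simp [hja, hj])
    have h1 : a ≠ j := fun e => hja e.symm
    simp only [fm_sub_left, fm_smul_left, fm_ee_ee, fm_ff_ff, h.1, h.2, fm_ee_ff_ne h1, fm_ff_ee_ne h1]
    constructor <;> ring

lemma split_single {a : Fin m} {x : VV m F} (hx : Sup ({a} : Set (Fin m)) x) :
    x = (-fm x (Model.ff a)) • Model.ee a + (fm x (Model.ee a)) • Model.ff a := by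
  have h : Sup (insert a (∅ : Set (Fin m))) x := by simpa using hx
  have := Sup_empty (split_a h)
  rw [sub_sub, sub_eq_zero] at this
  exact this

/-! ### Weyl elements and torus -/

/-- The Weyl element of the plane `k`. -/
def nn (k : Fin m) : Spg m F := tS (ee k) 1 * tS (ff k) 1 * tS (ee k) 1

/-- The Weyl-type element with parameter `p`. -/
def nnp (k : Fin m) (p : F) : Spg m F := tS (ee k) p * tS (ff k) p⁻¹ * tS (ee k) p

/-- The torus element of the plane `k`. -/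
def hh (k : Fin m) (p : F) : Spg m F := nnp k p * (nn k)⁻¹

lemma tS_ee_ee (k : Fin m) (c : F) : tS (ee k) c ⋆ ee k = ee k := by
  rw [tS_act, fm_ee_ee]
  simp

lemma tS_ee_ff (k : Fin m) (c : F) : tS (ee k) c ⋆ ff k = ff k + c • ee k := by
  rw [tS_act, fm_ff_ee_self, mul_one]

lemma tS_ff_ee (k : Fin m) (c : F) : tS (ff k) c ⋆ ee k = ee k - c • ff k := by
  rw [tS_act, fm_ee_ff_self]
  simp [sub_eq_add_neg]

lemma tS_ff_ff (k : Fin m) (c : F) : tS (ff k) c ⋆ ff k = ff k := by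
  rw [tS_act, fm_ff_ff]
  simp

lemma nn_ee (k : Fin m) : nn k ⋆ ee k = -(ff k : VV m F) := by
  simp only [nn, act_mul, tS_ee_ee, tS_ff_ee, act_sub, act_smul, tS_ee_ff]
  module

lemma nn_ff (k : Fin m) : nn k ⋆ ff k = (ee k : VV m F) := by
  simp only [nn, act_mul, tS_ee_ee, tS_ff_ee, tS_ff_ff, act_add, act_sub, act_smul, tS_ee_ff]
  module

lemma nn_inv_ee (k : Fin m) : (nn k)⁻¹ ⋆ ee k = (ff k : VV m F) := by
  rw [act_eq_inv_iff, nn_ff]

lemma nn_inv_ff (k : Fin m) : (nn k)⁻¹ ⋆ ff k = -(ee k : VV m F) := by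
  rw [act_eq_inv_iff, act_neg, nn_ee, neg_neg]

lemma nnp_ee (k : Fin m) {p : F} (hp : p ≠ 0) : nnp k p ⋆ ee k = (-p⁻¹) • (ff k : VV m F) := by
  simp only [nnp, act_mul, tS_ee_ee, tS_ff_ee, act_sub, act_smul, tS_ee_ff]
  have : p⁻¹ • (ff k + p • ee k : VV m F) = p⁻¹ • ff k + ee k := by
    rw [smul_add, smul_smul, inv_mul_cancel₀ hp, one_smul]
  rw [this]
  module

lemma nnp_ff (k : Fin m) {p : F} (hp : p ≠ 0) : nnp k p ⋆ ff k = p • (ee k : VV m F) := by
  simp only [nnp, act_mul, tS_ee_ee, tS_ff_ee, tS_ff_ff, act_add, act_sub, act_smul, tS_ee_ff]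
  have e1 : p⁻¹ • (ff k + p • ee k : VV m F) = p⁻¹ • ff k + ee k := by
    rw [smul_add, smul_smul, inv_mul_cancel₀ hp, one_smul]
  rw [e1, smul_sub, smul_add, smul_smul, mul_inv_cancel₀ hp, one_smul]
  module

lemma hh_ee (k : Fin m) {p : F} (hp : p ≠ 0) : hh k p ⋆ ee k = p • (ee k : VV m F) := by
  rw [hh, act_mul, nn_inv_ee, nnp_ff k hp]

lemma hh_ff (k : Fin m) {p : F} (hp : p ≠ 0) : hh k p ⋆ ff k = p⁻¹ • (ff k : VV m F) := by
  rw [hh, act_mul, nn_inv_ff, act_neg, nnp_ee k hp]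
  simp

lemma nn_mem {T : Set (Fin m)} {k : Fin m} (hk : k ∈ T) : (nn k : Spg m F) ∈ Fx T :=
  (Fx T).mul_mem ((Fx T).mul_mem (tS_mem (Sup_ee hk) _) (tS_mem (Sup_ff hk) _)) (tS_mem (Sup_ee hk) _)

lemma nnp_mem {T : Set (Fin m)} {k : Fin m} (hk : k ∈ T) (p : F) : (nnp k p : Spg m F) ∈ Fx T :=
  (Fx T).mul_mem ((Fx T).mul_mem (tS_mem (Sup_ee hk) _) (tS_mem (Sup_ff hk) _)) (tS_mem (Sup_ee hk) _)

lemma hh_mem {T : Set (Fin m)} {k : Fin m} (hk : k ∈ T) (p : F) : (hh k p : Spg m F) ∈ Fx T :=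
  (Fx T).mul_mem (nnp_mem hk p) ((Fx T).inv_mem (nn_mem hk))

lemma fx_ne {T : Set (Fin m)} {g : Spg m F} (hg : g ∈ Fx T) {k j : Fin m} (hk : k ∉ T) (_ : j ≠ k) :
    g ⋆ ee k = ee k ∧ g ⋆ ff k = ff k := hg k hk

lemma nn_ee_ne {j k : Fin m} (h : j ≠ k) : (nn k : Spg m F) ⋆ ee j = ee j :=
  Fx.ee (nn_mem (T := {k}) rfl) (by simpa using h)

lemma nn_ff_ne {j k : Fin m} (h : j ≠ k) : (nn k : Spg m F) ⋆ ff j = ff j :=
  Fx.ff (nn_mem (T := {k}) rfl) (by simpa using h)

lemma hh_ee_ne {j k : Fin m} (h : j ≠ k) (p : F) : (hh k p : Spg m F) ⋆ ee j = ee j :=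
  Fx.ee (hh_mem (T := {k}) rfl p) (by simpa using h)

lemma hh_ff_ne {j k : Fin m} (h : j ≠ k) (p : F) : (hh k p : Spg m F) ⋆ ff j = ff j :=
  Fx.ff (hh_mem (T := {k}) rfl p) (by simpa using h)

lemma ee_ne_zero (k : Fin m) : (ee k : VV m F) ≠ 0 := by
  intro h
  have := fm_ff_ee_self (F := F) k
  rw [fm_anti (ee k) (ff k), h, fm_zero_left] at this
  simp at this

lemma ff_ne_zero (k : Fin m) : (ff k : VV m F) ≠ 0 := by
  intro h
  have := fm_ff_ee_self (F := F) k
  rw [h, fm_zero_left] at this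
  simp at this

lemma ee_ne_ee {j k : Fin m} (h : j ≠ k) : (ee j : VV m F) ≠ ee k := by
  intro e
  have h1 := fm_ee_ff_self (F := F) j
  rw [e, fm_ee_ff_ne (Ne.symm h)] at h1
  simp at h1

/-! ### The plane subgroup -/

/-- The subgroup generated by the two root subgroups of the plane `k`. -/
def Sgen (k : Fin m) : Subgroup (Spg m F) :=
  Subgroup.closure (Set.range (tS (ee k)) ∪ Set.range (tS (ff k)))

lemma tS_ee_mem_Sgen (k : Fin m) (c : F) : tS (ee k) c ∈ (Sgen k : Subgroup (Spg m F)) :=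
  Subgroup.subset_closure (Or.inl ⟨c, rfl⟩)

lemma tS_ff_mem_Sgen (k : Fin m) (c : F) : tS (ff k) c ∈ (Sgen k : Subgroup (Spg m F)) :=
  Subgroup.subset_closure (Or.inr ⟨c, rfl⟩)

lemma nn_mem_Sgen (k : Fin m) : (nn k : Spg m F) ∈ Sgen k :=
  (Sgen k).mul_mem ((Sgen k).mul_mem (tS_ee_mem_Sgen k _) (tS_ff_mem_Sgen k _)) (tS_ee_mem_Sgen k _)

/-- Transitivity on the plane. -/
lemma plane_trans (k : Fin m) {x : VV m F} (hx : Sup ({k} : Set (Fin m)) x) (hx0 : x ≠ 0) :
    ∃ g ∈ (Sgen k : Subgroup (Spg m F)), g ⋆ ee k = x := by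
  set α := -fm x (ff k) with hα
  set β := fm x (ee k) with hβ
  have hxe : x = α • ee k + β • ff k := split_single hx
  have key : ∀ (α β : F), β ≠ 0 → ∃ g ∈ (Sgen k : Subgroup (Spg m F)), g ⋆ ee k = α • ee k + β • ff k := by
    intro α β hβ
    refine ⟨tS (ee k) ((α - 1) / β) * tS (ff k) (-β), (Sgen k).mul_mem (tS_ee_mem_Sgen k _) (tS_ff_mem_Sgen k _), ?_⟩
    simp only [act_mul, tS_ff_ee, act_sub, act_smul, tS_ee_ee, tS_ee_ff]
    have e : (1 - β * ((α - 1) / β) : F) = 2 - α := by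
      field_simp
      ring
    have e2 : (-β) • (ff k + ((α - 1) / β) • ee k : VV m F) = (-β) • ff k + (1 - α) • ee k := by
      rw [smul_add, smul_smul]
      congr 2
      field_simp
      ring
    rw [e2]
    module
  by_cases hβ0 : β = 0
  · have hα0 : α ≠ 0 := by
      intro h0
      apply hx0
      rw [hxe, h0, hβ0]
      simp
    obtain ⟨g, hg, e⟩ := key 0 α hα0
    refine ⟨nn k * g, (Sgen k).mul_mem (nn_mem_Sgen k) hg, ?_⟩
    rw [act_mul, e, hxe, hβ0]
    simp [act_add, act_smul, nn_ff, act_zero]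
  · rw [hxe]
    exact key α β hβ0

/-- The stabilizer of `e_k` in the plane subgroup. -/
lemma plane_stab {k : Fin m} {g : Spg m F} (hg : g ∈ Fx ({k} : Set (Fin m))) (he : g ⋆ ee k = ee k) :
    ∃ c : F, g = tS (ee k) c := by
  have hS : Sup ({k} : Set (Fin m)) (g ⋆ ff k) := Fx.pres hg (Sup_ff rfl)
  have h1 : fm (g ⋆ ff k) (ee k) = 1 := by
    have := fm_act g (ff k) (ee k)
    rwa [he, fm_ff_ee_self] at this
  have h2 := split_single hS
  rw [h1] at h2
  refine ⟨-fm (g ⋆ ff k) (ff k), ?_⟩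
  apply sp_ext_basis
  · intro j
    by_cases hj : j = k
    · subst hj
      rw [he, tS_ee_ee]
    · rw [Fx.ee hg (by simpa using hj), Fx.ee (tS_mem (T := {k}) (Sup_ee rfl) _) (by simpa using hj)]
  · intro j
    by_cases hj : j = k
    · subst hj
      rw [tS_ee_ff]
      conv_lhs => rw [h2]
      rw [one_smul, add_comm]
    · rw [Fx.ff hg (by simpa using hj), Fx.ff (tS_mem (T := {k}) (Sup_ee rfl) _) (by simpa using hj)]

lemma act_ne_zero (g : Spg m F) {x : VV m F} (hx : x ≠ 0) : g ⋆ x ≠ 0 := by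
  intro h
  apply hx
  have := congrArg (fun z => g⁻¹ ⋆ z) h
  simpa [inv_act_act, act_zero] using this

/-- The plane subgroup is generated by its two root subgroups. -/
lemma Fx_single_le_Sgen (k : Fin m) : (Fx ({k} : Set (Fin m)) : Subgroup (Spg m F)) ≤ Sgen k := by
  intro g hg
  obtain ⟨ρ, hρ, e⟩ := plane_trans k (Fx.pres hg (Sup_ee rfl)) (act_ne_zero g (ee_ne_zero k))
  have hρ' : ρ ∈ Fx ({k} : Set (Fin m)) := by
    have : (Sgen k : Subgroup (Spg m F)) ≤ Fx ({k} : Set (Fin m)) := by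
      rw [Sgen, Subgroup.closure_le]
      rintro _ (⟨c, rfl⟩ | ⟨c, rfl⟩)
      · exact tS_mem (Sup_ee (Set.mem_singleton k)) c
      · exact tS_mem (Sup_ff (Set.mem_singleton k)) c
    exact this hρ
  obtain ⟨c, hc⟩ := plane_stab (g := ρ⁻¹ * g) ((Fx _).mul_mem ((Fx _).inv_mem hρ') hg) (by
    rw [act_mul, ← e, inv_act_act])
  have : g = ρ * tS (ee k) c := by
    rw [← hc]
    group
  rw [this]
  exact (Sgen k).mul_mem hρ (tS_ee_mem_Sgen k c)

lemma Sgen_le_Fx (k : Fin m) : (Sgen k : Subgroup (Spg m F)) ≤ Fx ({k} : Set (Fin m)) := by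
  rw [Sgen, Subgroup.closure_le]
  rintro _ (⟨c, rfl⟩ | ⟨c, rfl⟩)
  · exact tS_mem (Sup_ee (Set.mem_singleton k)) c
  · exact tS_mem (Sup_ff (Set.mem_singleton k)) c

/-- Every element of the plane subgroup is a product of root elements (induction). -/
lemma Fx_single_closure (k : Fin m) : (Fx ({k} : Set (Fin m)) : Subgroup (Spg m F)) = Sgen k :=
  le_antisymm (Fx_single_le_Sgen k) (Sgen_le_Fx k)

/-! ### Stabilizers -/

/-- The decomposition of a stabilizer of `e_a`. -/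
lemma decomp {T' : Set (Fin m)} {a : Fin m} (ha : a ∉ T') {r : Spg m F} (hr : r ∈ Fx (insert a T'))
    (hra : r ⋆ ee a = ee a) :
    ∃ (u : VV m F) (c : F) (g : Spg m F), Sup T' u ∧ g ∈ Fx T' ∧ r = xS (ee a) u 1 * tS (ee a) c * g := by
  classical
  set w : VV m F := r ⋆ ff a with hw
  have hw1 : Sup (insert a T') w := Fx.pres hr (Sup_ff (Set.mem_insert _ _))
  have hw2 : fm w (ee a) = 1 := by
    have := fm_act r (ff a) (ee a)
    rwa [hra, fm_ff_ee_self] at this
  set c : F := -fm w (ff a) with hc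
  set u : VV m F := w - c • ee a - (fm w (ee a)) • ff a with hu
  have hus : Sup T' u := split_a hw1
  have hea : fm (ee a) u = 0 := hus.ee_left ha
  have hfa : fm (ff a) u = 0 := hus.ff_left ha
  have hua : fm u (ee a) = 0 := (hus a ha).1
  have hq : ∀ j, j ∉ insert a T' → (xS (ee a) u 1 * tS (ee a) c) ⋆ ee j = ee j ∧
      (xS (ee a) u 1 * tS (ee a) c) ⋆ ff j = ff j := by
    have h1 : Sup (insert a T') (ee a : VV m F) := Sup_ee (Set.mem_insert _ _)
    have h2 : Sup (insert a T') u := hus.mono (Set.subset_insert _ _)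
    exact (Fx _).mul_mem (xS_mem h1 h2 _) (tS_mem h1 _)
  have hqe : (xS (ee a) u 1 * tS (ee a) c) ⋆ ee a = ee a := by
    rw [act_mul, tS_ee_ee, xS_act hea, fm_self, hea]
    simp
  have hqf : (xS (ee a) u 1 * tS (ee a) c) ⋆ ff a = w := by
    rw [act_mul, tS_ee_ff, xS_act hea]
    simp only [fm_add_left, fm_smul_left, fm_self, fm_ff_ee_self, hfa, hea]
    rw [hu, hw2]
    module
  refine ⟨u, c, (xS (ee a) u 1 * tS (ee a) c)⁻¹ * r, hus, ?_, ?_⟩
  · intro j hj
    by_cases hja : j = a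
    · subst hja
      rw [act_mul, act_mul, hra, ← hw]
      constructor
      · rw [act_eq_inv_iff, hqe]
      · rw [act_eq_inv_iff, hqf]
    · have hj' : j ∉ insert a T' := by simp [hja, hj]
      rw [act_mul, act_mul, (hr j hj').1, (hr j hj').2]
      constructor
      · rw [act_eq_inv_iff, (hq j hj').1]
      · rw [act_eq_inv_iff, (hq j hj').2]
  · group

/-! ### The rank 2 radical -/

/-- The radical attached to `a, b`. -/
def Mg (a b : Fin m) : Subgroup (Spg m F) where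
  carrier := {g | g ∈ Fx ({a, b} : Set (Fin m)) ∧ ∀ k, g ⋆ ee k = ee k}
  mul_mem' := by
    intro x y hx hy
    refine ⟨(Fx _).mul_mem hx.1 hy.1, fun k => ?_⟩
    rw [act_mul, hy.2, hx.2]
  one_mem' := ⟨(Fx _).one_mem, fun k => act_one _⟩
  inv_mem' := by
    intro x hx
    refine ⟨(Fx _).inv_mem hx.1, fun k => ?_⟩
    rw [act_eq_inv_iff, hx.2]

lemma mem_Mg {a b : Fin m} {g : Spg m F} :
    g ∈ Mg a b ↔ g ∈ Fx ({a, b} : Set (Fin m)) ∧ ∀ k, g ⋆ ee k = ee k := Iff.rfl

lemma Mg_symm (a b : Fin m) : (Mg a b : Subgroup (Spg m F)) = Mg b a := by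
  ext g
  simp only [mem_Mg, Set.pair_comm a b]

/-- Vectors with no `f`-part are orthogonal. -/
lemma fm_isotropic {u v : VV m F} (hu : ∀ j, fm u (ee j) = 0) (hv : ∀ j, fm v (ee j) = 0) : fm u v = 0 := by
  simp only [fm]
  rw [sympForm_eq_sum]
  refine Finset.sum_eq_zero fun k _ => ?_
  have h1 := hu k
  have h2 := hv k
  rw [fm_ee] at h1 h2
  simp [h1, h2]

/-- An element fixing all `e_k` fixes all vectors with no `f`-part. -/
lemma fix_isotropic {g : Spg m F} (hg : ∀ k, g ⋆ ee k = ee k) {z : VV m F} (hz : ∀ j, fm z (ee j) = 0) :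
    g ⋆ z = z := by
  have hg' : ∀ k, g⁻¹ ⋆ ee k = ee k := fun k => by rw [act_eq_inv_iff, hg]
  apply vec_ext
  · intro k
    conv_lhs => rw [← hg k]
    rw [fm_act]
  · intro k
    have e : fm (g ⋆ z) (ff k) = fm z (g⁻¹ ⋆ ff k) := by
      rw [← fm_act g z (g⁻¹ ⋆ ff k), act_inv_act]
    rw [e]
    have hε : ∀ j, fm (g⁻¹ ⋆ ff k - ff k) (ee j) = 0 := by
      intro j
      rw [fm_sub_left]
      conv_lhs => rw [← hg' j, fm_act]
      rw [hg', sub_self]
    have := fm_isotropic hz hε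
    rw [fm_sub_right, sub_eq_zero] at this
    exact this

/-- Any two elements fixing all `e_k` commute. -/
lemma comm_of_fix_ee {x y : Spg m F} (hx : ∀ k, x ⋆ ee k = ee k) (hy : ∀ k, y ⋆ ee k = ee k) :
    x * y = y * x := by
  have hε : ∀ (g : Spg m F), (∀ k, g ⋆ ee k = ee k) → ∀ k j, fm (g ⋆ ff k - ff k) (ee j) = 0 := by
    intro g hg k j
    rw [fm_sub_left]
    conv_lhs => rw [← hg j, fm_act]
    rw [hg, sub_self]
  apply sp_ext_basis
  · intro k
    rw [act_mul, act_mul, hy, hx, hy]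
  · intro k
    have e1 : y ⋆ ff k = ff k + (y ⋆ ff k - ff k) := by abel
    have e2 : x ⋆ ff k = ff k + (x ⋆ ff k - ff k) := by abel
    rw [act_mul, act_mul]
    conv_lhs => rw [e1, act_add, fix_isotropic hx (hε y hy k)]
    conv_rhs => rw [e2, act_add, fix_isotropic hy (hε x hx k)]
    abel

lemma Mg_comm {a b c d : Fin m} {x y : Spg m F} (hx : x ∈ Mg a b) (hy : y ∈ Mg c d) : x * y = y * x :=
  comm_of_fix_ee hx.2 hy.2

lemma Mg_le_L (a b : Fin m) : (Mg a b : Subgroup (Spg m F)) ≤ Fx ({a, b} : Set (Fin m)) := fun _ h => h.1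

lemma tS_ee_mem_Mg_left (a b : Fin m) (c : F) : tS (ee a) c ∈ (Mg a b : Subgroup (Spg m F)) := by
  refine ⟨tS_mem (Sup_ee (by simp)) c, fun k => ?_⟩
  rw [tS_act, fm_ee_ee]
  simp

lemma tS_ee_mem_Mg_right (a b : Fin m) (c : F) : tS (ee b) c ∈ (Mg a b : Subgroup (Spg m F)) := by
  refine ⟨tS_mem (Sup_ee (by simp)) c, fun k => ?_⟩
  rw [tS_act, fm_ee_ee]
  simp

lemma xS_ee_mem_Mg (a b : Fin m) (c : F) : xS (ee a) (ee b) c ∈ (Mg a b : Subgroup (Spg m F)) := by
  refine ⟨xS_mem (Sup_ee (by simp)) (Sup_ee (by simp)) c, fun k => ?_⟩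
  rw [xS_act (fm_ee_ee a b), fm_ee_ee, fm_ee_ee]
  simp

end Cfsg.Agent.Lib.SpAm.Model
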