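import Cfsg.Agent.Lib.SpAm.Model

/-!
# Rank 2: the group level
-/

set_option autoImplicit false

namespace Cfsg.Agent.Lib.SpAm.Rank2G

open Cfsg.Agent.Lib.SpAm.Model

variable {m : ℕ} {F : Type*} [Field F]

/-- `E(e_a, c e_b)`. -/
def yy (a b : Fin m) (c : F) : Spg m F := xS (ee a) (ee b) c

/-- `E(e_a, c f_b)`. -/
def xp (a b : Fin m) (c : F) : Spg m F := xS (ee a) (ff b) c

/-- `E(f_a, c e_b)`. -/
def xm (a b : Fin m) (c : F) : Spg m F := xS (ff a) (ee b) c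

/-- The Weyl element swapping the planes. -/
def ww (a b : Fin m) : Spg m F := xp a b 1 * xm a b (-1) * xp a b 1

section basis

variable {a b : Fin m} (hab : a ≠ b)
include hab

lemma orth_p : fm (ee a : VV m F) (ff b) = 0 := fm_ee_ff_ne hab

lemma orth_p' : fm (ff b : VV m F) (ee a) = 0 := fm_ff_ee_ne hab.symm

lemma orth_m : fm (ff a : VV m F) (ee b) = 0 := fm_ff_ee_ne hab

lemma orth_m' : fm (ee b : VV m F) (ff a) = 0 := fm_ee_ff_ne hab.symm

lemma xp_ee_a (c : F) : xp a b c ⋆ ee a = ee a := by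
  rw [xp, xS_act (orth_p hab), fm_self, orth_p hab]
  simp

lemma xp_ee_b (c : F) : xp a b c ⋆ ee b = ee b - c • ee a := by
  rw [xp, xS_act (orth_p hab), fm_ee_ee, fm_ee_ff_self]
  simp [sub_eq_add_neg]

lemma xp_ff_a (c : F) : xp a b c ⋆ ff a = ff a + c • ff b := by
  rw [xp, xS_act (orth_p hab), fm_ff_ee_self, fm_ff_ff]
  simp

lemma xp_ff_b (c : F) : xp a b c ⋆ ff b = ff b := by
  rw [xp, xS_act (orth_p hab), orth_p' hab, fm_self]
  simp

lemma xm_ee_a (c : F) : xm a b c ⋆ ee a = ee a - c • ee b := by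
  rw [xm, xS_act (orth_m hab), fm_ee_ff_self, fm_ee_ee]
  simp [sub_eq_add_neg]

lemma xm_ee_b (c : F) : xm a b c ⋆ ee b = ee b := by
  rw [xm, xS_act (orth_m hab), fm_self, orth_m' hab]
  simp

lemma xm_ff_a (c : F) : xm a b c ⋆ ff a = ff a := by
  rw [xm, xS_act (orth_m hab), fm_self, orth_m hab]
  simp

lemma xm_ff_b (c : F) : xm a b c ⋆ ff b = ff b + c • ff a := by
  rw [xm, xS_act (orth_m hab), fm_ff_ff, fm_ff_ee_self]
  simp

lemma yy_ff_a (c : F) : yy a b c ⋆ ff a = ff a + c • ee b := by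
  rw [yy, xS_act (fm_ee_ee a b), fm_ff_ee_self, orth_m hab]
  simp

lemma yy_ff_b (c : F) : yy a b c ⋆ ff b = ff b + c • ee a := by
  rw [yy, xS_act (fm_ee_ee a b), orth_p' hab, fm_ff_ee_self]
  simp

lemma ww_ee_a : ww a b ⋆ ee a = (ee b : VV m F) := by
  simp only [ww, act_mul, xp_ee_a hab, xm_ee_a hab, act_sub, act_smul, xp_ee_b hab]
  module

lemma ww_ee_b : ww a b ⋆ ee b = -(ee a : VV m F) := by
  simp only [ww, act_mul, xp_ee_a hab, xp_ee_b hab, xm_ee_a hab, xm_ee_b hab, act_sub, act_smul]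
  module

lemma ww_ff_a : ww a b ⋆ ff a = (ff b : VV m F) := by
  simp only [ww, act_mul, xp_ff_a hab, xp_ff_b hab, xm_ff_a hab, xm_ff_b hab, act_add, act_smul]
  module

lemma ww_ff_b : ww a b ⋆ ff b = -(ff a : VV m F) := by
  simp only [ww, act_mul, xp_ff_a hab, xp_ff_b hab, xm_ff_a hab, xm_ff_b hab, act_add, act_smul]
  module

lemma ww_inv_ee_a : (ww a b)⁻¹ ⋆ ee a = -(ee b : VV m F) := by
  rw [act_eq_inv_iff, act_neg, ww_ee_b hab, neg_neg]

lemma ww_inv_ee_b : (ww a b)⁻¹ ⋆ ee b = (ee a : VV m F) := by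
  rw [act_eq_inv_iff, ww_ee_a hab]

lemma ww_inv_ff_a : (ww a b)⁻¹ ⋆ ff a = -(ff b : VV m F) := by
  rw [act_eq_inv_iff, act_neg, ww_ff_b hab, neg_neg]

lemma ww_inv_ff_b : (ww a b)⁻¹ ⋆ ff b = (ff a : VV m F) := by
  rw [act_eq_inv_iff, ww_ff_a hab]

end basis

lemma mem_pair_left (a b : Fin m) : a ∈ ({a, b} : Set (Fin m)) := by simp

lemma mem_pair_right (a b : Fin m) : b ∈ ({a, b} : Set (Fin m)) := by simp

lemma xp_mem (a b : Fin m) (c : F) : xp a b c ∈ (Fx ({a, b} : Set (Fin m)) : Subgroup (Spg m F)) :=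
  xS_mem (Sup_ee (mem_pair_left a b)) (Sup_ff (mem_pair_right a b)) c

lemma xm_mem (a b : Fin m) (c : F) : xm a b c ∈ (Fx ({a, b} : Set (Fin m)) : Subgroup (Spg m F)) :=
  xS_mem (Sup_ff (mem_pair_left a b)) (Sup_ee (mem_pair_right a b)) c

lemma yy_mem (a b : Fin m) (c : F) : yy a b c ∈ (Fx ({a, b} : Set (Fin m)) : Subgroup (Spg m F)) :=
  xS_mem (Sup_ee (mem_pair_left a b)) (Sup_ee (mem_pair_right a b)) c

lemma ww_mem (a b : Fin m) : (ww a b : Spg m F) ∈ (Fx ({a, b} : Set (Fin m)) : Subgroup (Spg m F)) :=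
  (Fx _).mul_mem ((Fx _).mul_mem (xp_mem a b _) (xm_mem a b _)) (xp_mem a b _)

lemma yy_mem_Mg (a b : Fin m) (c : F) : yy a b c ∈ (Mg a b : Subgroup (Spg m F)) := xS_ee_mem_Mg a b c

/-- Equality in the rank 2 Levi from the action on four vectors. -/
lemma L_ext {a b : Fin m} {g h : Spg m F} (hg : g ∈ Fx ({a, b} : Set (Fin m))) (hh : h ∈ Fx ({a, b} : Set (Fin m)))
    (h1 : g ⋆ ee a = h ⋆ ee a) (h2 : g ⋆ ee b = h ⋆ ee b) (h3 : g ⋆ ff a = h ⋆ ff a) (h4 : g ⋆ ff b = h ⋆ ff b) :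
    g = h := by
  apply sp_ext_basis
  · intro k
    by_cases hk : k ∈ ({a, b} : Set (Fin m))
    · rcases hk with rfl | hk
      · exact h1
      · rw [Set.mem_singleton_iff] at hk
        subst hk
        exact h2
    · rw [Fx.ee hg hk, Fx.ee hh hk]
  · intro k
    by_cases hk : k ∈ ({a, b} : Set (Fin m))
    · rcases hk with rfl | hk
      · exact h3
      · rw [Set.mem_singleton_iff] at hk
        subst hk
        exact h4
    · rw [Fx.ff hg hk, Fx.ff hh hk]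

section conj

variable {a b : Fin m} (hab : a ≠ b)
include hab

lemma ww_alt : xm a b (-1) * xp a b 1 * xm a b (-1) = (ww a b : Spg m F) := by
  have hm : xm a b (-1) * xp a b 1 * xm a b (-1) ∈ (Fx ({a, b} : Set (Fin m)) : Subgroup (Spg m F)) :=
    (Fx _).mul_mem ((Fx _).mul_mem (xm_mem a b _) (xp_mem a b _)) (xm_mem a b _)
  apply L_ext hm (ww_mem a b)
  · rw [ww_ee_a hab]
    simp only [act_mul, xm_ee_a hab, xm_ee_b hab, xp_ee_a hab, xp_ee_b hab, act_sub, act_smul]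
    module
  · rw [ww_ee_b hab]
    simp only [act_mul, xm_ee_a hab, xm_ee_b hab, xp_ee_a hab, xp_ee_b hab, act_sub, act_smul]
    module
  · rw [ww_ff_a hab]
    simp only [act_mul, xm_ff_a hab, xm_ff_b hab, xp_ff_a hab, xp_ff_b hab, act_add, act_smul]
    module
  · rw [ww_ff_b hab]
    simp only [act_mul, xm_ff_a hab, xm_ff_b hab, xp_ff_a hab, xp_ff_b hab, act_add, act_smul]
    module

lemma nn_b_yy (c : F) : nn b * yy a b c * (nn b)⁻¹ = xp a b (-c) := by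
  rw [yy, xS_conj, nn_ee_ne hab, nn_ee, xS_neg_right (orth_p hab), xp]

lemma nn_a_yy (c : F) : nn a * yy a b c * (nn a)⁻¹ = xm a b (-c) := by
  rw [yy, xS_conj, nn_ee_ne hab.symm, nn_ee, xS_neg_left (orth_m hab), xm]

lemma nn_a_inv_yy (c : F) : (nn a)⁻¹ * yy a b c * nn a = xm a b c := by
  rw [yy, xS_conj', nn_inv_ee, xm]
  congr 1
  rw [act_eq_inv_iff, nn_ee_ne hab.symm]

lemma nn_b_inv_yy (c : F) : (nn b)⁻¹ * yy a b c * nn b = xp a b c := by
  rw [yy, xS_conj', nn_inv_ee, xp]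
  congr 1
  rw [act_eq_inv_iff, nn_ee_ne hab]

lemma ww_tS_ee_a (c : F) : ww a b * tS (ee a) c * (ww a b)⁻¹ = tS (ee b) c := by
  rw [tS_conj, ww_ee_a hab]

lemma ww_tS_ee_b (c : F) : ww a b * tS (ee b) c * (ww a b)⁻¹ = tS (ee a) c := by
  rw [tS_conj, ww_ee_b hab, tS_neg_vec]

lemma ww_tS_ff_a (c : F) : ww a b * tS (ff a) c * (ww a b)⁻¹ = tS (ff b) c := by
  rw [tS_conj, ww_ff_a hab]

lemma ww_tS_ff_b (c : F) : ww a b * tS (ff b) c * (ww a b)⁻¹ = tS (ff a) c := by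
  rw [tS_conj, ww_ff_b hab, tS_neg_vec]

lemma ww_nn_b : ww a b * nn b * (ww a b)⁻¹ = (nn a : Spg m F) := by
  have e : (ww a b * nn b * (ww a b)⁻¹ : Spg m F) = (ww a b * tS (ee b) 1 * (ww a b)⁻¹) *
      (ww a b * tS (ff b) 1 * (ww a b)⁻¹) * (ww a b * tS (ee b) 1 * (ww a b)⁻¹) := by
    simp only [nn]
    group
  rw [e, ww_tS_ee_b hab, ww_tS_ff_b hab, nn]

lemma ww_xm (c : F) : ww a b * xm a b c * (ww a b)⁻¹ = xp a b (-c) := by
  rw [xm, xS_conj, ww_ff_a hab, ww_ee_b hab, xS_neg_right (orth_p' hab), xS_symm (orth_p' hab), xp]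

lemma ww_xp (c : F) : ww a b * xp a b c * (ww a b)⁻¹ = xm a b (-c) := by
  rw [xp, xS_conj, ww_ee_a hab, ww_ff_b hab, xS_neg_right (orth_m' hab), xS_symm (orth_m' hab), xm]

lemma ww_inv_yy_t (κ c : F) : (ww a b)⁻¹ * (yy a b κ * tS (ee a) c) * ww a b = yy a b (-κ) * tS (ee b) c := by
  have e : ((ww a b)⁻¹ * (yy a b κ * tS (ee a) c) * ww a b : Spg m F) =
      ((ww a b)⁻¹ * yy a b κ * ww a b) * ((ww a b)⁻¹ * tS (ee a) c * ww a b) := by group
  rw [e, yy, xS_conj', tS_conj', ww_inv_ee_a hab, ww_inv_ee_b hab, tS_neg_vec, xS_neg_left (fm_ee_ee b a),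
    xS_symm (fm_ee_ee b a), yy]

lemma hh_xp {p : F} (hp : p ≠ 0) (c : F) : hh a p * xp a b c * (hh a p)⁻¹ = xp a b (p * c) := by
  rw [xp, xS_conj, hh_ee a hp, hh_ff_ne hab.symm, xS_smul_left (orth_p hab), xp]

lemma hh_yy {p : F} (hp : p ≠ 0) (c : F) : hh a p * yy a b c * (hh a p)⁻¹ = yy a b (p * c) := by
  rw [yy, xS_conj, hh_ee a hp, hh_ee_ne hab.symm, xS_smul_left (fm_ee_ee a b), yy]

lemma hh_xm {p : F} (hp : p ≠ 0) (c : F) : hh a p * xm a b c * (hh a p)⁻¹ = xm a b (p⁻¹ * c) := by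
  rw [xm, xS_conj, hh_ff a hp, hh_ee_ne hab.symm, xS_smul_left (orth_m hab), xm]

end conj

lemma nn_sq_ee (k : Fin m) : (nn k * nn k : Spg m F) ⋆ ee k = -ee k := by
  rw [act_mul, nn_ee, act_neg, nn_ff]

lemma nn_sq_ff (k : Fin m) : (nn k * nn k : Spg m F) ⋆ ff k = -ff k := by
  rw [act_mul, nn_ff, nn_ee]

lemma nn_pow_four (k : Fin m) : (nn k : Spg m F) ^ 4 = 1 := by
  have hmem : (nn k : Spg m F) ∈ Fx ({k} : Set (Fin m)) := nn_mem (Set.mem_singleton k)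
  have e : (nn k : Spg m F) ^ 4 = (nn k * nn k) * (nn k * nn k) := by
    simp only [pow_succ, pow_zero, one_mul, mul_assoc]
  rw [e]
  apply sp_ext_basis
  · intro j
    by_cases hj : j = k
    · subst hj
      rw [act_mul, nn_sq_ee, act_neg, nn_sq_ee, neg_neg, act_one]
    · have h1 : ∀ g ∈ (Fx ({k} : Set (Fin m)) : Subgroup (Spg m F)), g ⋆ ee j = ee j :=
        fun g hg => Fx.ee hg (by simpa using hj)
      rw [h1 _ ((Fx _).mul_mem ((Fx _).mul_mem hmem hmem) ((Fx _).mul_mem hmem hmem)), act_one]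
  · intro j
    by_cases hj : j = k
    · subst hj
      rw [act_mul, nn_sq_ff, act_neg, nn_sq_ff, neg_neg, act_one]
    · have h1 : ∀ g ∈ (Fx ({k} : Set (Fin m)) : Subgroup (Spg m F)), g ⋆ ff j = ff j :=
        fun g hg => Fx.ff hg (by simpa using hj)
      rw [h1 _ ((Fx _).mul_mem ((Fx _).mul_mem hmem hmem) ((Fx _).mul_mem hmem hmem)), act_one]

/-- The stabilizer of `e_a` in the Levi. -/
def StabL (a b : Fin m) : Subgroup (Spg m F) where
  carrier := {g | g ∈ Fx ({a, b} : Set (Fin m)) ∧ g ⋆ ee a = ee a}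
  mul_mem' := by
    intro x y hx hy
    refine ⟨(Fx _).mul_mem hx.1 hy.1, ?_⟩
    rw [act_mul, hy.2, hx.2]
  one_mem' := ⟨(Fx _).one_mem, act_one _⟩
  inv_mem' := by
    intro x hx
    refine ⟨(Fx _).inv_mem hx.1, ?_⟩
    rw [act_eq_inv_iff, hx.2]

lemma Fx_single_le_pair_left (a b : Fin m) :
    (Fx ({a} : Set (Fin m)) : Subgroup (Spg m F)) ≤ Fx ({a, b} : Set (Fin m)) :=
  Fx_mono (by simp)

lemma Fx_single_le_pair_right (a b : Fin m) :
    (Fx ({b} : Set (Fin m)) : Subgroup (Spg m F)) ≤ Fx ({a, b} : Set (Fin m)) :=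
  Fx_mono (by simp)

lemma disjoint_single {a b : Fin m} (hab : a ≠ b) : Disjoint ({a} : Set (Fin m)) {b} := by
  simpa using hab

/-- `E(e_a, u)` for `u` in the orbit of `e_b`. -/
lemma exists_conj_yy {a b : Fin m} (hab : a ≠ b) {u : VV m F} (hu : Sup ({b} : Set (Fin m)) u) :
    ∃ (g : Spg m F) (κ : F), g ∈ Fx ({b} : Set (Fin m)) ∧ (κ = 0 ∨ κ = 1) ∧ xS (ee a) u 1 = g * yy a b κ * g⁻¹ := by
  by_cases hu0 : u = 0
  · subst hu0
    refine ⟨1, 0, (Fx _).one_mem, Or.inl rfl, ?_⟩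
    rw [xS_zero_right, yy, xS_zero (fm_ee_ee a b)]
    simp
  · obtain ⟨g, hg, e⟩ := plane_trans b hu hu0
    have hg' := Sgen_le_Fx b hg
    refine ⟨g, 1, hg', Or.inr rfl, ?_⟩
    rw [yy, xS_conj, e, Fx.ee hg' (by simpa using hab)]

/-- The decomposition of the group `Gb`. -/
lemma Gb_decomp {a b : Fin m} (hab : a ≠ b) {r : Spg m F} (hr : r ∈ StabL a b) :
    ∃ (g₁ g₂ : Spg m F) (κ c : F), g₁ ∈ Fx ({b} : Set (Fin m)) ∧ g₂ ∈ Fx ({b} : Set (Fin m)) ∧ (κ = 0 ∨ κ = 1) ∧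
      r = g₁ * yy a b κ * tS (ee a) c * g₂ := by
  have ha : a ∉ ({b} : Set (Fin m)) := by simpa using hab
  obtain ⟨u, c, g, hu, hg, e⟩ := decomp ha hr.1 hr.2
  obtain ⟨g₁, κ, hg₁, hκ, e1⟩ := exists_conj_yy hab hu
  refine ⟨g₁, g₁⁻¹ * g, κ, c, hg₁, (Fx _).mul_mem ((Fx _).inv_mem hg₁) hg, hκ, ?_⟩
  have hcm : g₁⁻¹ * tS (ee a) c = tS (ee a) c * g₁⁻¹ :=
    Fx_comm (disjoint_single hab).symm ((Fx _).inv_mem hg₁) (tS_mem (T := {a}) (Sup_ee (Set.mem_singleton a)) c)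
  rw [e, e1]
  calc g₁ * yy a b κ * g₁⁻¹ * tS (ee a) c * g = g₁ * yy a b κ * (g₁⁻¹ * tS (ee a) c) * g := by group
    _ = _ := by rw [hcm]; group

lemma Gb_le_StabL {a b : Fin m} (hab : a ≠ b) : (Mg a b ⊔ Fx ({b} : Set (Fin m)) : Subgroup (Spg m F)) ≤ StabL a b := by
  rw [sup_le_iff]
  constructor
  · intro g hg
    exact ⟨hg.1, hg.2 a⟩
  · intro g hg
    exact ⟨Fx_single_le_pair_right a b hg, Fx.ee hg (by simpa using hab)⟩

lemma StabL_le_Gb {a b : Fin m} (hab : a ≠ b) : (StabL a b : Subgroup (Spg m F)) ≤ Mg a b ⊔ Fx ({b} : Set (Fin m)) := by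
  intro r hr
  obtain ⟨g₁, g₂, κ, c, h1, h2, _, e⟩ := Gb_decomp hab hr
  rw [e]
  have hl : ∀ {x : Spg m F}, x ∈ (Mg a b : Subgroup (Spg m F)) → x ∈ (Mg a b ⊔ Fx ({b} : Set (Fin m)) : Subgroup (Spg m F)) :=
    fun h => Subgroup.mem_sup_left h
  have hr' : ∀ {x : Spg m F}, x ∈ (Fx ({b} : Set (Fin m)) : Subgroup (Spg m F)) → x ∈ (Mg a b ⊔ Fx ({b} : Set (Fin m)) : Subgroup (Spg m F)) :=
    fun h => Subgroup.mem_sup_right h
  exact Subgroup.mul_mem _ (Subgroup.mul_mem _ (Subgroup.mul_mem _ (hr' h1) (hl (yy_mem_Mg a b κ)))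
    (hl (tS_ee_mem_Mg_left a b c))) (hr' h2)

lemma mem_Gb_iff {a b : Fin m} (hab : a ≠ b) {r : Spg m F} :
    r ∈ (Mg a b ⊔ Fx ({b} : Set (Fin m)) : Subgroup (Spg m F)) ↔ r ∈ Fx ({a, b} : Set (Fin m)) ∧ r ⋆ ee a = ee a :=
  ⟨fun h => Gb_le_StabL hab h, fun h => StabL_le_Gb hab h⟩

lemma mem_Ga_iff {a b : Fin m} (hab : a ≠ b) {r : Spg m F} :
    r ∈ (Mg a b ⊔ Fx ({a} : Set (Fin m)) : Subgroup (Spg m F)) ↔ r ∈ Fx ({a, b} : Set (Fin m)) ∧ r ⋆ ee b = ee b := by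
  have := mem_Gb_iff (F := F) hab.symm (r := r)
  rwa [Mg_symm b a, Set.pair_comm b a] at this

/-- An element of the plane `a` fixing `e_a` lies in the radical. -/
lemma mem_Mg_of_plane {a b : Fin m} {ℓ : Spg m F} (hℓ : ℓ ∈ Fx ({a} : Set (Fin m))) (he : ℓ ⋆ ee a = ee a) :
    ℓ ∈ (Mg a b : Subgroup (Spg m F)) := by
  refine ⟨Fx_single_le_pair_left a b hℓ, fun k => ?_⟩
  by_cases hk : k = a
  · subst hk
    exact he
  · exact Fx.ee hℓ (by simpa using hk)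

/-! ### Transitivity and generation -/

/-- The general step of transitivity. -/
lemma trans_step {T' : Set (Fin m)} {a b : Fin m} (hab : a ≠ b) (ha : a ∉ T') {K : Subgroup (Spg m F)}
    (hSa : (Fx ({a} : Set (Fin m)) : Subgroup (Spg m F)) ≤ K) (hm : xm a b (-1) ∈ K) (hp : xp a b 1 ∈ K)
    (ht : ∀ u : VV m F, Sup T' u → u ≠ 0 → ∃ g ∈ K, g ∈ Fx T' ∧ g ⋆ ee b = u)
    {v : VV m F} (hv : Sup (insert a T') v) (hv0 : v ≠ 0) : ∃ g ∈ K, g ⋆ ee a = v := by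
  set α : F := -fm v (ff a) with hα
  set β : F := fm v (ee a) with hβ
  set u : VV m F := v - α • ee a - β • ff a with hu
  have hus : Sup T' u := split_a hv
  set x : VV m F := α • ee a + β • ff a with hx
  have hvx : v = x + u := by
    rw [hu, hx]
    abel
  have hxs : Sup ({a} : Set (Fin m)) x :=
    (Sup.smul α (Sup_ee (Set.mem_singleton a))).add (Sup.smul β (Sup_ff (Set.mem_singleton a)))
  have hdis : Disjoint T' ({a} : Set (Fin m)) := by simpa using ha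
  by_cases hu0 : u = 0
  · have hx0 : x ≠ 0 := by
      intro h0
      apply hv0
      rw [hvx, h0, hu0, add_zero]
    obtain ⟨g, hg, e⟩ := plane_trans a hxs hx0
    refine ⟨g, hSa (Sgen_le_Fx a hg), ?_⟩
    rw [e, hvx, hu0, add_zero]
  · obtain ⟨g', hg'K, hg', e'⟩ := ht u hus hu0
    have hfix : g' ⋆ x = x := Fx.fix hdis hg' hxs
    by_cases hx0 : x = 0
    · refine ⟨g' * (xp a b 1 * xm a b (-1)), K.mul_mem hg'K (K.mul_mem hp hm), ?_⟩
      have e0 : xp a b 1 ⋆ (xm a b (-1) ⋆ ee a) = (ee b : VV m F) := by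
        rw [xm_ee_a hab, act_sub, act_smul, xp_ee_a hab, xp_ee_b hab]
        module
      rw [act_mul, act_mul, e0, e', hvx, hx0, zero_add]
    · obtain ⟨ℓ, hℓ, eℓ⟩ := plane_trans a hxs hx0
      have hℓ' := Sgen_le_Fx a hℓ
      refine ⟨g' * (ℓ * xm a b (-1)), K.mul_mem hg'K (K.mul_mem (hSa hℓ') hm), ?_⟩
      have hℓb : ℓ ⋆ ee b = ee b := Fx.ee hℓ' (by simpa using hab.symm)
      rw [act_mul, act_mul, xm_ee_a hab, act_sub, act_smul, hℓb, eℓ, hvx]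
      have : (x - (-1 : F) • ee b : VV m F) = x + ee b := by module
      rw [this, act_add, hfix, e']

/-- Generation from transitivity. -/
lemma gen_of_trans {T : Set (Fin m)} {a : Fin m} (ha : a ∈ T) {K : Subgroup (Spg m F)} (hKT : K ≤ Fx T)
    (hR : ∀ r ∈ (Fx T : Subgroup (Spg m F)), r ⋆ ee a = ee a → r ∈ K)
    (htr : ∀ v : VV m F, Sup T v → v ≠ 0 → ∃ g ∈ K, g ⋆ ee a = v) : (Fx T : Subgroup (Spg m F)) ≤ K := by
  intro g hg
  obtain ⟨ρ, hρ, e⟩ := htr (g ⋆ ee a) (Fx.pres hg (Sup_ee ha)) (act_ne_zero g (ee_ne_zero a))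
  have h := hR (ρ⁻¹ * g) ((Fx T).mul_mem ((Fx T).inv_mem (hKT hρ)) hg) (by rw [act_mul, ← e, inv_act_act])
  have e2 : g = ρ * (ρ⁻¹ * g) := by group
  rw [e2]
  exact K.mul_mem hρ h


/-! ### Further facts for the rank 2 argument -/

lemma xp_add {a b : Fin m} (hab : a ≠ b) (c d : F) : xp a b (c + d) = xp a b c * xp a b d :=
  xS_add (orth_p hab) c d

lemma xm_add {a b : Fin m} (hab : a ≠ b) (c d : F) : xm a b (c + d) = xm a b c * xm a b d :=
  xS_add (orth_m hab) c d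

lemma yy_add (a b : Fin m) (c d : F) : yy a b (c + d) = yy a b c * yy a b d :=
  xS_add (fm_ee_ee a b) c d

lemma xp_zero {a b : Fin m} (hab : a ≠ b) : xp a b (0 : F) = 1 := xS_zero (orth_p hab)

lemma xm_zero {a b : Fin m} (hab : a ≠ b) : xm a b (0 : F) = 1 := xS_zero (orth_m hab)

lemma yy_zero (a b : Fin m) : yy a b (0 : F) = 1 := xS_zero (fm_ee_ee a b)

lemma xp_neg {a b : Fin m} (hab : a ≠ b) (c : F) : xp a b (-c) = (xp a b c)⁻¹ := xS_neg (orth_p hab) c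

lemma xm_neg {a b : Fin m} (hab : a ≠ b) (c : F) : xm a b (-c) = (xm a b c)⁻¹ := xS_neg (orth_m hab) c

lemma yy_neg (a b : Fin m) (c : F) : yy a b (-c) = (yy a b c)⁻¹ := xS_neg (fm_ee_ee a b) c

/-- `xp` normalizes the radical. -/
lemma xp_norm {a b : Fin m} (hab : a ≠ b) (c : F) {g : Spg m F} (hg : g ∈ (Mg a b : Subgroup (Spg m F))) :
    xp a b c * g * (xp a b c)⁻¹ ∈ (Mg a b : Subgroup (Spg m F)) := by
  refine ⟨(Fx _).mul_mem ((Fx _).mul_mem (xp_mem a b c) hg.1) ((Fx _).inv_mem (xp_mem a b c)), fun k => ?_⟩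
  have hz : ∀ j, fm ((xp a b c)⁻¹ ⋆ ee k) (ee j) = (0 : F) := by
    intro j
    rw [← xp_neg hab, xp, xS_act (orth_p hab)]
    simp only [fm_add_left, fm_smul_left, fm_ee_ee]
    simp
  rw [act_mul, act_mul, fix_isotropic hg.2 hz, act_inv_act]

/-- `xm` normalizes the radical. -/
lemma xm_norm {a b : Fin m} (hab : a ≠ b) (c : F) {g : Spg m F} (hg : g ∈ (Mg a b : Subgroup (Spg m F))) :
    xm a b c * g * (xm a b c)⁻¹ ∈ (Mg a b : Subgroup (Spg m F)) := by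
  refine ⟨(Fx _).mul_mem ((Fx _).mul_mem (xm_mem a b c) hg.1) ((Fx _).inv_mem (xm_mem a b c)), fun k => ?_⟩
  have hz : ∀ j, fm ((xm a b c)⁻¹ ⋆ ee k) (ee j) = (0 : F) := by
    intro j
    rw [← xm_neg hab, xm, xS_act (orth_m hab)]
    simp only [fm_add_left, fm_smul_left, fm_ee_ee]
    simp
  rw [act_mul, act_mul, fix_isotropic hg.2 hz, act_inv_act]

/-- Conjugating the plane `a` by `ww`. -/
lemma ww_conj_plane {a b : Fin m} (hab : a ≠ b) {ℓ : Spg m F} (hℓ : ℓ ∈ Fx ({a} : Set (Fin m))) :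
    ww a b * ℓ * (ww a b)⁻¹ ∈ (Fx ({b} : Set (Fin m)) : Subgroup (Spg m F)) := by
  have hab' : b ∉ ({a} : Set (Fin m)) := by simpa using hab.symm
  intro j hj
  have hjb : j ≠ b := by simpa using hj
  by_cases hja : j = a
  · subst hja
    constructor
    · rw [act_mul, act_mul, ww_inv_ee_a hab, act_neg, Fx.ee hℓ hab', act_neg, ww_ee_b hab, neg_neg]
    · rw [act_mul, act_mul, ww_inv_ff_a hab, act_neg, Fx.ff hℓ hab', act_neg, ww_ff_b hab, neg_neg]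
  · have hja' : j ∉ ({a} : Set (Fin m)) := by simpa using hja
    have hjp : j ∉ ({a, b} : Set (Fin m)) := by simp [hja, hjb]
    have hw := ww_mem (F := F) a b
    have hw' := (Fx ({a, b} : Set (Fin m))).inv_mem hw
    constructor
    · rw [act_mul, act_mul, Fx.ee hw' hjp, Fx.ee hℓ hja', Fx.ee hw hjp]
    · rw [act_mul, act_mul, Fx.ff hw' hjp, Fx.ff hℓ hja', Fx.ff hw hjp]

/-- Conjugating the plane `b` by the inverse of `ww`. -/
lemma ww_inv_conj_plane {a b : Fin m} (hab : a ≠ b) {ℓ : Spg m F} (hℓ : ℓ ∈ Fx ({b} : Set (Fin m))) :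
    (ww a b)⁻¹ * ℓ * ww a b ∈ (Fx ({a} : Set (Fin m)) : Subgroup (Spg m F)) := by
  have hab' : a ∉ ({b} : Set (Fin m)) := by simpa using hab
  intro j hj
  have hja : j ≠ a := by simpa using hj
  by_cases hjb : j = b
  · subst hjb
    constructor
    · rw [act_mul, act_mul, ww_ee_b hab, act_neg, Fx.ee hℓ hab', act_neg, ww_inv_ee_a hab, neg_neg]
    · rw [act_mul, act_mul, ww_ff_b hab, act_neg, Fx.ff hℓ hab', act_neg, ww_inv_ff_a hab, neg_neg]
  · have hjb' : j ∉ ({b} : Set (Fin m)) := by simpa using hjb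
    have hjp : j ∉ ({a, b} : Set (Fin m)) := by simp [hja, hjb]
    have hw := ww_mem (F := F) a b
    have hw' := (Fx ({a, b} : Set (Fin m))).inv_mem hw
    constructor
    · rw [act_mul, act_mul, Fx.ee hw hjp, Fx.ee hℓ hjb', Fx.ee hw' hjp]
    · rw [act_mul, act_mul, Fx.ff hw hjp, Fx.ff hℓ hjb', Fx.ff hw' hjp]

lemma xp_comm_tS {a b : Fin m} (hab : a ≠ b) (c d : F) : xp a b c * tS (ee a) d = tS (ee a) d * xp a b c := by
  apply sp_ext
  intro x
  simp only [act_mul, xp, xS_act (orth_p hab), tS_act, fm_add_left, fm_smul_left, fm_self, orth_p' hab, orth_p hab, fm_ee_ee]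
  simp only [mul_zero, zero_add, add_zero]
  module

lemma nn_comm_tS {a b : Fin m} (hab : a ≠ b) (d : F) : (nn b : Spg m F) * tS (ee a) d = tS (ee a) d * nn b :=
  Fx_comm (disjoint_single hab).symm (nn_mem (Set.mem_singleton b)) (tS_mem (Sup_ee (Set.mem_singleton a)) d)

end Cfsg.Agent.Lib.SpAm.Rank2G
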